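import Cfsg.Agent.H162.WeilBound
import Cfsg.Agent.H162.RkTwoFam_m3
import Cfsg.Agent.H66.Cod.Base
import Cfsg.Agent.Characters.Core
import Cfsg.Agent.H686.CharKit
import Mathlib.NumberTheory.LegendreSymbol.AddCharacter
import Cfsg.Agent.H162.WeilIrr
import Mathlib.LinearAlgebra.Eigenspace.Triangularizable
import Cfsg.Agent.H162.WeilCount
import Mathlib.LinearAlgebra.Eigenspace.Basic
import Cfsg.Agent.Prune
set_option linter.all false

section
prune_inst 0x7ffeecfbebef39ffdffb7e3faff2fffc33810fffe6dff94b7fe069bf0bdf13800dc5af850de030fe1ed6601410b8f853fb7eaefe682ddc7ffffdfff41ffbee0fa5e7b508519488340fbc0fff03f0778a6f3fffffffffffffffffffffffffffbefffdfbfeffff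

-- part: H495/TI/Count
section
prune_inst 0x111001410c600000481c0500d0003cc3a700009200480800e00400420cc1ec22a507a120b0301012988ca2c440380048151019242200000000000c00011c058100800200a1480000000006000000410000000000000000000000000000000000204010000
set_option linter.all false
open scoped Cfsg.Agent.FastGrp

/-!
# Counting congruence classes over the field of three elements (helper495)
-/

set_option autoImplicit false
set_option linter.unusedSectionVars false
set_option linter.unusedSimpArgs false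
open Matrix Module

namespace Cfsg.Agent.H495.TI

open Cfsg.Agent.H162.Weil

variable {F : Type*} [Field F] {n : ℕ} [Fintype F]

open Classical in
/-- The number of pairs giving the same symmetric matrix. -/
theorem card_fibre_conic (h2 : (2 : F) ≠ 0) {a b : F} (hb : b ≠ 0) (ha : a ≠ 0) {i j : Fin n}
    (hij : i ≠ j) (T : Matrix (Fin n) (Fin n) F) :
    (Finset.univ.filter (fun s : {s : Fin 2 → Fin n → F // LinearIndependent F s} =>
      T2 n a b s.1 = T)).card ≤
      2 * (Finset.univ.filter (fun p : F × F => a * p.1 ^ 2 + b * p.2 ^ 2 = a)).card := by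
  set A := Finset.univ.filter (fun s : {s : Fin 2 → Fin n → F // LinearIndependent F s} =>
      T2 n a b s.1 = T) with hA
  rcases A.eq_empty_or_nonempty with h | ⟨s0, hs0⟩
  · rw [h]; simp only [_root_.Finset.card_empty, _root_.zero_le]
  have hT0 : T2 n a b s0.1 = T := by
    have := Finset.mem_filter.mp hs0
    exact this.2
  have hli : LinearIndependent F ![s0.1 0, s0.1 1] := by
    have h3 : ![s0.1 0, s0.1 1] = s0.1 := by
      ext k; fin_cases k <;> rfl
    rw [h3]; exact s0.2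
  obtain ⟨P, hP0, hP1⟩ := exists_gl_pair hij hli
  set x0 : Fin n → F := ((P⁻¹ : GL (Fin n) F) : Matrix (Fin n) (Fin n) F) *ᵥ Pi.single i 1 with hx0
  set y0 : Fin n → F := ((P⁻¹ : GL (Fin n) F) : Matrix (Fin n) (Fin n) F) *ᵥ Pi.single j 1 with hy0
  have hPP : (P : Matrix (Fin n) (Fin n) F) * ((P⁻¹ : GL (Fin n) F) : Matrix (Fin n) (Fin n) F) = 1 := by
    rw [← Units.val_mul, mul_inv_cancel, Units.val_one]
  have e00 : s0.1 0 ⬝ᵥ x0 = 1 := by
    rw [← hP0, hx0, ← dotProduct_mulVec, mulVec_mulVec, hPP, one_mulVec]; simp only [_root_.dotProduct_single, _root_.Pi.single_eq_same, _root_.mul_one]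
  have e01 : s0.1 0 ⬝ᵥ y0 = 0 := by
    rw [← hP0, hy0, ← dotProduct_mulVec, mulVec_mulVec, hPP, one_mulVec]; simp only [hij.symm, hij, _root_.dotProduct_single, _root_.ne_eq, _root_.not_false_eq_true, _root_.Pi.single_eq_of_ne, _root_.mul_one]
  have e10 : s0.1 1 ⬝ᵥ x0 = 0 := by
    rw [← hP1, hx0, ← dotProduct_mulVec, mulVec_mulVec, hPP, one_mulVec]; simp only [hij.symm, hij, _root_.dotProduct_single, _root_.ne_eq, _root_.not_false_eq_true, _root_.Pi.single_eq_of_ne, _root_.mul_one]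
  have e11 : s0.1 1 ⬝ᵥ y0 = 1 := by
    rw [← hP1, hy0, ← dotProduct_mulVec, mulVec_mulVec, hPP, one_mulVec]; simp
  -- the facts for members of the fibre
  have facts : ∀ s : Fin 2 → Fin n → F, T2 n a b s = T →
      (a * (s 0 ⬝ᵥ x0)) • s 0 + (b * (s 1 ⬝ᵥ x0)) • s 1 = a • s0.1 0 ∧
      (a * (s 0 ⬝ᵥ y0)) • s 0 + (b * (s 1 ⬝ᵥ y0)) • s 1 = b • s0.1 1 := by
    intro s hs
    rw [← T2_mulVec, ← T2_mulVec, hs, ← hT0, T2_mulVec, T2_mulVec, e00, e01, e10, e11]
    constructor <;> simp
  have facts2 : ∀ s : Fin 2 → Fin n → F, T2 n a b s = T →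
      a * (s 0 ⬝ᵥ x0) ^ 2 + b * (s 1 ⬝ᵥ x0) ^ 2 = a ∧
      a * (s 0 ⬝ᵥ x0) * (s 0 ⬝ᵥ y0) + b * (s 1 ⬝ᵥ x0) * (s 1 ⬝ᵥ y0) = 0 ∧
      a * (s 0 ⬝ᵥ y0) ^ 2 + b * (s 1 ⬝ᵥ y0) ^ 2 = b := by
    intro s hs
    obtain ⟨h3, h4⟩ := facts s hs
    refine ⟨?_, ?_, ?_⟩
    · have := congrArg (fun w => w ⬝ᵥ x0) h3
      simp only [add_dotProduct, smul_dotProduct, smul_eq_mul, e00] at this
      linear_combination this
    · have := congrArg (fun w => w ⬝ᵥ y0) h3
      simp only [add_dotProduct, smul_dotProduct, smul_eq_mul, e01] at this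
      linear_combination this
    · have := congrArg (fun w => w ⬝ᵥ y0) h4
      simp only [add_dotProduct, smul_dotProduct, smul_eq_mul, e11] at this
      linear_combination this
  let φ : {s : Fin 2 → Fin n → F // LinearIndependent F s} → F × (F × F) := fun s =>
    ((s.1 0 ⬝ᵥ x0) * (s.1 1 ⬝ᵥ y0) - (s.1 0 ⬝ᵥ y0) * (s.1 1 ⬝ᵥ x0), (s.1 0 ⬝ᵥ x0, s.1 1 ⬝ᵥ x0))
  have hcard : (({1, -1} : Finset F) ×ˢ
      Finset.univ.filter (fun p : F × F => a * p.1 ^ 2 + b * p.2 ^ 2 = a)).card ≤
        2 * (Finset.univ.filter (fun p : F × F => a * p.1 ^ 2 + b * p.2 ^ 2 = a)).card := by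
    rw [Finset.card_product]
    exact Nat.mul_le_mul Finset.card_le_two le_rfl
  refine le_trans (Finset.card_le_card_of_injOn φ ?_ ?_) hcard
  · intro s hs
    have hs' : T2 n a b s.1 = T := by
      have := Finset.mem_filter.mp hs
      exact this.2
    obtain ⟨g1, g2, g3⟩ := facts2 s.1 hs'
    rw [Finset.mem_coe, Finset.mem_product]
    constructor
    · rw [Finset.mem_insert, Finset.mem_singleton]
      have h3 : a * b * (((s.1 0 ⬝ᵥ x0) * (s.1 1 ⬝ᵥ y0) - (s.1 0 ⬝ᵥ y0) * (s.1 1 ⬝ᵥ x0)) ^ 2) =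
          a * b := by
        generalize s.1 0 ⬝ᵥ x0 = α at *
        generalize s.1 0 ⬝ᵥ y0 = β at *
        generalize s.1 1 ⬝ᵥ x0 = γ at *
        generalize s.1 1 ⬝ᵥ y0 = δ at *
        linear_combination (a * β ^ 2 + b * δ ^ 2) * g1 - (a * α * β + b * γ * δ) * g2 + a * g3
      have h4 : ((s.1 0 ⬝ᵥ x0) * (s.1 1 ⬝ᵥ y0) - (s.1 0 ⬝ᵥ y0) * (s.1 1 ⬝ᵥ x0)) ^ 2 = 1 := by
        have := mul_ne_zero ha hb
        apply mul_left_cancel₀ this
        rw [h3, mul_one]
      have h5 : (((s.1 0 ⬝ᵥ x0) * (s.1 1 ⬝ᵥ y0) - (s.1 0 ⬝ᵥ y0) * (s.1 1 ⬝ᵥ x0)) - 1) *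
          (((s.1 0 ⬝ᵥ x0) * (s.1 1 ⬝ᵥ y0) - (s.1 0 ⬝ᵥ y0) * (s.1 1 ⬝ᵥ x0)) + 1) = 0 := by
        linear_combination h4
      rcases mul_eq_zero.mp h5 with h | h
      · exact Or.inl (by linear_combination h)
      · exact Or.inr (by linear_combination h)
    · rw [Finset.mem_filter]
      exact ⟨Finset.mem_univ _, g1⟩
  · intro s hs s' hs' hφ
    have hs1 : T2 n a b s.1 = T := (Finset.mem_filter.mp hs).2
    have hs2 : T2 n a b s'.1 = T := (Finset.mem_filter.mp hs').2
    have main : ∀ s : {s : Fin 2 → Fin n → F // LinearIndependent F s}, T2 n a b s.1 = T →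
        s.1 0 = (φ s).2.1 • s0.1 0 - (b / a * (φ s).2.2 * (φ s).1) • s0.1 1 ∧
        s.1 1 = ((φ s).2.1 * (φ s).1) • s0.1 1 + (φ s).2.2 • s0.1 0 := by
      intro s hs
      obtain ⟨g1, g2, g3⟩ := facts2 s.1 hs
      obtain ⟨f1, f2⟩ := facts s.1 hs
      simp only [φ]
      set α := s.1 0 ⬝ᵥ x0
      set β := s.1 0 ⬝ᵥ y0
      set γ := s.1 1 ⬝ᵥ x0
      set δ := s.1 1 ⬝ᵥ y0
      have E : (α * δ - β * γ) ^ 2 = 1 := by
        have := mul_ne_zero ha hb
        apply mul_left_cancel₀ this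
        linear_combination (a * β ^ 2 + b * δ ^ 2) * g1 - (a * α * β + b * γ * δ) * g2 + a * g3
      have D1 : a * δ = a * α * (α * δ - β * γ) := by linear_combination -δ * g1 + γ * g2
      have D2 : a * β = - b * γ * (α * δ - β * γ) := by linear_combination α * g2 - β * g1
      obtain ⟨ε, hε⟩ : ∃ ε, ε = α * δ - β * γ := ⟨_, rfl⟩
      rw [← hε] at D1 D2 E
      rw [← hε]
      have D1' : δ = α * ε := by
        apply mul_left_cancel₀ ha
        rw [D1]; ring
      constructor
      · ext m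
        have k1 := congrFun f1 m
        have k2 := congrFun f2 m
        simp only [Pi.add_apply, Pi.smul_apply, smul_eq_mul, Pi.sub_apply] at k1 k2 ⊢
        rw [D1'] at k2
        apply mul_left_cancel₀ ha
        have h5 : a * (α * s0.1 0 m - b / a * γ * ε * s0.1 1 m) =
          α * (a * s0.1 0 m) - γ * ε * (b * s0.1 1 m) := by field_simp
        rw [h5]
        linear_combination α * k1 - γ * ε * k2 - (s.1 0 m) * g1 + (s.1 0 m) * γ * ε * D2 +
          (b * α * γ * s.1 1 m - b * γ ^ 2 * s.1 0 m) * E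
      · ext m
        have k1 := congrFun f1 m
        have k2 := congrFun f2 m
        simp only [Pi.add_apply, Pi.smul_apply, smul_eq_mul, Pi.sub_apply] at k1 k2 ⊢
        rw [D1'] at k2
        apply mul_left_cancel₀ (mul_ne_zero ha hb)
        linear_combination a * α * ε * k2 + b * γ * k1 - b * s.1 1 m * g1 -
          a * b * α ^ 2 * s.1 1 m * E - a * α * ε * s.1 0 m * D2 + a * b * α * γ * s.1 0 m * E
    obtain ⟨m1, m2⟩ := main s hs1
    obtain ⟨m1', m2'⟩ := main s' hs2
    rw [← hφ] at m1' m2'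
    apply Subtype.ext
    ext k m
    fin_cases k
    · exact congrFun (m1.trans m1'.symm) m
    · exact congrFun (m2.trans m2'.symm) m


/-! ### The field of three elements -/

theorem three_cases (hF : Fintype.card F = 3) (x : F) : x = 0 ∨ x = 1 ∨ x = -1 := by
  have h := FiniteField.pow_card x
  rw [hF] at h
  have h1 : x * ((x - 1) * (x + 1)) = 0 := by linear_combination h
  rcases mul_eq_zero.mp h1 with h2 | h2
  · exact Or.inl h2
  rcases mul_eq_zero.mp h2 with h3 | h3
  · exact Or.inr (Or.inl (by linear_combination h3))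
  · exact Or.inr (Or.inr (by linear_combination h3))

theorem three_eq (hF : Fintype.card F = 3) : (3 : F) = 0 := by
  have h : ((Fintype.card F : ℕ) : F) = 0 := FiniteField.cast_card_eq_zero F
  rw [hF] at h
  exact_mod_cast h

theorem two_ne (hF : Fintype.card F = 3) : (2 : F) ≠ 0 := by
  intro h
  have h3 := three_eq hF
  have : (1 : F) = 0 := by linear_combination h3 - h
  exact one_ne_zero this

theorem sq_one (hF : Fintype.card F = 3) {x : F} (hx : x ≠ 0) : x ^ 2 = 1 := by
  rcases three_cases hF x with h | h | h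
  · exact absurd h hx
  · rw [h]; ring
  · rw [h]; ring

open Classical in
theorem conic_hyp (hF : Fintype.card F = 3) :
    (Finset.univ.filter (fun p : F × F => (1 : F) * p.1 ^ 2 + (-1) * p.2 ^ 2 = 1)).card ≤ 2 := by
  refine le_trans (Finset.card_le_card ?_) (Finset.card_le_two (a := ((1 : F), (0 : F)))
    (b := ((-1 : F), (0 : F))))
  rintro ⟨x, y⟩ h
  simp only [Finset.mem_filter, Finset.mem_univ, true_and] at h
  have hx : x ≠ 0 := by
    rintro rfl
    by_cases hy : y = 0
    · subst hy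
      simp at h
    · rw [sq_one hF hy] at h
      apply two_ne hF
      linear_combination -h
  have hx2 := sq_one hF hx
  have hy : y = 0 := by
    by_contra hy
    rw [hx2, sq_one hF hy] at h
    apply one_ne_zero (α := F)
    linear_combination -h
  subst hy
  rw [Finset.mem_insert, Finset.mem_singleton]
  rcases three_cases hF x with h3 | h3 | h3
  · exact absurd h3 hx
  · exact Or.inl (by rw [h3])
  · exact Or.inr (by rw [h3])

theorem TU_eq_T2 (a b : F) (x y : Fin n → F) : TU a b x y = T2 n a b ![x, y] := by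
  ext k l
  simp [TU_apply, T2, vecMulVec_apply]

open Classical in
/-- lower bound for the hyperbolic class -/
theorem card_hyp (hF : Fintype.card F = 3) (hn : 2 ≤ n) {i k : Fin n} (hik : i ≠ k) :
    (3 ^ n - 1) * (3 ^ n - 3) ≤
      4 * Nat.card (Ob (TU 1 (-1) (Pi.single i 1) (Pi.single k 1) : Matrix (Fin n) (Fin n) F)) := by
  have h2 := two_ne hF
  set T0 := (TU 1 (-1) (Pi.single i 1) (Pi.single k 1) : Matrix (Fin n) (Fin n) F) with hT0
  have hmem : ∀ s : Fin 2 → Fin n → F, LinearIndependent F s →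
      ∃ h : GL (Fin n) F, T2 n 1 (-1) s = actT h T0 := by
    intro s hs
    have hli : LinearIndependent F ![s 0, s 1] := by
      have h3 : ![s 0, s 1] = s := by
        ext k; fin_cases k <;> rfl
      rw [h3]; exact hs
    obtain ⟨P, hP0, hP1⟩ := exists_gl_pair hik hli
    refine ⟨P⁻¹, ?_⟩
    rw [hT0, actT_TU, inv_inv, hP0, hP1, TU_eq_T2]
    rfl
  have hsym : ∀ s : Fin 2 → Fin n → F, T2 n (1 : F) (-1) s ∈ _root_.Cfsg.Agent.H162.Weil.Sym n F := by
    intro s
    rw [mem_Sym, T2, transpose_add, transpose_smul, transpose_smul, transpose_vecMulVec,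
      transpose_vecMulVec]
  let f : {s : Fin 2 → Fin n → F // LinearIndependent F s} → Ob T0 := fun s =>
    ⟨⟨T2 n 1 (-1) s.1, hsym s.1⟩, hmem s.1 s.2⟩
  have hc := Finset.card_le_mul_card_image (f := f) Finset.univ 4 (by
    intro b _
    have h4 := card_fibre_conic h2 (neg_ne_zero.mpr (one_ne_zero (α := F))) one_ne_zero hik b.1.1
    refine le_trans (Finset.card_le_card ?_) (h4.trans (Nat.mul_le_mul le_rfl (conic_hyp hF)))
    intro s hs
    rw [Finset.mem_filter] at hs ⊢
    refine ⟨Finset.mem_univ _, ?_⟩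
    have h3 := hs.2
    rw [← h3])
  have hcard : Nat.card {s : Fin 2 → Fin n → F // LinearIndependent F s} =
      (3 ^ n - 1) * (3 ^ n - 3) := by
    rw [card_linearIndependent (by simpa only [_root_.Module.finrank_fintype_fun_eq_card, _root_.Fintype.card_fin] using hn)]
    simp only [Fin.prod_univ_two, hF, _root_.Module.finrank_fintype_fun_eq_card, _root_.Fintype.card_fin, _root_.Fin.isValue, _root_.Fin.coe_ofNat_eq_mod, _root_.Nat.zero_mod, _root_.pow_zero, _root_.Nat.mod_succ, _root_.pow_one]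
  rw [← hcard, Nat.card_eq_fintype_card, ← Finset.card_univ]
  refine hc.trans (Nat.mul_le_mul le_rfl ?_)
  rw [Nat.card_eq_fintype_card]
  exact Finset.card_le_univ _

/-- lower bound for the anisotropic class -/
theorem card_aniso (hF : Fintype.card F = 3) (hn : 2 ≤ n) {i k : Fin n} (hik : i ≠ k) :
    (3 ^ n - 1) * (3 ^ n - 3) ≤
      8 * Nat.card (Ob (TU 1 1 (Pi.single i 1) (Pi.single k 1) : Matrix (Fin n) (Fin n) F)) := by
  have h := card_Ob (n := n) (two_ne hF) (by rw [hF]) hn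
    (TU_mem 1 1 (Pi.single i 1) (Pi.single k 1) : TU (1 : F) 1 _ _ ∈ _root_.Cfsg.Agent.H162.Weil.Sym n F)
    (x := i) (y := i) (z := k) (w := k) (by simp [TU_apply, hik, hik.symm])
  rw [hF] at h
  exact h

/-! ### Rank at least three -/

open Classical in
theorem card_one_three {i j k : Fin n} (hij : i ≠ j) (hik : i ≠ k) (hjk : j ≠ k) :
    (Finset.univ.filter (fun p : Fin n → F => p i = 0 ∧ p j = 0 ∧ p k = 1)).card =
      Fintype.card F ^ (n - 3) := by
  have h1 : Finset.univ.filter (fun p : Fin n → F => p i = 0 ∧ p j = 0 ∧ p k = 1) =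
      Fintype.piFinset (fun l => if l = i then {0} else if l = j then {0} else if l = k then {1}
        else Finset.univ) := by
    ext p
    rw [Finset.mem_filter, Fintype.mem_piFinset]
    constructor
    · rintro ⟨_, h0, h1, h2⟩ l
      by_cases hl : l = i
      · subst hl; simpa using h0
      · by_cases hl' : l = j
        · subst hl'; simpa [hl] using h1
        · by_cases hl'' : l = k
          · subst hl''; simpa [hl, hl'] using h2
          · simp [hl, hl', hl'']
    · intro h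
      have h3 := h i
      have h4 := h j
      have h5 := h k
      simp only [if_true, if_neg hij.symm, if_neg hik.symm, if_neg hjk.symm,
        Finset.mem_singleton] at h3 h4 h5
      exact ⟨Finset.mem_univ _, h3, h4, h5⟩
  rw [h1, Fintype.card_piFinset, ← Finset.mul_prod_erase _ _ (Finset.mem_univ k),
    ← Finset.mul_prod_erase _ _ (Finset.mem_erase.mpr ⟨hjk, Finset.mem_univ j⟩),
    ← Finset.mul_prod_erase _ _ (Finset.mem_erase.mpr ⟨hij, Finset.mem_erase.mpr
      ⟨hik, Finset.mem_univ i⟩⟩),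
    if_neg hik.symm, if_neg hjk.symm, if_pos rfl, if_neg hij.symm, if_pos rfl, if_pos rfl,
    Finset.card_singleton, Finset.card_singleton, one_mul, one_mul, one_mul]
  rw [Finset.prod_congr rfl (g := fun _ => Fintype.card F), Finset.prod_const,
    Finset.card_erase_of_mem (Finset.mem_erase.mpr ⟨hij, Finset.mem_erase.mpr
      ⟨hik, Finset.mem_univ i⟩⟩),
    Finset.card_erase_of_mem (Finset.mem_erase.mpr ⟨hjk, Finset.mem_univ j⟩),
    Finset.card_erase_of_mem (Finset.mem_univ _), Finset.card_univ, Fintype.card_fin, Nat.sub_sub,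
    Nat.sub_sub]
  intro l hl
  rw [Finset.mem_erase, Finset.mem_erase, Finset.mem_erase] at hl
  rw [if_neg hl.1, if_neg hl.2.1, if_neg hl.2.2.1, Finset.card_univ]

/-- the matrix built from three vectors -/
def T4 (a : Fin n → F) (i j k : Fin n) (p r s : Fin n → F) : Matrix (Fin n) (Fin n) F :=
  (p i)⁻¹ • vecMulVec p p + (r j)⁻¹ • vecMulVec r r +
    (a i * a j * a k * p i * r j) • vecMulVec s s +
    ∑ l ∈ ((Finset.univ.erase i).erase j).erase k,
      a l • vecMulVec (Pi.single l 1) (Pi.single l 1)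

theorem T4_sum_mulVec (a : Fin n → F) {i j k l : Fin n} (hl : l = i ∨ l = j ∨ l = k) :
    (∑ l ∈ ((Finset.univ.erase i).erase j).erase k, a l • vecMulVec (Pi.single l 1 : Fin n → F)
      (Pi.single l 1)) *ᵥ (Pi.single l 1 : Fin n → F) = 0 := by
  rw [Matrix.sum_mulVec]
  apply Finset.sum_eq_zero
  intro t ht
  rw [Finset.mem_erase, Finset.mem_erase, Finset.mem_erase] at ht
  rw [smul_mulVec, vecMulVec_mulVec]
  have : t ≠ l := by
    rcases hl with rfl | rfl | rfl
    · exact ht.2.2.1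
    · exact ht.2.1
    · exact ht.1
  simp only [this, _root_.dotProduct_single, _root_.ne_eq, _root_.not_false_eq_true, _root_.Pi.single_eq_of_ne', _root_.mul_one, _root_.MulOpposite.op_zero, _root_.zero_smul, _root_.smul_zero]

theorem T4_inj {i j k : Fin n} {a : Fin n → F} (ha : a i * a j * a k ≠ 0)
    {p r s p' r' s' : Fin n → F}
    (hp : p i ≠ 0) (hr : r i = 0) (hrj : r j ≠ 0) (hsi : s i = 0) (hsj : s j = 0) (hsk : s k = 1)
    (hp' : p' i ≠ 0) (hr' : r' i = 0) (hrj' : r' j ≠ 0) (hsi' : s' i = 0) (hsj' : s' j = 0)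
    (hsk' : s' k = 1)
    (h : T4 a i j k p r s = T4 a i j k p' r' s') : p = p' ∧ r = r' ∧ s = s' := by
  have k1 : ∀ (p r s : Fin n → F), p i ≠ 0 → r i = 0 → r j ≠ 0 → s i = 0 → s j = 0 → s k = 1 →
      T4 a i j k p r s *ᵥ (Pi.single i 1 : Fin n → F) = p ∧
      T4 a i j k p r s *ᵥ (Pi.single j 1 : Fin n → F) = ((p i)⁻¹ * p j) • p + r ∧
      T4 a i j k p r s *ᵥ (Pi.single k 1 : Fin n → F) = ((p i)⁻¹ * p k) • p +
        ((r j)⁻¹ * r k) • r + (a i * a j * a k * p i * r j) • s := by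
    intro p r s hp hr hrj hsi hsj hsk
    refine ⟨?_, ?_, ?_⟩
    · rw [T4, add_mulVec, T4_sum_mulVec a (Or.inl rfl), add_mulVec, add_mulVec, smul_mulVec,
        smul_mulVec, smul_mulVec, vecMulVec_mulVec, vecMulVec_mulVec, vecMulVec_mulVec]
      ext m
      simp only [hr, hsi, _root_.dotProduct_single, _root_.mul_one, _root_.IsCentralScalar.op_smul_eq_smul, _root_.MulOpposite.op_zero, _root_.zero_smul, _root_.smul_zero, _root_.add_zero, _root_.Pi.add_apply, _root_.Pi.smul_apply, _root_.smul_eq_mul, _root_.Pi.zero_apply]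
      field_simp
    · rw [T4, add_mulVec, T4_sum_mulVec a (Or.inr (Or.inl rfl)), add_mulVec, add_mulVec,
        smul_mulVec, smul_mulVec, smul_mulVec, vecMulVec_mulVec, vecMulVec_mulVec,
        vecMulVec_mulVec]
      ext m
      simp only [hr, hsj, _root_.dotProduct_single, _root_.mul_one, _root_.IsCentralScalar.op_smul_eq_smul, _root_.MulOpposite.op_zero, _root_.zero_smul, _root_.smul_zero, _root_.add_zero, _root_.Pi.add_apply, _root_.Pi.smul_apply, _root_.smul_eq_mul, _root_.Pi.zero_apply]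
      field_simp
    · rw [T4, add_mulVec, T4_sum_mulVec a (Or.inr (Or.inr rfl)), add_mulVec, add_mulVec,
        smul_mulVec, smul_mulVec, smul_mulVec, vecMulVec_mulVec, vecMulVec_mulVec,
        vecMulVec_mulVec]
      ext m
      simp only [hsk, _root_.dotProduct_single, _root_.mul_one, _root_.IsCentralScalar.op_smul_eq_smul, _root_.MulOpposite.op_one, _root_.one_smul, _root_.Pi.add_apply, _root_.Pi.smul_apply, _root_.smul_eq_mul, _root_.Pi.zero_apply, _root_.add_zero, _root_.add_left_inj]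
      ring
  obtain ⟨e1, e2, e3⟩ := k1 p r s hp hr hrj hsi hsj hsk
  obtain ⟨e1', e2', e3'⟩ := k1 p' r' s' hp' hr' hrj' hsi' hsj' hsk'
  have hpp : p = p' := by rw [← e1, ← e1', h]
  subst hpp
  rw [h, e2'] at e2
  have hrr : r = r' := (add_left_cancel e2).symm
  subst hrr
  rw [h, e3'] at e3
  have h5 := add_left_cancel e3
  refine ⟨rfl, rfl, ?_⟩
  have hne : a i * a j * a k * p i * r j ≠ 0 := mul_ne_zero (mul_ne_zero ha hp) hrj
  exact (smul_right_injective _ hne h5).symm

/-- `T4` is in the class -/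
theorem T4_mem (h2 : (2 : F) ≠ 0) {a : Fin n → F} {i j k : Fin n} (hij : i ≠ j) (hik : i ≠ k)
    (hjk : j ≠ k) (hi : a i ≠ 0) (hj : a j ≠ 0) (hk : a k ≠ 0) {p r s : Fin n → F}
    (hp : p i ≠ 0) (hr : r i = 0) (hrj : r j ≠ 0) (hsi : s i = 0) (hsj : s j = 0) (hsk : s k = 1) :
    ∃ h : GL (Fin n) F, T4 a i j k p r s = actT h (diagonal a) := by
  obtain ⟨g1, hg1⟩ := bin_step h2 hij a hi hj hp
  set a1 := Function.update (Function.update a i (p i)) j (a i * a j * p i) with ha1
  have h1j : a1 j ≠ 0 := by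
    rw [ha1, Function.update_self]
    exact mul_ne_zero (mul_ne_zero hi hj) hp
  have h1k : a1 k ≠ 0 := by
    rw [ha1, Function.update_of_ne hjk.symm, Function.update_of_ne hik.symm]
    exact hk
  obtain ⟨g2, hg2⟩ := bin_step h2 hjk a1 h1j h1k hrj
  set a2 := Function.update (Function.update a1 j (r j)) k (a1 j * a1 k * r j) with ha2
  have e2i : a2 i = p i := by
    rw [ha2, Function.update_of_ne hik, Function.update_of_ne hij, ha1, Function.update_of_ne hij,
      Function.update_self]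
  have e2j : a2 j = r j := by
    rw [ha2, Function.update_of_ne hjk, Function.update_self]
  have e2k : a2 k = a i * a j * a k * p i * r j := by
    rw [ha2, Function.update_self, ha1, Function.update_self, Function.update_of_ne hjk.symm,
      Function.update_of_ne hik.symm]
    ring
  have e2l : ∀ l, l ≠ i → l ≠ j → l ≠ k → a2 l = a l := by
    intro l h1 h2 h3
    rw [ha2, Function.update_of_ne h3, Function.update_of_ne h2, ha1, Function.update_of_ne h2,
      Function.update_of_ne h1]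
  let w : Fin n → F := (p i)⁻¹ • p - Pi.single i 1
  let w' : Fin n → F := (r j)⁻¹ • r - Pi.single j 1
  let w'' : Fin n → F := s - Pi.single k 1
  have hw : w i = 0 := by simp [w, hp]
  have hw'j : w' j = 0 := by simp [w', hrj]
  have hw'i : w' i = 0 := by simp [w', hr, hij]
  have hw''i : w'' i = 0 := by simp [w'', hsi, hik]
  have hw''j : w'' j = 0 := by simp [w'', hsj, hjk]
  have hw''k : w'' k = 0 := by simp [w'', hsk]
  let P1 : GL (Fin n) F := Cfsg.Agent.H162.Weil.rk (Pi.single i 1) w (by simp only [hw, _root_.dotProduct_single, _root_.mul_one, _root_.add_zero, _root_.ne_eq, _root_.one_ne_zero, _root_.not_false_eq_true])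
  let P2 : GL (Fin n) F := Cfsg.Agent.H162.Weil.rk (Pi.single j 1) w' (by simp only [hw'j, _root_.dotProduct_single, _root_.mul_one, _root_.add_zero, _root_.ne_eq, _root_.one_ne_zero, _root_.not_false_eq_true])
  let P3 : GL (Fin n) F := Cfsg.Agent.H162.Weil.rk (Pi.single k 1) w'' (by simp only [hw''k, _root_.dotProduct_single, _root_.mul_one, _root_.add_zero, _root_.ne_eq, _root_.one_ne_zero, _root_.not_false_eq_true])
  refine ⟨(P3 * P2 * P1)⁻¹ * (g2 * g1), ?_⟩
  rw [actT_mul, actT_mul, hg1, hg2, actT, inv_inv, diag_conj,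
    ← Finset.add_sum_erase _ _ (Finset.mem_univ i),
    ← Finset.add_sum_erase _ _ (Finset.mem_erase.mpr ⟨hij.symm, Finset.mem_univ j⟩),
    ← Finset.add_sum_erase _ _ (Finset.mem_erase.mpr ⟨hjk.symm, Finset.mem_erase.mpr
      ⟨hik.symm, Finset.mem_univ k⟩⟩), T4]
  have hrow : ∀ l, ((P3 * P2 * P1 : GL (Fin n) F) : Matrix (Fin n) (Fin n) F) l =
      (Pi.single l 1 : Fin n → F) + (Pi.single l 1 : Fin n → F) i • w +
        (Pi.single l 1 : Fin n → F) j • w' + (Pi.single l 1 : Fin n → F) k • w'' := by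
    intro l
    rw [← single_vecMul_row l ((P3 * P2 * P1 : GL (Fin n) F) : Matrix (Fin n) (Fin n) F),
      Units.val_mul, Units.val_mul, ← vecMul_vecMul, ← vecMul_vecMul, rk_coe, rk_coe, rk_coe,
      vecMul_add, vecMul_one, vecMul_vecMulVec, vecMul_add, vecMul_one, vecMul_vecMulVec,
      vecMul_add, vecMul_one, vecMul_vecMulVec]
    ext m
    simp only [hw'i, hw''i, hw''j, _root_.dotProduct_single, _root_.mul_one, _root_.Pi.add_apply, _root_.Pi.smul_apply, _root_.smul_eq_mul, _root_.MulZeroClass.mul_zero, _root_.add_zero]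
    ring
  have r1 : ((P3 * P2 * P1 : GL (Fin n) F) : Matrix (Fin n) (Fin n) F) i = (p i)⁻¹ • p := by
    rw [hrow]
    ext m
    simp [w, hij.symm, hik.symm]
  have r2 : ((P3 * P2 * P1 : GL (Fin n) F) : Matrix (Fin n) (Fin n) F) j = (r j)⁻¹ • r := by
    rw [hrow]
    ext m
    simp [w', hij, hjk.symm]
  have r3 : ((P3 * P2 * P1 : GL (Fin n) F) : Matrix (Fin n) (Fin n) F) k = s := by
    rw [hrow]
    ext m
    simp [w'', hik, hjk]
  have r4 : ∀ l, l ≠ i → l ≠ j → l ≠ k →
      ((P3 * P2 * P1 : GL (Fin n) F) : Matrix (Fin n) (Fin n) F) l = Pi.single l 1 := by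
    intro l h1 h2 h3
    rw [hrow]
    ext m
    simp [Ne.symm h1, Ne.symm h2, Ne.symm h3]
  rw [r1, r2, r3, e2i, e2j, e2k, ← add_assoc, ← add_assoc]
  congr 1
  · congr 1
    congr 1
    · ext x y
      simp only [vecMulVec_apply, _root_.Matrix.smul_apply, _root_.smul_eq_mul, _root_.Matrix.vecMulVec_smul, _root_.Matrix.smul_vecMulVec]
      field_simp
    · ext x y
      simp only [vecMulVec_apply, _root_.Matrix.smul_apply, _root_.smul_eq_mul, _root_.Matrix.vecMulVec_smul, _root_.Matrix.smul_vecMulVec]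
      field_simp
  · apply Finset.sum_congr rfl
    intro l hl
    rw [Finset.mem_erase, Finset.mem_erase, Finset.mem_erase] at hl
    rw [r4 l hl.2.2.1 hl.2.1 hl.1, e2l l hl.2.2.1 hl.2.1 hl.1]

open Classical in
theorem card_three_lower (h2 : (2 : F) ≠ 0) {a : Fin n → F} {i j k : Fin n} (hij : i ≠ j)
    (hik : i ≠ k) (hjk : j ≠ k) (hi : a i ≠ 0) (hj : a j ≠ 0) (hk : a k ≠ 0) :
    ((Fintype.card F - 1) * Fintype.card F ^ (n - 1)) *
      (((Fintype.card F - 1) * Fintype.card F ^ (n - 2)) * Fintype.card F ^ (n - 3)) ≤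
      Nat.card (Ob (diagonal a)) := by
  rw [← card_ne i, ← card_ne_two hij, ← card_one_three hij hik hjk, ← Finset.card_product,
    ← Finset.card_product, Nat.card_eq_fintype_card, ← Finset.card_univ]
  have hex : ∀ p r s : Fin n → F, p i ≠ 0 → r i = 0 → r j ≠ 0 → s i = 0 → s j = 0 → s k = 1 →
      ∃ S : Ob (diagonal a), S.1.1 = T4 a i j k p r s := by
    intro p r s hp hr hrj hsi hsj hsk
    obtain ⟨h, hh⟩ := T4_mem h2 hij hik hjk hi hj hk hp hr hrj hsi hsj hsk
    refine ⟨⟨⟨T4 a i j k p r s, ?_⟩, ⟨h, hh⟩⟩, rfl⟩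
    rw [hh]
    exact actT_mem h (by rw [mem_Sym, diagonal_transpose])
  have hne : Nonempty (Ob (diagonal a)) :=
    ⟨⟨⟨diagonal a, by rw [mem_Sym, diagonal_transpose]⟩, 1, (actT_one _).symm⟩⟩
  let f : (Fin n → F) × ((Fin n → F) × (Fin n → F)) → Ob (diagonal a) := fun pr =>
    if h : ∃ S : Ob (diagonal a), S.1.1 = T4 a i j k pr.1 pr.2.1 pr.2.2 then h.choose
    else hne.some
  refine Finset.card_le_card_of_injOn f (fun _ _ => Finset.mem_univ _) ?_
  have hf : ∀ p r s : Fin n → F, p i ≠ 0 → r i = 0 → r j ≠ 0 → s i = 0 → s j = 0 → s k = 1 →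
      (f (p, (r, s))).1.1 = T4 a i j k p r s := by
    intro p r s hp hr hrj hsi hsj hsk
    have h := hex p r s hp hr hrj hsi hsj hsk
    have h3 : f (p, (r, s)) = h.choose := dif_pos h
    rw [h3]
    exact h.choose_spec
  rintro ⟨p, r, s⟩ h ⟨p', r', s'⟩ h' hff
  simp only [Finset.coe_product, Set.mem_prod, Finset.coe_filter, Finset.mem_univ, true_and,
    Set.mem_ofPred_eq] at h h'
  obtain ⟨h1, ⟨h3, h4⟩, h5, h6, h7⟩ := h
  obtain ⟨h1', ⟨h3', h4'⟩, h5', h6', h7'⟩ := h'
  have e := hf p r s h1 h3 h4 h5 h6 h7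
  have e' := hf p' r' s' h1' h3' h4' h5' h6' h7'
  rw [hff, e'] at e
  obtain ⟨a1, a2, a3⟩ := T4_inj (mul_ne_zero (mul_ne_zero hi hj) hk) h1' h3' h4' h5' h6' h7' h1 h3
    h4 h5 h6 h7 e
  rw [a1, a2, a3]

end Cfsg.Agent.H495.TI

private theorem dce_9411bfb2d5b7 : _root_.True := by
  try have : _root_.True := by simp only [_root_.Cfsg.Agent.H495.TI.T4.eq_1]
  exact _root_.True.intro
end

-- part: H495/TI/Three
section
prune_inst 0x4010000
set_option linter.all false
open scoped Cfsg.Agent.FastGrp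

/-!
# Nondegenerate ternary forms over the field of three elements (helper495)
-/

set_option autoImplicit false
set_option linter.unusedSectionVars false
set_option linter.unusedSimpArgs false
open Matrix Module

namespace Cfsg.Agent.H495.TI

open Cfsg.Agent.H162.Weil

/-- determinant polynomial of a symmetric `3 × 3` matrix -/
def dp {R : Type*} [CommRing R] (x : R × R × R × R × R × R) : R :=
  x.1 * x.2.1 * x.2.2.1 + 2 * (x.2.2.2.1 * x.2.2.2.2.1 * x.2.2.2.2.2) -
    x.1 * x.2.2.2.2.2 ^ 2 - x.2.1 * x.2.2.2.2.1 ^ 2 - x.2.2.1 * x.2.2.2.1 ^ 2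

set_option maxRecDepth 100000 in
theorem count_one : (Finset.univ.filter
    (fun x : ZMod 3 × ZMod 3 × ZMod 3 × ZMod 3 × ZMod 3 × ZMod 3 => dp x = 1)).card = 234 := by
  decide +kernel

set_option maxRecDepth 100000 in
theorem count_two : (Finset.univ.filter
    (fun x : ZMod 3 × ZMod 3 × ZMod 3 × ZMod 3 × ZMod 3 × ZMod 3 => dp x = -1)).card = 234 := by
  decide +kernel

variable {F : Type*} [Field F] [Fintype F]

theorem actT_det {n : ℕ} (hF : Fintype.card F = 3) (h : GL (Fin n) F)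
    (T : Matrix (Fin n) (Fin n) F) : (actT h T).det = T.det := by
  have h0 : ((h⁻¹ : GL (Fin n) F) : Matrix (Fin n) (Fin n) F).det ≠ 0 := by
    have := (GeneralLinearGroup.det h⁻¹).ne_zero
    rwa [GeneralLinearGroup.val_det_apply] at this
  rw [actT, det_mul, det_mul, det_transpose]
  have := sq_one hF h0
  linear_combination T.det * this

theorem nf3 (h2 : (2 : F) ≠ 0) (b : Fin 3 → F) (hb : ∀ i, b i ≠ 0) :
    ∃ h : GL (Fin 3) F, actT h (diagonal b) = diagonal ![1, 1, b 0 * b 1 * b 2] := by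
  obtain ⟨g1, hg1⟩ := bin_step h2 (show (0 : Fin 3) ≠ 1 by decide) b (hb 0) (hb 1)
    (one_ne_zero (α := F))
  have e1 : Function.update (Function.update b 0 1) 1 (b 0 * b 1 * 1) =
      ![1, b 0 * b 1, b 2] := by
    ext i
    fin_cases i <;> simp
  rw [e1] at hg1
  obtain ⟨g2, hg2⟩ := bin_step h2 (show (1 : Fin 3) ≠ 2 by decide) ![1, b 0 * b 1, b 2]
    (mul_ne_zero (hb 0) (hb 1)) (hb 2) (one_ne_zero (α := F))
  have e2 : Function.update (Function.update ![1, b 0 * b 1, b 2] 1 1) 2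
      ((![1, b 0 * b 1, b 2] : Fin 3 → F) 1 * (![1, b 0 * b 1, b 2] : Fin 3 → F) 2 * 1) =
      ![1, 1, b 0 * b 1 * b 2] := by
    ext i
    fin_cases i <;> simp
  rw [e2] at hg2
  exact ⟨g2 * g1, by rw [actT_mul, hg1, hg2]⟩

theorem mem_Ob_of_det (hF : Fintype.card F = 3) {a : Fin 3 → F} (ha : ∀ i, a i ≠ 0)
    {S : Sym 3 F} (hS : S.1.det = a 0 * a 1 * a 2) : S ∈ Ob (diagonal a) := by
  have h2 := two_ne hF
  obtain ⟨h, b, hb⟩ := exists_diag h2 S.1 S.2
  have hd : b 0 * b 1 * b 2 = a 0 * a 1 * a 2 := by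
    have := actT_det hF h S.1
    rw [hb, det_diagonal, Fin.prod_univ_three, hS] at this
    exact this
  have hb0 : b 0 * b 1 * b 2 ≠ 0 := by
    rw [hd]; exact mul_ne_zero (mul_ne_zero (ha 0) (ha 1)) (ha 2)
  have hbi : ∀ i, b i ≠ 0 := by
    intro i h0
    apply hb0
    fin_cases i
    · have h0' : b 0 = 0 := h0
      rw [h0']; ring
    · have h0' : b 1 = 0 := h0
      rw [h0']; ring
    · have h0' : b 2 = 0 := h0
      rw [h0']; ring
  obtain ⟨g, hg⟩ := nf3 h2 b hbi
  obtain ⟨g', hg'⟩ := nf3 h2 a ha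
  have h1 : Ob S.1 = Ob (diagonal a) := by
    rw [← Ob_congr h S.1, hb, ← Ob_congr g, hg, hd, ← hg', Ob_congr]
  rw [← h1]
  exact ⟨1, (actT_one _).symm⟩

/-- the symmetric matrix of a tuple -/
def mk3 (x : F × F × F × F × F × F) : Sym 3 F :=
  ⟨!![x.1, x.2.2.2.1, x.2.2.2.2.1; x.2.2.2.1, x.2.1, x.2.2.2.2.2;
      x.2.2.2.2.1, x.2.2.2.2.2, x.2.2.1], by
    rw [mem_Sym]
    ext i j
    fin_cases i <;> fin_cases j <;> rfl⟩

theorem mk3_det (x : F × F × F × F × F × F) : (mk3 x).1.det = dp x := by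
  rw [det_fin_three]
  simp [mk3, dp]
  ring

theorem mk3_inj : Function.Injective (mk3 : F × F × F × F × F × F → Sym 3 F) := by
  rintro ⟨a, b, c, d, e, f⟩ ⟨a', b', c', d', e', f'⟩ h
  have h1 := congrArg Subtype.val h
  have k : ∀ i j, (mk3 (a, b, c, d, e, f)).1 i j = (mk3 (a', b', c', d', e', f')).1 i j := by
    intro i j; rw [h1]
  have e1 : a = a' := k 0 0
  have e2 : b = b' := k 1 1
  have e3 : c = c' := k 2 2
  have e4 : d = d' := k 0 1
  have e5 : e = e' := k 0 2
  have e6 : f = f' := k 1 2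
  rw [e1, e2, e3, e4, e5, e6]

theorem card_nd3 (hF : Fintype.card F = 3) {a : Fin 3 → F} (ha : ∀ i, a i ≠ 0) :
    234 ≤ Nat.card (Ob (diagonal a)) := by
  classical
  let e : ZMod 3 ≃+* F := ZMod.ringEquivOfPrime F Nat.prime_three hF
  let E : ZMod 3 × ZMod 3 × ZMod 3 × ZMod 3 × ZMod 3 × ZMod 3 → F × F × F × F × F × F :=
    fun x => (e x.1, e x.2.1, e x.2.2.1, e x.2.2.2.1, e x.2.2.2.2.1, e x.2.2.2.2.2)
  have hE : Function.Injective E := by
    rintro ⟨a, b, c, d, e', f⟩ ⟨a', b', c', d', e'', f'⟩ h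
    simp only [E, Prod.mk.injEq, EmbeddingLike.apply_eq_iff_eq] at h
    obtain ⟨h1, h2, h3, h4, h5, h6⟩ := h
    rw [h1, h2, h3, h4, h5, h6]
  have hEd : ∀ x, dp (E x) = e (dp x) := by
    rintro ⟨a, b, c, d, e', f⟩
    have h2 : e 2 = 2 := map_ofNat e 2
    simp [dp, E, h2]
  obtain ⟨δ, hδ, hcard⟩ : ∃ δ : ZMod 3, e δ = a 0 * a 1 * a 2 ∧ (Finset.univ.filter
    (fun x : ZMod 3 × ZMod 3 × ZMod 3 × ZMod 3 × ZMod 3 × ZMod 3 => dp x = δ)).card = 234 := by
    rcases three_cases hF (a 0 * a 1 * a 2) with h | h | h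
    · exact absurd h (mul_ne_zero (mul_ne_zero (ha 0) (ha 1)) (ha 2))
    · exact ⟨1, by rw [map_one, h], count_one⟩
    · exact ⟨-1, by rw [map_neg, map_one, h], count_two⟩
  rw [← hcard, Nat.card_eq_fintype_card, ← Finset.card_univ]
  refine Finset.card_le_card_of_injOn (fun x => if h : dp x = δ then
    (⟨mk3 (E x), mem_Ob_of_det hF ha (by rw [mk3_det, hEd, h, hδ])⟩ : Ob (diagonal a)) else
    ⟨⟨diagonal a, by rw [mem_Sym, diagonal_transpose]⟩, 1, (actT_one _).symm⟩)
    (fun _ _ => Finset.mem_univ _) ?_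
  intro x hx y hy h
  have hx' : dp x = δ := by simpa using hx
  have hy' : dp y = δ := by simpa using hy
  simp only [hx', hy', dif_pos, Subtype.mk.injEq] at h
  exact hE (mk3_inj h)

end Cfsg.Agent.H495.TI

private theorem dce_06fe1566d31f : _root_.True := by
  try have : _root_.True := by simp only [_root_.Cfsg.Agent.H495.TI.dp.eq_1]
  try have : _root_.True := by simp only [_root_.Cfsg.Agent.H495.TI.mk3.eq_1]
  exact _root_.True.intro
end

-- part: H495/TI/Types
section
prune_inst 0x102001400420000040040000c0000004680000020040080048400a000a4122220502a8000400001018228080000000080010002000000000000004000000010000801200b1080000020006000080410000000000000000000000000000000000004010000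
set_option linter.all false
open scoped Cfsg.Agent.FastGrp

/-!
# Types of weights of a representation of degree `(9^n-1)/4` (helper495)
-/

set_option autoImplicit false
set_option linter.unusedSectionVars false
set_option linter.unusedSimpArgs false
open Matrix Module

namespace Cfsg.Agent.H495.TI

open Cfsg.Agent.H162.Weil

variable {F : Type*} [Field F] {n : ℕ} [Fintype F] {V : Type*} [AddCommGroup V] [Module ℂ V]
  {ρ : Representation ℂ (Sp n F) V} {ψ : AddChar F ℂ}

/-- `3 × 3` minors of a matrix of rank two -/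
theorem minors_zero (a b : F) (x y : Fin n → F) (r c : Fin 3 → Fin n) :
    ((a • vecMulVec x x + b • vecMulVec y y : Matrix (Fin n) (Fin n) F).submatrix r c).det = 0 := by
  rw [det_fin_three]
  simp only [submatrix_apply, Matrix.add_apply, Matrix.smul_apply, vecMulVec_apply, smul_eq_mul]
  ring

theorem arith_four (m : ℕ) : ¬ (4 * (((3 - 1) * 3 ^ (m + 4 - 1)) *
    (((3 - 1) * 3 ^ (m + 4 - 2)) * 3 ^ (m + 4 - 3))) + 1 ≤ 9 ^ (m + 4)) := by
  have h1 : m + 4 - 1 = m + 3 := by omega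
  have h2 : m + 4 - 2 = m + 2 := by omega
  have h3 : m + 4 - 3 = m + 1 := by omega
  rw [h1, h2, h3]
  have h5 : (9 : ℕ) ^ (m + 4) = (3 ^ m * 3 ^ m) * 6561 := by
    rw [show (9 : ℕ) = 3 ^ 2 by norm_num, ← pow_mul]
    ring
  have h6 : 1 ≤ 3 ^ m := Nat.one_le_pow _ _ (by norm_num)
  have h7 : 4 * (((3 - 1) * 3 ^ (m + 3)) * (((3 - 1) * 3 ^ (m + 2)) * 3 ^ (m + 1))) =
      (3 ^ m * 3 ^ m) * (3 ^ m * 11664) := by
    rw [pow_add, pow_add, pow_add]
    ring
  rw [h5, h7]
  have h8 : 3 ^ m * 3 ^ m * 6561 ≤ 3 ^ m * 3 ^ m * (3 ^ m * 11664) :=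
    Nat.mul_le_mul le_rfl (by omega)
  omega

/-- **All weights have rank at most two.** -/
theorem rkTwo [FiniteDimensional ℂ V] (hψ : ψ.IsPrimitive) (hF : Fintype.card F = 3) (hn : 3 ≤ n)
    (hE : 4 * finrank ℂ V + 1 = 9 ^ n) : RkTwo ρ ψ := by
  classical
  intro T hT v hv hne r c
  by_contra hdet
  have h2 := two_ne hF
  obtain ⟨h, a, ha⟩ := exists_diag h2 T hT
  have hTa : T = actT h⁻¹ (diagonal a) := by rw [← ha, ← actT_mul, inv_mul_cancel, actT_one]
  have hle := card_Ob_le hψ h2 hT hv hne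
  rw [← Ob_congr h T, ha] at hle
  obtain ⟨i, j, k, hij, hik, hjk, hi, hj, hk⟩ : ∃ i j k, i ≠ j ∧ i ≠ k ∧ j ≠ k ∧
      a i ≠ 0 ∧ a j ≠ 0 ∧ a k ≠ 0 := by
    by_contra hc
    push Not at hc
    apply hdet
    obtain ⟨i, k, hik, hz⟩ : ∃ i k : Fin n, i ≠ k ∧ ∀ l, l ≠ i → l ≠ k → a l = 0 := by
      by_cases h0 : ∃ i, a i ≠ 0
      · obtain ⟨i, hi⟩ := h0
        by_cases h1 : ∃ k, i ≠ k ∧ a k ≠ 0
        · obtain ⟨k, hik, hk⟩ := h1
          refine ⟨i, k, hik, fun l hl hl' => ?_⟩
          exact hc i k l hik hl.symm hl'.symm hi hk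
        · push Not at h1
          obtain ⟨k, hk⟩ : ∃ k : Fin n, i ≠ k := by
            have : Nontrivial (Fin n) := Fin.nontrivial_iff_two_le.mpr (by omega)
            obtain ⟨k, hk⟩ := exists_ne i
            exact ⟨k, hk.symm⟩
          exact ⟨i, k, hk, fun l hl _ => h1 l hl.symm⟩
      · push Not at h0
        exact ⟨⟨0, by omega⟩, ⟨1, by omega⟩, by simp, fun l _ _ => h0 l⟩
    rw [hTa, actT, inv_inv, diag_conj, ← Finset.add_sum_erase _ _ (Finset.mem_univ i),
      ← Finset.add_sum_erase _ _ (Finset.mem_erase.mpr ⟨hik.symm, Finset.mem_univ k⟩),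
      Finset.sum_eq_zero, add_zero]
    · exact minors_zero _ _ _ _ r c
    · intro l hl
      rw [Finset.mem_erase, Finset.mem_erase] at hl
      rw [hz l hl.2.1 hl.1, zero_smul]
  obtain rfl | hn4 : n = 3 ∨ 4 ≤ n := by omega
  · have h3 : 234 ≤ Nat.card (Ob (diagonal a)) := by
      apply card_nd3 hF
      intro l
      fin_cases i <;> fin_cases j <;> fin_cases k <;> fin_cases l <;> simp_all only [_root_.ne_eq, _root_.Std.le_refl, _root_.Nat.reducePow, _root_.Nat.reduceEqDiff, _root_.Nat.card_eq_fintype_card, _root_.Fintype.card_ofFinset, _root_.Fin.zero_eta, _root_.Fin.isValue, _root_.not_false_eq_true, _root_.not_true_eq_false, _root_.Fin.mk_one, _root_.zero_ne_one, _root_.Fin.reduceFinMk, _root_.Fin.reduceEq, _root_.one_ne_zero]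
    norm_num at hE
    omega
  · obtain ⟨m, rfl⟩ : ∃ m, n = m + 4 := ⟨n - 4, by omega⟩
    have h3 := card_three_lower h2 hij hik hjk hi hj hk
    rw [hF] at h3
    apply arith_four m
    rw [← hE]
    have := h3.trans hle
    omega

/-! ### Rank one -/

theorem fam_stable {lam : F} {f : (Fin n → F) → V} (hψ : ψ.IsPrimitive) (h2 : (2 : F) ≠ 0)
    (hlam : lam ≠ 0) (j : Fin n) (hf : Fam ρ ψ lam f) (g : Sp n F) :
    ∀ u ∈ Submodule.span ℂ (Set.range f), ρ g u ∈ Submodule.span ℂ (Set.range f) := by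
  have gen : ∀ g : Sp n F, (∀ x, ρ g (f x) ∈ Submodule.span ℂ (Set.range f)) →
      ∀ u ∈ Submodule.span ℂ (Set.range f), ρ g u ∈ Submodule.span ℂ (Set.range f) := by
    intro g hg u hu
    have h : Submodule.span ℂ (Set.range f) ≤ (Submodule.span ℂ (Set.range f)).comap (ρ g) := by
      rw [Submodule.span_le]
      rintro _ ⟨x, rfl⟩
      exact hg x
    exact h hu
  refine gen_induct j (P := fun g => ∀ u ∈ Submodule.span ℂ (Set.range f),
    ρ g u ∈ Submodule.span ℂ (Set.range f)) ?_ ?_ ?_ ?_ ?_ g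
  · intro u hu; simpa only [_root_.map_one, _root_.Module.End.one_apply] using hu
  · intro g h hg hh u hu
    rw [rho_mul]
    exact hg _ (hh u hu)
  · intro S
    refine gen _ fun x => ?_
    rw [hf.r1 x S]
    exact Submodule.smul_mem _ _ (Submodule.subset_span (Set.mem_range_self x))
  · intro h
    refine gen _ fun x => ?_
    rw [hf.r2 h x]
    exact Submodule.smul_mem _ _ (Submodule.subset_span (Set.mem_range_self _))
  · refine gen _ fun x => ?_
    have hg := gs_ne_zero hψ h2 (neg_ne_zero.mpr hlam)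
    have h3 := hf.r3 j x
    rw [← eq_inv_smul_iff₀ hg] at h3
    rw [h3]
    exact Submodule.smul_mem _ _ (Submodule.sum_mem _ fun z _ =>
      Submodule.smul_mem _ _ (Submodule.subset_span ⟨_, rfl⟩))

/-- Irreducible representations of rank at most one are small. -/
theorem rkOne_le [FiniteDimensional ℂ V] (hψ : ψ.IsPrimitive) (h2 : (2 : F) ≠ 0)
    (hn : 2 ≤ n) (hρ : ρ.IsIrreducible) (hR : RkOne ρ ψ) :
    finrank ℂ V ≤ Fintype.card F ^ n := by
  classical
  let i : Fin n := ⟨0, by omega⟩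
  let j : Fin n := ⟨1, by omega⟩
  have hij : i ≠ j := by intro h; simp [i, j] at h
  by_cases h0 : ∀ T ∈ _root_.Cfsg.Agent.H162.Weil.Sym n F, T ≠ 0 → ∀ v ∈ Wt ρ ψ T, v = 0
  · rw [dim_one hψ h2 i hρ h0]
    exact Nat.one_le_pow _ _ Fintype.card_pos
  push Not at h0
  obtain ⟨T, hT, hT0, v, hv, hne⟩ := h0
  obtain ⟨p, q, hpq⟩ : ∃ p q, T p q ≠ 0 := by
    by_contra hc
    push Not at hc
    exact hT0 (by ext p q; exact hc p q)
  have hr := hR T hT v hv hne
  have hTs : ∀ a b, T a b = T b a := fun a b => Sym.apply ⟨T, hT⟩ a b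
  have hk : T p p ≠ 0 := by
    intro h
    have := hr p p q q
    rw [h, zero_mul, hTs q p] at this
    exact mul_ne_zero hpq hpq this.symm
  have hTT : T = TT (T p p)⁻¹ (fun l => T l p) := by
    ext a b
    rw [TT_apply, hTs b p, hr a p p b]
    field_simp
  have hx : (fun l => T l p : Fin n → F) ≠ 0 := by
    intro h
    exact hk (congrFun h p)
  obtain ⟨g, hg⟩ := exists_vecMul_eq_single _ hx i
  have h5 : ρ (mm g⁻¹) v ∈ Wt ρ ψ (TT (T p p)⁻¹ (Pi.single i 1)) := by
    rw [hTT] at hv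
    have h5 := mm_mem_TT g⁻¹ hv
    rwa [inv_inv, hg] at h5
  have hne' : ρ (mm g⁻¹) v ≠ 0 := by
    intro h
    exact hne (rho_inj (ρ := ρ) (mm g⁻¹) (by rw [h, map_zero]))
  have hs : Seed ρ ψ (T p p)⁻¹ i (ρ (mm g⁻¹) v) := ⟨hψ, h2, hR, inv_ne_zero hk, h5, hne'⟩
  obtain ⟨f, hf, hfv⟩ := hs.exists_fam hij
  have htop := eq_top_of_irr hρ _ (fun g => fam_stable hψ h2 (inv_ne_zero hk) j hf g)
    (Submodule.subset_span (Set.mem_range_self (Pi.single i 1))) (by rw [hfv]; exact hne')
  have h6 := finrank_range_le_card (R := ℂ) (b := f)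
  rw [Set.finrank, htop, finrank_top] at h6
  simpa only [_root_.ge_iff_le, _root_.Fintype.card_pi, _root_.Finset.prod_const, _root_.Finset.card_univ, _root_.Fintype.card_fin] using h6

/-! ### Rank two -/

theorem TU_diag {i k : Fin n} (hik : i ≠ k) (a : Fin n → F) (hz : ∀ l, l ≠ i → l ≠ k → a l = 0) :
    diagonal a = TU (a i) (a k) (Pi.single i 1) (Pi.single k 1) := by
  ext x y
  rw [TU_apply]
  by_cases hxy : x = y
  · subst hxy
    rw [diagonal_apply_eq]
    by_cases h1 : x = i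
    · subst h1; simp [hik]
    · by_cases h2 : x = k
      · subst h2; simp [h1]
      · simp [h1, h2, hz x h1 h2]
  · rw [diagonal_apply_ne _ hxy]
    have h1 : (Pi.single i 1 : Fin n → F) x * (Pi.single i 1 : Fin n → F) y = 0 := by
      by_cases h : x = i
      · subst h; simp [Ne.symm hxy]
      · simp [h]
    have h2 : (Pi.single k 1 : Fin n → F) x * (Pi.single k 1 : Fin n → F) y = 0 := by
      by_cases h : x = k
      · subst h; simp [Ne.symm hxy]
      · simp [h]
    rw [h1, h2]; ring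

/-- pairs of axes can be moved -/
theorem TU_move {i k i' k' : Fin n} (hik : i ≠ k) (hik' : i' ≠ k') (a b : F) :
    ∃ h : GL (Fin n) F, actT h (TU a b (Pi.single i 1) (Pi.single k 1)) =
      TU a b (Pi.single i' 1) (Pi.single k' 1) := by
  have hli : LinearIndependent F ![(Pi.single i 1 : Fin n → F), Pi.single k 1] := by
    rw [LinearIndependent.pair_iff]
    intro s t hst
    have h1 := congrFun hst i
    have h2 := congrFun hst k
    simp [hik, hik.symm] at h1 h2
    exact ⟨h1, h2⟩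
  obtain ⟨P, hP0, hP1⟩ := exists_gl_pair hik' hli
  refine ⟨P, ?_⟩
  rw [actT_TU]
  rw [vecMul_inv hP0, vecMul_inv hP1]

theorem class_two (hF : Fintype.card F = 3) (hR : RkTwo ρ ψ) {T : Matrix (Fin n) (Fin n) F}
    (hT : T ∈ _root_.Cfsg.Agent.H162.Weil.Sym n F) {v : V} (hv : v ∈ Wt ρ ψ T) (hne : v ≠ 0) {x y z w : Fin n}
    (hm : T x y * T z w ≠ T x w * T z y) {i k : Fin n} (hik : i ≠ k) :
    ∃ h : GL (Fin n) F, actT h T = TU 1 1 (Pi.single i 1) (Pi.single k 1) ∨
      actT h T = TU 1 (-1) (Pi.single i 1) (Pi.single k 1) := by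
  have h2 := two_ne hF
  obtain ⟨h, a, ha⟩ := exists_diag h2 T hT
  have hTa : T = actT h⁻¹ (diagonal a) := by rw [← ha, ← actT_mul, inv_mul_cancel, actT_one]
  obtain ⟨p, q, hpq, hp, hq⟩ : ∃ p q, p ≠ q ∧ a p ≠ 0 ∧ a q ≠ 0 := by
    by_contra hc
    push Not at hc
    apply hm
    by_cases h0 : ∃ p, a p ≠ 0
    · obtain ⟨p, hp⟩ := h0
      rw [hTa, actT, inv_inv, diag_conj, ← Finset.add_sum_erase _ _ (Finset.mem_univ p),
        Finset.sum_eq_zero, add_zero]
      · simp only [Matrix.smul_apply, vecMulVec_apply, smul_eq_mul]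
        ring
      · intro l hl
        rw [hc p l (Finset.ne_of_mem_erase hl).symm hp, zero_smul]
    · push Not at h0
      have : a = 0 := funext h0
      rw [hTa, this]
      simp [actT]
  have hv' := mm_mem_Wt h hv
  rw [ha] at hv'
  have hne' : ρ (mm h) v ≠ 0 := by
    intro h0
    exact hne (rho_inj (ρ := ρ) (mm h) (by rw [h0, map_zero]))
  have hz : ∀ l, l ≠ p → l ≠ q → a l = 0 := by
    intro l hlp hlq
    have hd := hR (diagonal a) (by rw [mem_Sym, diagonal_transpose]) _ hv' hne' ![p, q, l]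
      ![p, q, l]
    rw [det_fin_three] at hd
    simp [diagonal_apply, hpq, hpq.symm, hlp, hlq, Ne.symm hlp, Ne.symm hlq, hp, hq] at hd
    exact hd
  obtain ⟨g, hg⟩ := bin_step h2 hpq a hp hq (one_ne_zero (α := F))
  have hz' : ∀ l, l ≠ p → l ≠ q →
      Function.update (Function.update a p 1) q (a p * a q * 1) l = 0 := by
    intro l h1 h3
    rw [Function.update_of_ne h3, Function.update_of_ne h1, hz l h1 h3]
  rw [TU_diag hpq _ hz', Function.update_self, Function.update_of_ne hpq, Function.update_self,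
    mul_one] at hg
  obtain ⟨g', hg'⟩ := TU_move hpq hik (1 : F) (a p * a q)
  refine ⟨g' * g * h, ?_⟩
  rw [actT_mul, actT_mul, ha, hg, hg']
  rcases three_cases hF (a p * a q) with h3 | h3 | h3
  · exact absurd h3 (mul_ne_zero hp hq)
  · left; rw [h3]
  · right; rw [h3]

/-! ### The dimension formula -/

/-- **Dimension formula.** -/
theorem finrank_eq_sum [FiniteDimensional ℂ V] (hψ : ψ.IsPrimitive) (h2 : (2 : F) ≠ 0) :
    finrank ℂ V = ∑ T : Sym n F, finrank ℂ (Wt ρ ψ T.1) := by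
  have h1 : ∀ T : Sym n F, LinearMap.trace ℂ V (Pj ρ ψ T.1) = (finrank ℂ (Wt ρ ψ T.1) : ℂ) := by
    intro T
    have h : LinearMap.IsProj (Wt ρ ψ T.1) (Pj ρ ψ T.1) := ⟨Pj_mem T.1, fun v hv => Pj_of_mem hv⟩
    exact h.trace
  have h3 : ∑ T : Sym n F, Pj ρ ψ T.1 = LinearMap.id := by
    apply LinearMap.ext
    intro v
    rw [LinearMap.sum_apply]
    exact sum_Pj hψ h2 v
  have h4 := congrArg (LinearMap.trace ℂ V) h3
  rw [map_sum, Finset.sum_congr rfl fun T _ => h1 T, LinearMap.trace_id] at h4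
  exact_mod_cast h4.symm

theorem finrank_Wt_congr {T T' : Matrix (Fin n) (Fin n) F} {h : GL (Fin n) F}
    (hh : T' = actT h T) : finrank ℂ (Wt ρ ψ T') = finrank ℂ (Wt ρ ψ T) := by
  subst hh
  symm
  refine LinearEquiv.finrank_eq
    { toFun := fun v => ⟨ρ (mm h) v.1, mm_mem_Wt h v.2⟩
      map_add' := fun v w => by apply Subtype.ext; simp only [_root_.Submodule.coe_add, _root_.map_add, _root_.AddMemClass.mk_add_mk]
      map_smul' := fun a v => by apply Subtype.ext; simp only [_root_.SetLike.val_smul, _root_.map_smul, _root_.RingHom.id_apply, _root_.SetLike.mk_smul_mk]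
      invFun := fun v => ⟨ρ (mm h⁻¹) v.1, by
        have := mm_mem_Wt h⁻¹ v.2
        rwa [← actT_mul, inv_mul_cancel, actT_one] at this⟩
      left_inv := fun v => by
        apply Subtype.ext
        show ρ (mm h⁻¹) (ρ (mm h) v.1) = v.1
        rw [← rho_mul, ← map_mul, inv_mul_cancel, map_one, map_one, Module.End.one_apply]
      right_inv := fun v => by
        apply Subtype.ext
        show ρ (mm h) (ρ (mm h⁻¹) v.1) = v.1
        rw [← rho_mul, ← map_mul, mul_inv_cancel, map_one, map_one, Module.End.one_apply] }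

/-- two orbits -/
theorem two_orbits [FiniteDimensional ℂ V] (hψ : ψ.IsPrimitive) (h2 : (2 : F) ≠ 0)
    {T T' : Matrix (Fin n) (Fin n) F} (hdis : Disjoint (Ob T) (Ob T')) :
    Nat.card (Ob T) * finrank ℂ (Wt ρ ψ T) + Nat.card (Ob T') * finrank ℂ (Wt ρ ψ T') ≤
      finrank ℂ V := by
  classical
  rw [finrank_eq_sum (ρ := ρ) hψ h2]
  have hs : ∀ T : Matrix (Fin n) (Fin n) F,
      ∑ S ∈ (Ob T).toFinset, finrank ℂ (Wt ρ ψ S.1) = Nat.card (Ob T) * finrank ℂ (Wt ρ ψ T) := by
    intro T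
    rw [Finset.sum_congr rfl (g := fun _ => finrank ℂ (Wt ρ ψ T)), Finset.sum_const,
      Set.toFinset_card, Nat.card_eq_fintype_card, smul_eq_mul]
    intro S hS
    rw [Set.mem_toFinset] at hS
    obtain ⟨h, hh⟩ := hS
    exact finrank_Wt_congr hh
  rw [← hs T, ← hs T', ← Finset.sum_union (Set.disjoint_toFinset.mpr hdis)]
  exact Finset.sum_le_sum_of_subset (Finset.subset_univ _)

/-- The two classes are different. -/
theorem aniso_hyp_disjoint (hF : Fintype.card F = 3) {i k : Fin n} (hik : i ≠ k) :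
    Disjoint (Ob (TU 1 1 (Pi.single i 1) (Pi.single k 1) : Matrix (Fin n) (Fin n) F))
      (Ob (TU 1 (-1) (Pi.single i 1) (Pi.single k 1) : Matrix (Fin n) (Fin n) F)) := by
  rw [Set.disjoint_left]
  rintro S ⟨h, hh⟩ ⟨g, hg⟩
  have h1 : TU 1 (-1) (Pi.single i 1) (Pi.single k 1) =
      actT (g⁻¹ * h) (TU 1 1 (Pi.single i 1) (Pi.single k 1) : Matrix (Fin n) (Fin n) F) := by
    rw [actT_mul, ← hh, hg, ← actT_mul, inv_mul_cancel, actT_one]
  rw [actT_TU] at h1
  set x := (Pi.single i 1 : Fin n → F) ᵥ*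
    (((g⁻¹ * h)⁻¹ : GL (Fin n) F) : Matrix (Fin n) (Fin n) F)
  set y := (Pi.single k 1 : Fin n → F) ᵥ*
    (((g⁻¹ * h)⁻¹ : GL (Fin n) F) : Matrix (Fin n) (Fin n) F)
  have e : ∀ p q, (TU 1 (-1) (Pi.single i 1) (Pi.single k 1) : Matrix (Fin n) (Fin n) F) p q =
      x p * x q + y p * y q := by
    intro p q
    rw [h1, TU_apply]; ring
  have e1 := e i i
  have e2 := e i k
  have e3 := e k k
  simp only [TU_apply, Pi.single_eq_same, Pi.single_eq_of_ne hik, Pi.single_eq_of_ne hik.symm]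
    at e1 e2 e3
  have key : ∀ u v : F, u ^ 2 + v ^ 2 = 0 → u = 0 ∧ v = 0 := by
    intro u v huv
    by_cases hu : u = 0
    · subst hu
      refine ⟨rfl, ?_⟩
      have : v ^ 2 = 0 := by linear_combination huv
      exact pow_eq_zero_iff (two_ne_zero) |>.mp this
    · exfalso
      by_cases hv : v = 0
      · subst hv
        apply hu
        have : u ^ 2 = 0 := by linear_combination huv
        exact pow_eq_zero_iff (two_ne_zero) |>.mp this
      · rw [sq_one hF hu, sq_one hF hv] at huv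
        apply two_ne hF
        linear_combination huv
  obtain ⟨u0, v0⟩ := key (x i + x k) (y i + y k) (by linear_combination -e1 - 2 * e2 - e3)
  have h5 : (1 : F) = 0 := by
    linear_combination e1 + e2 + x i * u0 + y i * v0
  exact one_ne_zero h5

/-- **Split.** -/
theorem split [FiniteDimensional ℂ V] (hψ : ψ.IsPrimitive) (hF : Fintype.card F = 3) (hn : 3 ≤ n)
    (hρ : ρ.IsIrreducible) (hE : 4 * finrank ℂ V + 1 = 9 ^ n) {i k : Fin n} (hik : i ≠ k) :
    (finrank ℂ (Wt ρ ψ (TU 1 (-1) (Pi.single i 1) (Pi.single k 1))) = 1 ∧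
      ∀ w ∈ Wt ρ ψ (TU 1 1 (Pi.single i 1) (Pi.single k 1)), w = 0) ∨
    ((∃ v ∈ Wt ρ ψ (TU 1 1 (Pi.single i 1) (Pi.single k 1)), v ≠ 0) ∧
      ∀ w ∈ Wt ρ ψ (TU 1 (-1) (Pi.single i 1) (Pi.single k 1)), w = 0) := by
  have h2 := two_ne hF
  have hR := rkTwo (ρ := ρ) hψ hF hn hE
  have hX : 27 ≤ 3 ^ n := by
    calc 27 = 3 ^ 3 := by norm_num
      _ ≤ 3 ^ n := Nat.pow_le_pow_right (by norm_num) hn
  have h9 : 9 ^ n = 3 ^ n * 3 ^ n := by
    rw [← mul_pow]; norm_num
  have hnot : ¬ RkOne ρ ψ := by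
    intro h1
    have h3 := rkOne_le hψ h2 (by omega) hρ h1
    rw [hF] at h3
    rw [h9] at hE
    nlinarith only [hE, hX, h3]
  unfold RkOne at hnot
  push Not at hnot
  obtain ⟨T, hT, v, hv, hne, x, y, z, w, hm⟩ := hnot
  obtain ⟨h, hh⟩ := class_two hF hR hT hv hne hm hik
  have h3 := two_orbits (ρ := ρ) hψ h2 (aniso_hyp_disjoint hF hik)
  have c1 := card_aniso (n := n) hF (by omega) hik
  have c2 := card_hyp (n := n) hF (by omega) hik
  set A := Nat.card (Ob (TU 1 1 (Pi.single i 1) (Pi.single k 1) : Matrix (Fin n) (Fin n) F))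
  set B := Nat.card (Ob (TU 1 (-1) (Pi.single i 1) (Pi.single k 1) : Matrix (Fin n) (Fin n) F))
  set a := finrank ℂ (Wt ρ ψ (TU 1 1 (Pi.single i 1) (Pi.single k 1)))
  set b := finrank ℂ (Wt ρ ψ (TU 1 (-1) (Pi.single i 1) (Pi.single k 1)))
  obtain ⟨Y, hY⟩ : ∃ Y, 3 ^ n = Y + 3 := ⟨3 ^ n - 3, by omega⟩
  rw [hY] at c1 c2 h9 hX
  have e1 : Y + 3 - 1 = Y + 2 := by omega
  have e2 : Y + 3 - 3 = Y := by omega
  rw [e1, e2] at c1 c2
  rw [h9] at hE
  have hab : a + 2 * b ≤ 2 := by
    by_contra hc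
    have hc' : 3 ≤ a + 2 * b := by omega
    have k1 : (a + 2 * b) * ((Y + 2) * Y) ≤ 8 * finrank ℂ V := by
      have l1 : a * ((Y + 2) * Y) ≤ a * (8 * A) := Nat.mul_le_mul le_rfl c1
      have l2 : b * ((Y + 2) * Y) ≤ b * (4 * B) := Nat.mul_le_mul le_rfl c2
      linarith only [h3, l1, l2]
    have k2 : 3 * ((Y + 2) * Y) ≤ 8 * finrank ℂ V :=
      (Nat.mul_le_mul hc' le_rfl).trans k1
    nlinarith only [hE, hX, k2]
  have hv' := mm_mem_Wt h hv
  have hne' : ρ (mm h) v ≠ 0 := by
    intro h0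
    exact hne (rho_inj (ρ := ρ) (mm h) (by rw [h0, map_zero]))
  have hz : ∀ {U : Submodule ℂ V}, finrank ℂ U = 0 → ∀ w ∈ U, w = 0 := by
    intro U hU w hw
    rw [Submodule.finrank_eq_zero] at hU
    rw [hU] at hw
    exact (Submodule.mem_bot ℂ).mp hw
  rcases hh with hh | hh
  · right
    rw [hh] at hv'
    have ha : a ≠ 0 := fun h0 => hne' (hz h0 _ hv')
    exact ⟨⟨_, hv', hne'⟩, hz (show b = 0 by omega)⟩
  · left
    rw [hh] at hv'
    have hb : b ≠ 0 := fun h0 => hne' (hz h0 _ hv')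
    exact ⟨show b = 1 by omega, hz (show a = 0 by omega)⟩

end Cfsg.Agent.H495.TI
end

-- part: H495/TI/Asm
section
prune_inst 0x4010000
set_option linter.all false
open scoped Cfsg.Agent.FastGrp

/-!
# No degree `(9^n-1)/4` for `PSp_2n(3)`: assembly (helper495)
-/

set_option autoImplicit false
open Matrix Module

namespace Cfsg.Agent.H495.TI

open Cfsg Cfsg.Agent.H162.Weil Cfsg.Agent.H66.Cod Cfsg.Agent.H686.CharKit

/-- the hyperbolic case is impossible -/
def HypNo (F : Type) [Field F] [Fintype F] : Prop :=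
  ∀ (n : ℕ) (V : Type) [AddCommGroup V] [Module ℂ V] [FiniteDimensional ℂ V]
    (ρ : Representation ℂ (Sp n F) V) (ψ : AddChar F ℂ), ψ.IsPrimitive → 3 ≤ n →
    ρ.IsIrreducible → (∀ v, ρ (zz n F) v = v) → 4 * finrank ℂ V + 1 = 9 ^ n →
    ∀ i k : Fin n, i ≠ k →
    finrank ℂ (Wt ρ ψ (TU 1 (-1) (Pi.single i 1) (Pi.single k 1))) = 1 →
    (∀ w ∈ Wt ρ ψ (TU 1 1 (Pi.single i 1) (Pi.single k 1)), w = 0) → False

/-- the anisotropic case is impossible -/
def AnisoNo (F : Type) [Field F] [Fintype F] : Prop :=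
  ∀ (n : ℕ) (V : Type) [AddCommGroup V] [Module ℂ V] [FiniteDimensional ℂ V]
    (ρ : Representation ℂ (Sp n F) V) (ψ : AddChar F ℂ), ψ.IsPrimitive → 3 ≤ n →
    ρ.IsIrreducible → (∀ v, ρ (zz n F) v = v) → 4 * finrank ℂ V + 1 = 9 ^ n →
    ∀ i k : Fin n, i ≠ k →
    (∃ v ∈ Wt ρ ψ (TU 1 1 (Pi.single i 1) (Pi.single k 1)), v ≠ 0) →
    (∀ w ∈ Wt ρ ψ (TU 1 (-1) (Pi.single i 1) (Pi.single k 1)), w = 0) → False

theorem psp_no_of (F : Type) [Field F] [Fintype F] (hF : Fintype.card F = 3) (H1 : HypNo F)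
    (H2 : AnisoNo F) {n : ℕ} (hn : 3 ≤ n) {d : ℕ} (hd : NDeg (PSp n F) d) :
    4 * d ≠ 9 ^ n - 1 := by
  classical
  intro hE
  obtain ⟨χ, -, hd⟩ := hd
  let f : Sp n F →* PSp n F := QuotientGroup.mk' _
  have hf : Function.Surjective f := QuotientGroup.mk'_surjective _
  have : Finite (PSp n F) := Finite.of_surjective f hf
  obtain ⟨k, ρ0, hρ0, hχ⟩ := χ.2
  have hirr : IsIrrCharacter (Sp n F) ((χ : PSp n F → ℂ) ∘ f) :=
    Characters.Core.isIrr_comp f hf χ.2
  let ρ : Representation ℂ (Sp n F) (Fin k → ℂ) := ρ0.comp f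
  have hρ : ρ.IsIrreducible := by
    have hnt : Nontrivial (Subrepresentation (ρ0.comp f)) := by
      obtain ⟨a, b, hab⟩ := hρ0.toNontrivial
      refine ⟨⟨a.toSubmodule, fun g v hv => a.apply_mem_toSubmodule (f g) hv⟩,
        ⟨b.toSubmodule, fun g v hv => b.apply_mem_toSubmodule (f g) hv⟩, fun h => hab ?_⟩
      apply Subrepresentation.toSubmodule_injective
      exact congrArg (Subrepresentation.toSubmodule (ρ := ρ0.comp f)) h
    refine ⟨fun a => ?_⟩
    have key : ∀ (g : PSp n F) ⦃v : Fin k → ℂ⦄, v ∈ a.toSubmodule → ρ0 g v ∈ a.toSubmodule := by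
      intro g v hv
      obtain ⟨h, rfl⟩ := hf g
      exact a.apply_mem_toSubmodule h hv
    rcases hρ0.eq_bot_or_eq_top ⟨a.toSubmodule, key⟩ with h | h
    · left
      apply Subrepresentation.toSubmodule_injective
      exact congrArg (Subrepresentation.toSubmodule (ρ := ρ0)) h
    · right
      apply Subrepresentation.toSubmodule_injective
      exact congrArg (Subrepresentation.toSubmodule (ρ := ρ0)) h
  have hz : ∀ v, ρ (zz n F) v = v := by
    intro v
    have hc : zz n F ∈ Subgroup.center (Sp n F) := by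
      rw [Subgroup.mem_center_iff]
      intro g
      exact (zz_comm g).symm
    have h1 : f (zz n F) = 1 := (QuotientGroup.eq_one_iff _).mpr hc
    show ρ0 (f (zz n F)) v = v
    rw [h1, map_one, Module.End.one_apply]
  have hk : finrank ℂ (Fin k → ℂ) = d := by
    have h1 := charDegree_irr χ
    rw [hd, ← hχ, Representation.char_one] at h1
    exact_mod_cast h1.symm
  have hpos : 1 ≤ 9 ^ n := Nat.one_le_pow _ _ (by norm_num)
  have hE' : 4 * finrank ℂ (Fin k → ℂ) + 1 = 9 ^ n := by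
    rw [hk]; omega
  have hψ := AddChar.FiniteField.primitiveChar_to_Complex_isPrimitive F
  have hik : (⟨0, by omega⟩ : Fin n) ≠ ⟨1, by omega⟩ := by simp
  rcases split (ρ := ρ) hψ hF hn hρ hE' hik with ⟨h1, h2⟩ | ⟨h1, h2⟩
  · exact H1 n _ ρ _ hψ hn hρ hz hE' _ _ hik h1 h2
  · exact H2 n _ ρ _ hψ hn hρ hz hE' _ _ hik h1 h2

end Cfsg.Agent.H495.TI
end

-- part: H66/TI/HypNo
section
prune_inst 0x40000000000000000000001c028000000000080000000002000200002005002800002000021828000000000040041018042000000000000000000000000000000001000000020000000000000000000000000000000000000000000000000000000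
set_option linter.all false
open scoped Cfsg.Agent.FastGrp

-- part: H66/TI/Base
section
/-!
# The central operator of a representation of the symplectic group (helper66)

For an irreducible representation of `Sp_2n(F)` the sum of all transvections acts as a scalar.
Weight multiplicities, traces.
-/

set_option autoImplicit false
open Matrix Module Representation

namespace Cfsg.Agent.H66.TI

open Cfsg.Agent.H162.Weil

variable {F : Type*} [Field F] {n : ℕ}

/-- The transvection attached to a vector. -/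
def Tv (c : F) (w : Fin n ⊕ Fin n → F) : Sp n F :=
  ⟨Cfsg.sympTransvection n w c, S0764.result n w c⟩

theorem mul_Tv (A : Sp n F) (c : F) (w : Fin n ⊕ Fin n → F) :
    A * Tv c w = Tv c ((A : Matrix (Fin n ⊕ Fin n) (Fin n ⊕ Fin n) F) *ᵥ w) * A := by
  apply Subtype.ext
  exact mul_tr A w c

/-- the rank one symmetric matrix `a aᵀ`. -/
def sV (c : F) (a : Fin n → F) : Sym n F :=
  ⟨c • vecMulVec a a, by rw [mem_Sym, transpose_smul, transpose_vecMulVec]⟩

theorem Tv_left (c : F) (a : Fin n → F) : Tv c (Sum.elim a 0) = uu (sV c a) := by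
  apply Subtype.ext
  rw [uu_coe]
  show 1 + c • vecMulVec (Sum.elim a 0) (Matrix.J (Fin n) F *ᵥ Sum.elim a 0) = _
  rw [Matrix.J, fromBlocks_mulVec]
  ext p q
  rcases p with p | p <;> rcases q with q | q <;>
    simp [vecMulVec_apply, one_apply, sV]

theorem sV_single (c : F) (i : Fin n) : sV c (Pi.single i 1) = sD i c := by
  apply Subtype.ext
  show c • vecMulVec (Pi.single i 1) (Pi.single i 1) = single i i c
  ext p q
  rw [Matrix.smul_apply, vecMulVec_apply, single_apply]
  by_cases hp : i = p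
  · subst hp
    by_cases hq : i = q
    · subst hq; simp
    · simp [Ne.symm hq, hq]
  · simp [Ne.symm hp, hp]

/-- all transvections of the same sign are conjugate -/
theorem exists_conj (i : Fin n) (c : F) (w : Fin n ⊕ Fin n → F) (hw : w ≠ 0) :
    ∃ g : Sp n F, g * Tv c w * g⁻¹ = uu (sD i c) := by
  obtain ⟨k, -, a', hka⟩ := exists_move i (⊤ : Subgroup (Sp n F)) (fun _ => Subgroup.mem_top _)
    (fun _ => Subgroup.mem_top _) (Subgroup.mem_top _) (w ∘ Sum.inl) (w ∘ Sum.inr)
  rw [Sum.elim_comp_inl_inr] at hka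
  have ha : a' ≠ 0 := by
    rintro rfl
    apply hw
    have h1 := congrArg (fun z => ((k⁻¹ : Sp n F) : Matrix (Fin n ⊕ Fin n) (Fin n ⊕ Fin n) F) *ᵥ z)
      hka
    simp only [mulVec_mulVec] at h1
    rw [← Submonoid.coe_mul, inv_mul_cancel] at h1
    rw [Submonoid.coe_one, one_mulVec] at h1
    rw [h1]
    ext x
    rcases x with x | x <;>
    simp only [mulVec, dotProduct, _root_.Sum.elim_zero_zero, _root_.Pi.zero_apply, _root_.MulZeroClass.mul_zero, _root_.Finset.sum_const_zero]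
  obtain ⟨h, hh⟩ := exists_vecMul_eq_single a' ha i
  -- `hᵀ` moves `a'` to `e_i`
  let u : GL (Fin n) F := ⟨(h : Matrix (Fin n) (Fin n) F)ᵀ,
    ((h⁻¹ : GL (Fin n) F) : Matrix (Fin n) (Fin n) F)ᵀ, by
      rw [← transpose_mul, ← Units.val_mul, inv_mul_cancel]; simp, by
      rw [← transpose_mul, ← Units.val_mul, mul_inv_cancel]; simp⟩
  have hu : (u : Matrix (Fin n) (Fin n) F) *ᵥ a' = Pi.single i 1 := by
    show (h : Matrix (Fin n) (Fin n) F)ᵀ *ᵥ a' = _
    rw [mulVec_transpose, hh]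
  refine ⟨mm u * k, ?_⟩
  rw [mul_Tv, mul_inv_cancel_right, Submonoid.coe_mul, ← mulVec_mulVec, hka, mm_mulVec, hu,
    zero_vecMul, Tv_left, sV_single]

section rep

variable [Fintype F] {V : Type*} [AddCommGroup V] [Module ℂ V]
  (ρ : Representation ℂ (Sp n F) V)

/-- The sum of all transvections (with `c`). -/
noncomputable def Aop (c : F) : V →ₗ[ℂ] V := ∑ w : Fin n ⊕ Fin n → F, ρ (Tv c w)

variable {ρ}

theorem Aop_comm (c : F) (g : Sp n F) (v : V) : Aop ρ c (ρ g v) = ρ g (Aop ρ c v) := by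
  simp only [Aop, LinearMap.sum_apply, map_sum]
  symm
  have hinv : ∀ (g : Sp n F) (w : Fin n ⊕ Fin n → F),
      ((g⁻¹ : Sp n F) : Matrix (Fin n ⊕ Fin n) (Fin n ⊕ Fin n) F) *ᵥ
        ((g : Matrix (Fin n ⊕ Fin n) (Fin n ⊕ Fin n) F) *ᵥ w) = w := by
    intro g w
    rw [mulVec_mulVec, ← Submonoid.coe_mul, inv_mul_cancel, Submonoid.coe_one, one_mulVec]
  refine Fintype.sum_equiv ⟨fun w => (g : Matrix (Fin n ⊕ Fin n) (Fin n ⊕ Fin n) F) *ᵥ w,
    fun w => ((g⁻¹ : Sp n F) : Matrix (Fin n ⊕ Fin n) (Fin n ⊕ Fin n) F) *ᵥ w, hinv g, ?_⟩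
    _ _ fun w => ?_
  · intro w
    have := hinv g⁻¹ w
    rwa [inv_inv] at this
  · rw [Equiv.coe_fn_mk, ← rho_mul, ← rho_mul, mul_Tv]

/-- Schur. -/
theorem exists_scalar_of_comm [FiniteDimensional ℂ V] {G : Type*} [Group G]
    {σ : Representation ℂ G V}
    (hσ : σ.IsIrreducible) (A : V →ₗ[ℂ] V) (hA : ∀ g v, A (σ g v) = σ g (A v)) :
    ∃ μ : ℂ, ∀ v, A v = μ • v := by
  have hnt : Nontrivial V := by
    by_contra hc
    rw [not_nontrivial_iff_subsingleton] at hc
    have := hσ.toNontrivial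
    obtain ⟨U, hU⟩ := exists_ne (⊤ : Subrepresentation σ)
    apply hU
    apply Subrepresentation.toSubmodule_injective
    exact Subsingleton.elim _ _
  obtain ⟨μ, hμ⟩ := Module.End.exists_eigenvalue (K := ℂ) A
  obtain ⟨v, hv⟩ := hμ.exists_hasEigenvector
  refine ⟨μ, ?_⟩
  have h1 := eq_top_of_irr hσ (Module.End.eigenspace A μ) (by
    intro g u hu
    rw [Module.End.mem_eigenspace_iff] at hu ⊢
    rw [hA, hu, map_smul]) hv.1 hv.2
  intro w
  have h3 : w ∈ Module.End.eigenspace A μ := by rw [h1]; exact Submodule.mem_top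
  rwa [Module.End.mem_eigenspace_iff] at h3

/-- The central character value from the trace. -/
theorem Aop_scalar [FiniteDimensional ℂ V] (hρ : ρ.IsIrreducible) (i : Fin n) (c : F) :
    ∃ μ : ℂ, (∀ v, Aop ρ c v = μ • v) ∧
      μ * (finrank ℂ V : ℂ) = (finrank ℂ V : ℂ) +
        ((Fintype.card F : ℂ) ^ (2 * n) - 1) * ρ.character (uu (sD i c)) := by
  classical
  obtain ⟨μ, hμ⟩ := exists_scalar_of_comm hρ (Aop ρ c) (fun g v => Aop_comm c g v)
  refine ⟨μ, hμ, ?_⟩
  have h1 : Aop ρ c = μ • LinearMap.id := LinearMap.ext hμ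
  have h3 := congrArg (LinearMap.trace ℂ V) h1
  rw [map_smul, LinearMap.trace_id, smul_eq_mul, Aop, map_sum] at h3
  rw [← h3]
  have hone : Tv c (0 : Fin n ⊕ Fin n → F) = 1 := by
    apply Subtype.ext
    show 1 + c • vecMulVec (0 : Fin n ⊕ Fin n → F) _ = 1
    rw [zero_vecMulVec, smul_zero, add_zero]
  have h4 : ∀ w : Fin n ⊕ Fin n → F, LinearMap.trace ℂ V (ρ (Tv c w)) =
      if w = 0 then (finrank ℂ V : ℂ) else ρ.character (uu (sD i c)) := by
    intro w
    split_ifs with hw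
    · rw [hw, hone, map_one]
      exact LinearMap.trace_one ℂ V
    · obtain ⟨g, hg⟩ := exists_conj i c w hw
      rw [← hg, Representation.char_conj]
      rfl
  rw [Finset.sum_congr rfl fun w _ => h4 w, Finset.sum_ite, Finset.filter_eq' _ 0,
    if_pos (Finset.mem_univ _), Finset.sum_singleton, Finset.sum_const, Finset.filter_ne',
    Finset.card_erase_of_mem (Finset.mem_univ _), Finset.card_univ, nsmul_eq_mul]
  congr 2
  rw [Fintype.card_fun, Fintype.card_sum, Fintype.card_fin, ← two_mul]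
  rw [Nat.cast_sub (Nat.one_le_pow _ _ Fintype.card_pos)]
  push_cast
  rfl

end rep

end Cfsg.Agent.H66.TI
end

-- part: H66/TI/F3
section
/-!
# The field with three elements (helper66)
-/

set_option autoImplicit false
open Matrix Module Representation

namespace Cfsg.Agent.H66.TI

open Cfsg.Agent.H162.Weil

variable {F : Type*} [Field F] [Fintype F]

theorem three_zero (hF : Fintype.card F = 3) : (3 : F) = 0 := by
  have h := FiniteField.cast_card_eq_zero F
  rw [hF] at h
  exact_mod_cast h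

theorem two_eq (hF : Fintype.card F = 3) : (2 : F) = -1 := by
  linear_combination three_zero hF

theorem two_ne (hF : Fintype.card F = 3) : (2 : F) ≠ 0 := by
  rw [two_eq hF]; exact neg_ne_zero.mpr one_ne_zero

theorem three_cases (hF : Fintype.card F = 3) (x : F) : x = 0 ∨ x = 1 ∨ x = -1 := by
  have h := FiniteField.pow_card x
  rw [hF] at h
  have h1 : x * ((x - 1) * (x + 1)) = 0 := by linear_combination h
  rcases mul_eq_zero.mp h1 with h3 | h3
  · exact Or.inl h3
  · rcases mul_eq_zero.mp h3 with h4 | h4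
    · exact Or.inr (Or.inl (sub_eq_zero.mp h4))
    · exact Or.inr (Or.inr (eq_neg_of_add_eq_zero_left h4))

theorem one_ne_neg (hF : Fintype.card F = 3) : (1 : F) ≠ -1 := by
  intro h
  apply two_ne hF
  linear_combination h

theorem sum_F (hF : Fintype.card F = 3) {M : Type*} [AddCommMonoid M] (f : F → M) :
    ∑ x : F, f x = f 0 + (f 1 + f (-1)) := by
  classical
  have h : (Finset.univ : Finset F) = {0, 1, -1} := by
    ext x
    simp only [Finset.mem_univ, Finset.mem_insert, Finset.mem_singleton, true_iff]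
    exact three_cases hF x
  rw [h, Finset.sum_insert, Finset.sum_insert, Finset.sum_singleton]
  · rw [Finset.mem_singleton]; exact one_ne_neg hF
  · rw [Finset.mem_insert, Finset.mem_singleton]
    rintro (h1 | h1)
    · exact zero_ne_one h1
    · exact neg_ne_zero.mpr (one_ne_zero (α := F)) h1.symm

variable {ψ : AddChar F ℂ}

theorem psi_mul_neg (a : F) : ψ a * ψ (-a) = 1 := by
  rw [← AddChar.map_add_eq_mul, add_neg_cancel, AddChar.map_zero_eq_one]

theorem psi_sq (hF : Fintype.card F = 3) (a : F) : ψ a * ψ a = ψ (-a) := by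
  rw [← AddChar.map_add_eq_mul]
  congr 1
  linear_combination a * three_zero hF

theorem sum_psi (hF : Fintype.card F = 3) (hψ : ψ.IsPrimitive) {a : F} (ha : a ≠ 0) :
    ψ (-a) = -1 - ψ a := by
  have h1 : ∑ x : F, ψ (a * x) = 0 := by
    have := AddChar.sum_eq_zero_of_ne_one (hψ ha)
    simpa only [AddChar.mulShift_apply] using this
  rw [sum_F hF, mul_zero, AddChar.map_zero_eq_one, mul_one, mul_neg, mul_one] at h1
  linear_combination h1

theorem psi_ne_one (hF : Fintype.card F = 3) (hψ : ψ.IsPrimitive) {a : F} (ha : a ≠ 0) :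
    ψ a ≠ 1 := by
  intro h
  have h1 := sum_psi hF hψ ha
  have h3 := psi_mul_neg (ψ := ψ) a
  rw [h1, h] at h3
  norm_num at h3

theorem gs_eq (hF : Fintype.card F = 3) (a : F) : gs ψ a = 1 + 2 * ψ a := by
  rw [gs, sum_F hF]
  have h1 : a * (0 : F) ^ 2 = 0 := by ring
  have h3 : a * (1 : F) ^ 2 = a := by ring
  have h4 : a * (-1 : F) ^ 2 = a := by ring
  rw [h1, h3, h4, AddChar.map_zero_eq_one]
  ring

end Cfsg.Agent.H66.TI
end

-- part: H66/TI/Kap
section
/-!
# The coefficient of the Weyl element on a hyperbolic weight space (helper66)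
-/

set_option autoImplicit false
open Matrix Module Representation

namespace Cfsg.Agent.H66.TI

open Cfsg.Agent.H162.Weil

variable {F : Type*} [Field F] {n : ℕ} [Fintype F] {V : Type*} [AddCommGroup V] [Module ℂ V]
  {ρ : Representation ℂ (Sp n F) V} {ψ : AddChar F ℂ}

theorem three_cases' (hF : Fintype.card F = 3) {a : F} (ha : a ≠ 0) (x : F) :
    x = 0 ∨ x = a ∨ x = -a := by
  rcases three_cases hF (x * a⁻¹) with h | h | h
  · left
    rcases mul_eq_zero.mp h with h | h
    · exact h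
    · exact absurd h (inv_ne_zero ha)
  · right; left; field_simp at h; exact h
  · right; right; field_simp at h; exact h

theorem TU_zero (b : F) (x y : Fin n → F) : TU 0 b x y = TT b y := by
  rw [TU, TT, zero_smul, zero_add]

theorem single_vecMul_tv {i k : Fin n} (hki : k ≠ i) (b : F) :
    (Pi.single i 1 : Fin n → F) ᵥ*
      (((tv k i hki b)⁻¹ : GL (Fin n) F) : Matrix (Fin n) (Fin n) F) = Pi.single i 1 := by
  rw [tv_inv_coe, vecMul_add, vecMul_one, vecMul_sgl, Pi.single_eq_of_ne hki, zero_mul,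
    Pi.single_zero, add_zero]

theorem Ny_mem_TU {a b : F} {i k : Fin n} (hki : k ≠ i) {y y' : F} {v : V}
    (hv : v ∈ Wt ρ ψ (TU a b (Pi.single i 1) (ev k i y'))) :
    Ny ρ k i hki y v ∈ Wt ρ ψ (TU a b (Pi.single i 1) (ev k i (y + y'))) := by
  have := mm_mem_TU (tv k i hki (-y)) hv
  rwa [ev_vecMul, single_vecMul_tv] at this

theorem Ny_Pj_TU {a b : F} {i k : Fin n} (hki : k ≠ i) (y y' : F) (v : V) :
    Ny ρ k i hki y (Pj ρ ψ (TU a b (Pi.single i 1) (ev k i y')) v) =
      Pj ρ ψ (TU a b (Pi.single i 1) (ev k i (y + y'))) (Ny ρ k i hki y v) := by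
  rw [Ny, mm_Pj, actT_TU, ev_vecMul, single_vecMul_tv]

theorem psi_pr_eq {i : Fin n} {a b : F} {k : Fin n} {v : V}
    (hv : v ∈ Wt ρ ψ (TU a b (Pi.single i 1) (Pi.single k 1))) {T : Sym n F}
    (h0 : Pj ρ ψ T.1 (ρ (ww i) v) ≠ 0) (S : Sym n F) (hS : ∀ l, S.1 i l = 0) :
    ψ (pr T.1 S.1) = ψ (b * S.1 k k) := by
  have hTm := Pj_mem (ρ := ρ) (ψ := ψ) T.1 (ρ (ww i) v)
  have h3 := hTm S
  rw [rho_uu_Pj, ← rho_mul, ← ww_comm_uu i S hS, rho_mul, uu_TU_single hv, map_smul,
    map_smul, hS, mul_zero, zero_add] at h3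
  have h4 : (ψ (b * S.1 k k) - ψ (pr T.1 S.1)) • Pj ρ ψ T.1 (ρ (ww i) v) = 0 := by
    rw [sub_smul, h3, sub_self]
  rcases smul_eq_zero.mp h4 with h5 | h5
  · exact (sub_eq_zero.mp h5).symm
  · exact absurd h5 h0

/-- the weights of `ww i v` -/
theorem supp (hF : Fintype.card F = 3) (hψ : ψ.IsPrimitive) (hR : RkTwo ρ ψ) {i k : Fin n}
    (hki : k ≠ i) {a b : F} (ha : a ≠ 0) (hab : b = -a)
    (h11 : ∀ v ∈ Wt ρ ψ (TU b b (Pi.single i 1) (Pi.single k 1)), v = 0) {v : V}
    (hv : v ∈ Wt ρ ψ (TU a b (Pi.single i 1) (Pi.single k 1))) {T : Sym n F}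
    (h0 : Pj ρ ψ T.1 (ρ (ww i) v) ≠ 0) :
    ∃ w, T.1 = TU a b (Pi.single i 1) (ev k i w) ∨ T.1 = TT b (ev k i w) := by
  have h2 := two_ne hF
  have hb : b ≠ 0 := by rw [hab]; exact neg_ne_zero.mpr ha
  have hTm := Pj_mem (ρ := ρ) (ψ := ψ) T.1 (ρ (ww i) v)
  have h1 := fun S hS => psi_pr_eq (ρ := ρ) (ψ := ψ) hv (T := T) h0 S hS
  have hpsi : ∀ x y : F, ψ x = ψ y → ψ (x - y) = 1 := by
    intro x y h
    rw [sub_eq_add_neg, AddChar.map_add_eq_mul, h, ← AddChar.map_add_eq_mul, add_neg_cancel,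
      AddChar.map_zero_eq_one]
  have hdd : ∀ l, l ≠ i → T.1 l l = b * (if l = k then 1 else 0) := by
    intro l hl
    by_contra hne
    obtain ⟨s, hs⟩ := exists_ne_one hψ (sub_ne_zero.mpr hne)
    apply hs
    have := hpsi _ _ (h1 (sD l s) (fun m => sD_zero_of_ne _ _ _ _ (fun h => hl h.1.symm)))
    rw [pr_sD] at this
    rw [← this]
    congr 1
    have e : ∀ m : Fin n, (sD l s).1 m m = if l = m then s else 0 := by
      intro m
      simp only [sD, single_apply]
      by_cases h : l = m <;> simp [h]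
    rw [e]
    split_ifs <;> ring
  have hod : ∀ l m, l ≠ m → l ≠ i → m ≠ i → T.1 l m = 0 := by
    intro l m hlm hl hm
    by_contra hne
    obtain ⟨s, hs⟩ := exists_ne_one hψ (mul_ne_zero h2 hne)
    apply hs
    have := h1 (sE l m s) (fun q => sE_zero_of_ne _ _ _ _ _ (fun h => hl h.1.symm)
      (fun h => hm h.1.symm))
    have e : ∀ q : Fin n, (sE l m s).1 q q = 0 := by
      intro q
      apply sE_zero_of_ne
      · rintro ⟨rfl, h⟩; exact hlm h
      · rintro ⟨rfl, h⟩; exact hlm h.symm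
    rw [pr_sE, Sym.apply T m l, ← two_mul, e, mul_zero,
      AddChar.map_zero_eq_one] at this
    exact this
  have hkk : T.1 k k = b := by rw [hdd k hki]; simp
  have hil : ∀ l, l ≠ i → l ≠ k → T.1 i l = 0 := by
    intro l hli hlk
    have h := hR T.1 T.2 _ hTm h0 ![i, k, l] ![i, k, l]
    rw [Matrix.det_fin_three] at h
    simp only [submatrix_apply, Matrix.cons_val_zero, Matrix.cons_val_one, Matrix.cons_val_two,
      Matrix.head_cons, Matrix.tail_cons, Matrix.cons_val] at h
    have hll : T.1 l l = 0 := by rw [hdd l hli, if_neg hlk, mul_zero]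
    rw [hkk, hll, hod k l (Ne.symm hlk) hki hli, Sym.apply T l k, hod k l (Ne.symm hlk) hki hli,
      Sym.apply T l i] at h
    have h5 : b * T.1 i l ^ 2 = 0 := by linear_combination -h
    rcases mul_eq_zero.mp h5 with h6 | h6
    · exact absurd h6 hb
    · exact pow_eq_zero_iff (two_ne_zero) |>.mp h6
  set w : F := b⁻¹ * T.1 i k with hw
  have hbw : b * w = T.1 i k := by rw [hw, mul_inv_cancel_left₀ hb]
  set s : F := T.1 i i - b * w ^ 2 with hs
  have hT : T.1 = TU s b (Pi.single i 1) (ev k i w) := by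
    ext p q
    rw [TU_apply]
    have hevk : ev k i w k = 1 := ev_self hki w
    have hevi : ev k i w i = w := ev_snd hki w
    by_cases hp : p = i
    · by_cases hq : q = i
      · rw [hp, hq, hevi, hs]; simp; ring
      · by_cases hqk : q = k
        · rw [hp, hqk, hevi, hevk, Pi.single_eq_of_ne hki, ← hbw]; ring
        · rw [hp, hevi, ev_ne hqk hq, Pi.single_eq_of_ne hq, hil q hq hqk]; ring
    · by_cases hpk : p = k
      · by_cases hq : q = i
        · rw [hpk, hq, hevi, hevk, Pi.single_eq_of_ne hki, Sym.apply T k i, ← hbw]; ring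
        · by_cases hqk : q = k
          · rw [hpk, hqk, hevk, hkk, Pi.single_eq_of_ne hki]; ring
          · rw [hpk, hevk, ev_ne hqk hq, Pi.single_eq_of_ne hq, hod k q (Ne.symm hqk) hki hq]; ring
      · rw [ev_ne hpk hp, Pi.single_eq_of_ne hp]
        by_cases hq : q = i
        · rw [hq, Sym.apply T p i, hil p hp hpk]; ring
        · by_cases hpq : p = q
          · rw [← hpq, hdd p hp, if_neg hpk]; ring
          · rw [hod p q hpq hp hq]; ring
  refine ⟨w, ?_⟩
  rcases three_cases' hF ha s with h | h | h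
  · right; rw [hT, h, TU_zero]
  · left; rw [hT, h]
  · exfalso
    rw [hT, h, ← hab] at hTm
    have h3 := Ny_mem_TU hki (y := -w) hTm
    rw [neg_add_cancel, ev_zero] at h3
    have h4 := h11 _ h3
    apply h0
    rw [hT, h, ← hab]
    apply rho_inj (ρ := ρ) (mm (tv k i hki (- -w)))
    rw [map_zero]
    exact h4

/-- the decomposition of `ww i v` -/
theorem ww_decomp (hF : Fintype.card F = 3) (hψ : ψ.IsPrimitive) (hR : RkTwo ρ ψ) {i k : Fin n}
    (hki : k ≠ i) {a b : F} (ha : a ≠ 0) (hab : b = -a)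
    (h11 : ∀ v ∈ Wt ρ ψ (TU b b (Pi.single i 1) (Pi.single k 1)), v = 0) {v : V}
    (hv : v ∈ Wt ρ ψ (TU a b (Pi.single i 1) (Pi.single k 1))) :
    ρ (ww i) v = ∑ w : F, Ny ρ k i hki w
      (Pj ρ ψ (TU a b (Pi.single i 1) (Pi.single k 1)) (ρ (ww i) v) +
        Pj ρ ψ (TT b (Pi.single k 1)) (ρ (ww i) v)) := by
  classical
  have h2 := two_ne hF
  have hb : b ≠ 0 := by rw [hab]; exact neg_ne_zero.mpr ha
  have hN : ∀ w : F, Ny ρ k i hki w (ρ (ww i) v) = ρ (ww i) v := by
    intro w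
    have e : ∀ q : Fin n, (sE k i (-w)).1 q q = 0 := by
      intro q
      apply sE_zero_of_ne
      · rintro ⟨rfl, h⟩; exact hki h
      · rintro ⟨rfl, h⟩; exact hki h.symm
    rw [Ny, ← rho_mul, ← ww_mul_uu k i hki, rho_mul, uu_TU_single hv, e, e, mul_zero, mul_zero,
      add_zero, AddChar.map_zero_eq_one, one_smul]
  have h1 : ∑ x : F ⊕ F, Sum.elim
      (fun w => Pj ρ ψ (TU a b (Pi.single i 1) (ev k i w)) (ρ (ww i) v))
      (fun w => Pj ρ ψ (TT b (ev k i w)) (ρ (ww i) v)) x = ρ (ww i) v := by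
    conv_rhs => rw [← sum_Pj (ρ := ρ) hψ h2 (ρ (ww i) v)]
    refine Fintype.sum_of_injective (fun x => Sum.elim
      (fun w => (⟨TU a b (Pi.single i 1) (ev k i w), TU_mem _ _ _ _⟩ : Sym n F))
      (fun w => (⟨TT b (ev k i w), TT_mem _ _⟩ : Sym n F)) x) ?_ _ _ ?_ ?_
    · have key : ∀ s s' w w' : F, TU s b (Pi.single i 1) (ev k i w) =
          TU s' b (Pi.single i 1) (ev k i w') → s = s' ∧ w = w' := by
        intro s s' w w' h
        have h3 := congrFun (congrFun h i) k
        rw [TU_apply, TU_apply, ev_snd hki, ev_snd hki, ev_self hki, ev_self hki,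
          Pi.single_eq_of_ne hki] at h3
        have hw : w = w' := by
          apply mul_left_cancel₀ hb
          linear_combination h3
        have h4 := congrFun (congrFun h i) i
        rw [TU_apply, TU_apply, ev_snd hki, ev_snd hki, Pi.single_eq_same, hw] at h4
        exact ⟨by linear_combination h4, hw⟩
      rintro (w | w) (w' | w') h
      · have := congrArg Subtype.val h
        simp only [Sum.elim_inl] at this
        rw [(key _ _ _ _ this).2]
      · exfalso
        have := congrArg Subtype.val h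
        simp only [Sum.elim_inl, Sum.elim_inr] at this
        rw [← TU_zero b (Pi.single i 1)] at this
        exact ha (key _ _ _ _ this).1
      · exfalso
        have := congrArg Subtype.val h
        simp only [Sum.elim_inl, Sum.elim_inr] at this
        rw [← TU_zero b (Pi.single i 1)] at this
        exact ha (key _ _ _ _ this).1.symm
      · have := congrArg Subtype.val h
        simp only [Sum.elim_inr] at this
        rw [← TU_zero b (Pi.single i 1), ← TU_zero b (Pi.single i 1)] at this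
        rw [(key _ _ _ _ this).2]
    · intro T hT
      by_contra h0
      apply hT
      obtain ⟨w, hw | hw⟩ := supp hF hψ hR hki ha hab h11 hv h0
      · exact ⟨Sum.inl w, Subtype.ext hw.symm⟩
      · exact ⟨Sum.inr w, Subtype.ext hw.symm⟩
    · rintro (w | w) <;> rfl
  rw [Fintype.sum_sum_type] at h1
  simp only [Sum.elim_inl, Sum.elim_inr] at h1
  rw [← Finset.sum_add_distrib] at h1
  conv_lhs => rw [← h1]
  refine Finset.sum_congr rfl fun w _ => ?_
  rw [map_add, ← ev_zero k i, Ny_Pj_TU, Ny_Pj, hN, add_zero]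

theorem Pj_ww_Ny {i k : Fin n} (hki : k ≠ i) {a b : F} (w : F) (u : V) :
    Pj ρ ψ (TU a b (Pi.single i 1) (Pi.single k 1)) (ρ (ww i) (Ny ρ k i hki w u)) =
      Pj ρ ψ (TU a b (Pi.single i 1) (Pi.single k 1)) (ρ (ww i) u) := by
  rw [Ny, ← rho_mul, ww_mul_mm, rho_mul, ← rho_uu_Pj, uu_TU_single (Pj_mem _ _)]
  have e : ∀ q : Fin n, (sE k i (- -w)).1 q q = 0 := by
    intro q
    apply sE_zero_of_ne
    · rintro ⟨rfl, h⟩; exact hki h
    · rintro ⟨rfl, h⟩; exact hki h.symm
  rw [e, e, mul_zero, mul_zero, add_zero, AddChar.map_zero_eq_one, one_smul]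

/-- the basic relation -/
theorem rel (hF : Fintype.card F = 3) (hψ : ψ.IsPrimitive) (hR : RkTwo ρ ψ) {i k : Fin n}
    (hki : k ≠ i) {a b : F} (ha : a ≠ 0) (hab : b = -a)
    (h11 : ∀ v ∈ Wt ρ ψ (TU b b (Pi.single i 1) (Pi.single k 1)), v = 0) {v : V}
    (hv : v ∈ Wt ρ ψ (TU a b (Pi.single i 1) (Pi.single k 1))) {κ η : ℂ}
    (hκ : Pj ρ ψ (TU a b (Pi.single i 1) (Pi.single k 1)) (ρ (ww i) v) = κ • v)
    (hη : Pj ρ ψ (TU a b (Pi.single i 1) (Pi.single k 1))
      (ρ (ww i) (Pj ρ ψ (TT b (Pi.single k 1)) (ρ (ww i) v))) = η • v) (s : F) :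
    Pj ρ ψ (TU a b (Pi.single i 1) (Pi.single k 1))
      (ρ (ww i) (ρ (uu (sD i s)) (ρ (ww i) v))) =
      (gs ψ (s * b) * (ψ (s * a) * κ ^ 2 + η)) • v := by
  set y := Pj ρ ψ (TT b (Pi.single k 1)) (ρ (ww i) v) with hy
  have hym : y ∈ Wt ρ ψ (TT b (Pi.single k 1)) := Pj_mem _ _
  rw [ww_decomp hF hψ hR hki ha hab h11 hv, hκ, ← hy, map_sum, map_sum, map_sum, gs,
    Finset.sum_mul, Finset.sum_smul]
  refine Finset.sum_congr rfl fun w _ => ?_
  have h1 : Ny ρ k i hki w (κ • v) ∈ Wt ρ ψ (TU a b (Pi.single i 1) (ev k i w)) := by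
    have := Ny_mem_TU hki (y := w) (y' := 0) (v := κ • v) (ρ := ρ) (ψ := ψ) (a := a) (b := b)
      (by rw [ev_zero]; exact Submodule.smul_mem _ _ hv)
    rwa [add_zero] at this
  have h3 : Ny ρ k i hki w y ∈ Wt ρ ψ (TT b (ev k i w)) := by
    have := Ny_mem hki (y := w) (y' := 0) (v := y) (ρ := ρ) (ψ := ψ) (lam := b)
      (by rw [ev_zero]; exact hym)
    rwa [add_zero] at this
  rw [map_add, map_add, h1, h3]
  simp only [map_add, map_smul, Pj_ww_Ny]
  rw [hκ, hη, smul_smul, smul_smul, smul_smul, ← add_smul]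
  congr 1
  rw [pr_sD, pr_sD, TU_apply, TT_apply, ev_snd hki, Pi.single_eq_same]
  have e1 : s * (a * (1 * 1) + b * (w * w)) = s * b * w ^ 2 + s * a := by ring
  have e3 : s * (b * (w * w)) = s * b * w ^ 2 := by ring
  rw [e1, e3, AddChar.map_add_eq_mul]
  ring

theorem actT_ht (i k : Fin n) (hki : k ≠ i) (a b : F) (t : Fˣ) (ht2 : (t : F) * t = 1) :
    actT (ht i t) (TU a b (Pi.single i 1) (Pi.single k 1)) =
      TU a b (Pi.single i 1) (Pi.single k 1) := by
  have hinv : ((t⁻¹ : Fˣ) : F) = t := by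
    rw [Units.val_inv_eq_inv_val]
    exact inv_eq_of_mul_eq_one_right ht2
  rw [actT_TU, ht_inv, ht_coe, vecMul_add, vecMul_one, vecMul_sgl, vecMul_add, vecMul_one,
    vecMul_sgl, Pi.single_eq_of_ne hki.symm, zero_mul, Pi.single_zero, add_zero,
    Pi.single_eq_same, one_mul, hinv, ← Pi.single_add]
  have : (1 : F) + ((t : F) - 1) = t := by ring
  rw [this]
  ext p q
  rw [TU_apply, TU_apply]
  congr 1
  by_cases hp : p = i
  · subst hp
    by_cases hq : q = p
    · subst hq; simp only [Pi.single_eq_same]; rw [ht2]; ring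
    · simp [Pi.single_eq_of_ne hq]
  · simp [Pi.single_eq_of_ne hp]

theorem ww_mul_Tv (i : Fin n) : ww i * Tv (1 : F) (Sum.elim (0 : Fin n → F) (Pi.single i (1 : F))) =
    uu (sD i (1 : F)) * ww i := by
  rw [mul_Tv, ww_mulVec]
  congr 1
  have : (Sum.elim (Function.update (0 : Fin n → F) i ((Pi.single i (1 : F) : Fin n → F) i))
      (Function.update (Pi.single i (1 : F) : Fin n → F) i (-(0 : Fin n → F) i))) =
      Sum.elim (Pi.single i (1 : F)) (0 : Fin n → F) := by
    congr 1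
    · simp [Pi.single]
    · ext q
      by_cases hq : q = i
      · subst hq; simp
      · simp [hq]
  rw [this, Tv_left, sV_single]

/-- the opposite transvection -/
theorem Tv_right (i : Fin n) : (Tv (1 : F) (Sum.elim (0 : Fin n → F) (Pi.single i (1 : F))) : Sp n F) =
    uu (sD i (-1 : F)) * ww i * uu (sD i (-1 : F)) := by
  have h3 := ww_uu_ww (n := n) (F := F) i (-1)
  have e5 : -(((-1 : Fˣ)⁻¹ : Fˣ) : F) = 1 := by simp
  rw [e5, Units.val_neg, Units.val_one] at h3
  have h4 := ww_mul_Tv (F := F) (n := n) i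
  have h5 : mm (ht i (-1 : Fˣ)) * uu (sD i (-1 : F)) =
      uu (sD i (-1 : F)) * mm (ht i (-1 : Fˣ)) := by
    rw [mm_mul_uu]
    congr 2
    apply Subtype.ext
    show ((ht i (-1) : GL (Fin n) F) : Matrix (Fin n) (Fin n) F) * single i i (-1 : F) *
      ((ht i (-1) : GL (Fin n) F) : Matrix (Fin n) (Fin n) F)ᵀ = single i i (-1 : F)
    rw [ht_coe]
    simp only [transpose_add, transpose_one, transpose_single, Matrix.mul_add, Matrix.add_mul,
      Matrix.one_mul, Matrix.mul_one, single_mul_single_same]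
    rw [← single_add, ← single_add, ← single_add]
    congr 1
    rw [Units.val_neg, Units.val_one]
    ring
  have h6 : mm (ht i (-1 : Fˣ)) * Tv (1 : F) (Sum.elim (0 : Fin n → F) (Pi.single i (1 : F))) =
      mm (ht i (-1 : Fˣ)) * (uu (sD i (-1 : F)) * ww i * uu (sD i (-1 : F))) := by
    conv_lhs => rw [← ww_sq, mul_assoc, h4, ← mul_assoc, h3, ← h5]
    simp only [mul_assoc]
  exact mul_left_cancel h6

/-- The coefficient of the opposite transvection. -/
theorem coef_ei (hF : Fintype.card F = 3) (hψ : ψ.IsPrimitive) (hR : RkTwo ρ ψ) {i k : Fin n}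
    (hki : k ≠ i) {a b : F} (ha : a ≠ 0) (hab : b = -a)
    (h11 : ∀ v ∈ Wt ρ ψ (TU b b (Pi.single i 1) (Pi.single k 1)), v = 0) {v : V}
    (hv : v ∈ Wt ρ ψ (TU a b (Pi.single i 1) (Pi.single k 1))) (hne : v ≠ 0)
    (h1d : ∀ u ∈ Wt ρ ψ (TU a b (Pi.single i 1) (Pi.single k 1)), ∃ c : ℂ, u = c • v)
    {ε : ℂ} (hε2 : ε * ε = 1) (hε : ρ (mm (ht i (-1))) v = ε • v) :
    Pj ρ ψ (TU a b (Pi.single i 1) (Pi.single k 1))
      (ρ (Tv 1 (Sum.elim 0 (Pi.single i 1))) v) = (ψ a * ((ψ (-a) + ε * ψ a) / 3)) • v := by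
  obtain ⟨κ, hκ⟩ := h1d _ (Pj_mem _ (ρ (ww i) v))
  obtain ⟨η, hη⟩ := h1d _ (Pj_mem _ (ρ (ww i) (Pj ρ ψ (TT b (Pi.single k 1)) (ρ (ww i) v))))
  have hrel := rel hF hψ hR hki ha hab h11 hv hκ hη
  have hinj : ∀ c d : ℂ, c • v = d • v → c = d := fun c d h => smul_left_injective ℂ hne h
  have hht1 : (ht i (1 : Fˣ) : GL (Fin n) F) = 1 := by
    apply Units.ext
    rw [ht_coe]; simp
  have huv : ∀ s : F, ρ (uu (sD i s)) v = ψ (s * a) • v := by
    intro s
    rw [hv, pr_sD, TU_apply, Pi.single_eq_same, Pi.single_eq_of_ne hki.symm]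
    congr 2; ring
  have hup : ∀ (s : F) (z : V), Pj ρ ψ (TU a b (Pi.single i 1) (Pi.single k 1))
      (ρ (uu (sD i s)) z) = ψ (s * a) • Pj ρ ψ (TU a b (Pi.single i 1) (Pi.single k 1)) z := by
    intro s z
    rw [← rho_uu_Pj, Pj_mem, pr_sD, TU_apply, Pi.single_eq_same, Pi.single_eq_of_ne hki.symm]
    congr 2; ring
  have hmm : ∀ z : V, Pj ρ ψ (TU a b (Pi.single i 1) (Pi.single k 1))
      (ρ (mm (ht i (-1))) z) =
      ρ (mm (ht i (-1))) (Pj ρ ψ (TU a b (Pi.single i 1) (Pi.single k 1)) z) := by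
    intro z
    rw [mm_Pj, actT_ht i k hki a b (-1) (by simp)]
  -- s = 0
  have e0 : 3 * (κ ^ 2 + η) = ε := by
    have h := hrel 0
    have h0 : (sD i (0 : F) : Sym n F) = 0 := by
      apply Subtype.ext
      simp only [sD, _root_.Matrix.single_zero, _root_.ZeroMemClass.coe_zero]
    rw [h0, uu_zero, map_one, Module.End.one_apply, ← rho_mul, ww_sq, hmm, Pj_of_mem hv, hε,
      zero_mul, zero_mul, AddChar.map_zero_eq_one, gs_eq hF, AddChar.map_zero_eq_one] at h
    have h3 := hinj _ _ h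
    linear_combination -h3
  have e1 : (1 + 2 * ψ a) * (ψ (-a) * κ ^ 2 + η) = ψ (-a) * κ := by
    have h := hrel (-1)
    have h3 := ww_uu_ww (n := n) (F := F) i 1
    rw [inv_one, Units.val_one, hht1, map_one, mul_one] at h3
    rw [← rho_mul, ← rho_mul, h3, rho_mul, rho_mul, huv, hup, map_smul, map_smul,
      hκ, smul_smul, smul_smul] at h
    have h4 := hinj _ _ h
    rw [one_mul] at h4
    have e : (-1 : F) * b = a := by rw [hab]; ring
    rw [e, gs_eq hF, neg_one_mul] at h4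
    rw [← h4]
    linear_combination κ * psi_sq (ψ := ψ) hF a
  have e2 : (1 + 2 * ψ (-a)) * (ψ a * κ ^ 2 + η) = ψ a * κ * ε := by
    have h := hrel 1
    have h3 := ww_uu_ww (n := n) (F := F) i (-1)
    have e5 : -(((-1 : Fˣ)⁻¹ : Fˣ) : F) = 1 := by simp
    rw [e5] at h3
    rw [← rho_mul, ← rho_mul, h3, rho_mul, rho_mul, rho_mul, huv, hup, map_smul,
      map_smul, map_smul, hmm, hκ, map_smul, hε, smul_smul, smul_smul, smul_smul] at h
    have h4 := hinj _ _ h
    have e : (1 : F) * b = -a := by rw [hab]; ring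
    rw [e, gs_eq hF, one_mul, Units.val_neg, Units.val_one, neg_one_mul] at h4
    rw [← h4]
    have h6 := psi_sq (ψ := ψ) hF (-a)
    rw [neg_neg] at h6
    linear_combination κ * ε * h6
  have hp := sum_psi hF hψ ha
  have hpp := psi_mul_neg (ψ := ψ) a
  -- the quadratic equation
  have e3 : 3 * κ ^ 2 = (ψ (-a) + ε * ψ a) * κ := by
    have hq : ψ a * ψ a = -1 - ψ a := by rw [psi_sq hF, hp]
    have h5 : (1 + 2 * ψ a) * (ψ (-a) * κ ^ 2 + η) + (1 + 2 * ψ (-a)) * (ψ a * κ ^ 2 + η) =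
      ψ (-a) * κ + ψ a * κ * ε := by rw [e1, e2]
    rw [hp] at h5 ⊢
    linear_combination h5 + 4 * κ ^ 2 * hq
  have hκ0 : κ ≠ 0 := by
    intro h0
    rw [h0] at e0 e1
    have hg : (1 + 2 * ψ a) ≠ 0 := by
      intro h
      have hq : ψ a * ψ a = -1 - ψ a := by rw [psi_sq hF, hp]
      have : (1 + 2 * ψ a) * (1 + 2 * ψ a) = -3 := by linear_combination 4 * hq
      rw [h] at this
      norm_num at this
    have hη0 : η = 0 := by
      have : (1 + 2 * ψ a) * η = 0 := by linear_combination e1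
      exact (mul_eq_zero.mp this).resolve_left hg
    rw [hη0] at e0
    have : ε = 0 := by rw [← e0]; ring
    rw [this] at hε2
    norm_num at hε2
  have hκv : κ = (ψ (-a) + ε * ψ a) / 3 := by
    have : κ * (3 * κ - (ψ (-a) + ε * ψ a)) = 0 := by linear_combination e3
    have := (mul_eq_zero.mp this).resolve_left hκ0
    linear_combination this / 3
  have hL := Tv_right (F := F) (n := n) i
  rw [hL, rho_mul, rho_mul, huv, map_smul, map_smul, map_smul, hup, hκ, smul_smul, smul_smul,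
    hκv]
  congr 1
  have h6 := psi_sq (ψ := ψ) hF (-a)
  rw [neg_neg] at h6
  rw [neg_one_mul]
  linear_combination ((ψ (-a) + ε * ψ a) / 3) * h6

end Cfsg.Agent.H66.TI
end

-- part: H66/TI/Out
section
/-!
# Coefficients of the opposite transvections outside the support (helper66)
-/

set_option autoImplicit false
open Matrix Module Representation

namespace Cfsg.Agent.H66.TI

open Cfsg.Agent.H162.Weil

variable {F : Type*} [Field F] {n : ℕ} [Fintype F] {V : Type*} [AddCommGroup V] [Module ℂ V]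
  {ρ : Representation ℂ (Sp n F) V} {ψ : AddChar F ℂ}

theorem g2_three (hF : Fintype.card F = 3) (hψ : ψ.IsPrimitive) {a : F} (ha : a ≠ 0) :
    g2 ψ (-a) a = 3 ∧ g2 ψ a (-a) = 3 := by
  have hp := sum_psi hF hψ ha
  have hpp := psi_mul_neg (ψ := ψ) a
  constructor
  · rw [g2, gs_eq hF, gs_eq hF]
    linear_combination 4 * hpp + 2 * hp
  · rw [g2, gs_eq hF, gs_eq hF]
    linear_combination 4 * hpp + 2 * hp

/-- transport of coefficients -/
theorem transport (h : GL (Fin n) F) {T : Matrix (Fin n) (Fin n) F} {c : ℂ} {b : Fin n → F}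
    (H : ∀ v ∈ Wt ρ ψ T, Pj ρ ψ T (ρ (Tv 1 (Sum.elim 0 b)) v) = c • v) :
    ∀ v ∈ Wt ρ ψ (actT h T), Pj ρ ψ (actT h T) (ρ (Tv 1 (Sum.elim 0
      (b ᵥ* ((h⁻¹ : GL (Fin n) F) : Matrix (Fin n) (Fin n) F)))) v) = c • v := by
  intro v hv
  have h1 := mm_mem_Wt h⁻¹ hv
  rw [← actT_mul, inv_mul_cancel, actT_one] at h1
  have h3 : v = ρ (mm h) (ρ (mm h⁻¹) v) := by
    rw [← rho_mul, ← map_mul, mul_inv_cancel, map_one, map_one, Module.End.one_apply]
  have h4 : mm h * Tv 1 (Sum.elim 0 b) = Tv 1 (Sum.elim 0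
      (b ᵥ* ((h⁻¹ : GL (Fin n) F) : Matrix (Fin n) (Fin n) F))) * mm h := by
    rw [mul_Tv, mm_mulVec, mulVec_zero]
  conv_lhs => rw [h3]
  rw [← rho_mul, ← h4, rho_mul, ← mm_Pj, H _ h1, map_smul, ← h3]

/-- the coefficient for `e_j`, `j` outside the support -/
theorem coef_ej (hF : Fintype.card F = 3) (hψ : ψ.IsPrimitive) (hR : RkTwo ρ ψ) {i k j : Fin n}
    (hik : i ≠ k) (hij : i ≠ j) (hkj : k ≠ j) {a b : F} (ha : a ≠ 0) (hab : b = -a) {v : V}
    (hv : v ∈ Wt ρ ψ (TU a b (Pi.single i 1) (Pi.single k 1))) :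
    Pj ρ ψ (TU a b (Pi.single i 1) (Pi.single k 1))
      (ρ (Tv 1 (Sum.elim 0 (Pi.single j 1))) v) = (1 / 3 : ℂ) • v := by
  have hb : b ≠ 0 := by rw [hab]; exact neg_ne_zero.mpr ha
  have h0 : TU a b (Pi.single i 1) (Pi.single k 1) j j = 0 := by
    rw [TU_apply, Pi.single_eq_of_ne hij.symm, Pi.single_eq_of_ne hkj.symm]; ring
  have h1 := g2_Lop hψ (two_ne hF) hR hik hij hkj ha hb hv
  have hup : ∀ (s : F) (z : V), Pj ρ ψ (TU a b (Pi.single i 1) (Pi.single k 1))
      (ρ (uu (sD j s)) z) = Pj ρ ψ (TU a b (Pi.single i 1) (Pi.single k 1)) z := by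
    intro s z
    rw [← rho_uu_Pj, Pj_mem, pr_sD, h0, mul_zero, AddChar.map_zero_eq_one, one_smul]
  rw [Tv_right, rho_mul, rho_mul, hup, hv, pr_sD, h0, mul_zero, AddChar.map_zero_eq_one, one_smul]
  rw [Lop, TV_zero, hab, neg_neg, (g2_three hF hψ ha).1, ← hab] at h1
  conv_rhs => rw [← h1]
  rw [smul_smul]
  norm_num

/-- the coefficient for `b` outside the support -/
theorem coef_out (hF : Fintype.card F = 3) (hψ : ψ.IsPrimitive) (hR : RkTwo ρ ψ) {i k j : Fin n}
    (hik : i ≠ k) (hij : i ≠ j) (hkj : k ≠ j) {a b : F} (ha : a ≠ 0) (hab : b = -a) {v : V}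
    (hv : v ∈ Wt ρ ψ (TU a b (Pi.single i 1) (Pi.single k 1))) {x : Fin n → F} (hx : x j ≠ 0) :
    Pj ρ ψ (TU a b (Pi.single i 1) (Pi.single k 1))
      (ρ (Tv 1 (Sum.elim 0 x)) v) = (1 / 3 : ℂ) • v := by
  let r : GL (Fin n) F := Cfsg.Agent.H162.Weil.rk (Pi.single j 1) (x - Pi.single j 1)
    (by simpa only [_root_.dotProduct_single, _root_.Pi.sub_apply, _root_.Pi.single_eq_same, _root_.mul_one, _root_.add_sub_cancel, _root_.ne_eq] using hx)
  have hr : ∀ m, m ≠ j → (Pi.single m 1 : Fin n → F) ᵥ* (r : Matrix (Fin n) (Fin n) F) =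
      Pi.single m 1 := by
    intro m hm
    rw [rk_coe, vecMul_add, vecMul_one, vecMul_vecMulVec]
    simp only [hm, _root_.dotProduct_single, _root_.ne_eq, _root_.not_false_eq_true, _root_.Pi.single_eq_of_ne', _root_.mul_one, _root_.zero_smul, _root_.add_zero]
  have hrj : (Pi.single j 1 : Fin n → F) ᵥ* (r : Matrix (Fin n) (Fin n) F) = x := by
    rw [rk_coe, vecMul_add, vecMul_one, vecMul_vecMulVec]
    simp only [_root_.dotProduct_single, _root_.Pi.single_eq_same, _root_.mul_one, _root_.one_smul, _root_.add_sub_cancel]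
  have h1 := transport (ρ := ρ) (ψ := ψ) r⁻¹
    (T := TU a b (Pi.single i 1) (Pi.single k 1)) (c := 1 / 3) (b := Pi.single j 1)
    (fun v hv => coef_ej hF hψ hR hik hij hkj ha hab hv)
  rw [inv_inv, hrj, actT_TU, inv_inv, hr i hij, hr k hkj] at h1
  exact h1 v hv

/-- signs outside the support act trivially -/
theorem ht_out (hF : Fintype.card F = 3) (hψ : ψ.IsPrimitive) (hR : RkTwo ρ ψ) {i k j : Fin n}
    (hik : i ≠ k) (hij : i ≠ j) (hkj : k ≠ j) {a b : F} (ha : a ≠ 0) (hab : b = -a) {v : V}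
    (hv : v ∈ Wt ρ ψ (TU a b (Pi.single i 1) (Pi.single k 1))) :
    ρ (mm (ht j (-1))) v = v := by
  have hb : b ≠ 0 := by rw [hab]; exact neg_ne_zero.mpr ha
  have h := g2_ht hψ (two_ne hF) hR hik hij hkj ha hb hv (-1)
  have e5 : -(((-1 : Fˣ)⁻¹ : Fˣ) : F) = 1 := by simp
  rw [e5, one_mul, one_mul, hab, neg_neg, (g2_three hF hψ ha).1, (g2_three hF hψ ha).2] at h
  exact smul_right_injective V (by norm_num : (3 : ℂ) ≠ 0) h

theorem dg_out (hF : Fintype.card F = 3) (hψ : ψ.IsPrimitive) (hR : RkTwo ρ ψ) {i k : Fin n}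
    (hik : i ≠ k) {a b : F} (ha : a ≠ 0) (hab : b = -a) {v : V}
    (hv : v ∈ Wt ρ ψ (TU a b (Pi.single i 1) (Pi.single k 1))) (s : Finset (Fin n))
    (hi : i ∉ s) (hk : k ∉ s) :
    ρ (mm (dg (fun l => if l ∈ s then (-1 : Fˣ) else 1))) v = v := by
  classical
  induction s using Finset.induction_on with
  | empty =>
    have : (dg (fun l : Fin n => if l ∈ (∅ : Finset (Fin n)) then (-1 : Fˣ) else 1) :
        GL (Fin n) F) = 1 := by
      apply Units.ext
      rw [dg_coe]
      simp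
    rw [this, map_one, map_one, Module.End.one_apply]
  | insert j s hj ih =>
    have h1 : (dg (fun l : Fin n => if l ∈ insert j s then (-1 : Fˣ) else 1) :
        GL (Fin n) F) = dg (fun l => if l ∈ s then (-1 : Fˣ) else 1) * ht j (-1) := by
      rw [ht, ← dg_mul]
      congr 1
      ext l
      by_cases hl : l = j
      · subst hl
        simp [hj]
      · simp [hl]
    rw [Finset.mem_insert, not_or] at hi hk
    rw [h1, map_mul, rho_mul, ht_out hF hψ hR hik hi.1 hk.1 ha hab hv, ih hi.2 hk.2]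

/-- the two signs agree -/
theorem sign_eq (hF : Fintype.card F = 3) (hψ : ψ.IsPrimitive) (hR : RkTwo ρ ψ)
    (hz : ρ (zz n F) = 1) {i k : Fin n}
    (hik : i ≠ k) {a b : F} (ha : a ≠ 0) (hab : b = -a) {v : V}
    (hv : v ∈ Wt ρ ψ (TU a b (Pi.single i 1) (Pi.single k 1))) :
    ρ (mm (ht i (-1))) (ρ (mm (ht k (-1))) v) = v := by
  classical
  have h1 := dg_out hF hψ hR hik ha hab hv (Finset.univ \ {i, k}) (by simp only [_root_.Finset.mem_sdiff, _root_.Finset.mem_univ, _root_.Finset.mem_insert, _root_.Finset.mem_singleton, _root_.true_or, _root_.not_true_eq_false, _root_.and_false, _root_.not_false_eq_true]) (by simp only [_root_.Finset.mem_sdiff, _root_.Finset.mem_univ, _root_.Finset.mem_insert, _root_.Finset.mem_singleton, _root_.or_true, _root_.not_true_eq_false, _root_.and_false, _root_.not_false_eq_true])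
  have h3 : (-1 : GL (Fin n) F) = ht i (-1) * (ht k (-1) *
      dg (fun l => if l ∈ Finset.univ \ {i, k} then (-1 : Fˣ) else 1)) := by
    rw [ht, ht, ← dg_mul, ← dg_mul]
    apply Units.ext
    rw [dg_coe]
    ext p q
    by_cases hpq : p = q
    · subst hpq
      by_cases hpi : p = i
      · subst hpi
        simp only [hik, _root_.Units.val_neg, _root_.Units.val_one, _root_.Matrix.neg_apply, _root_.Matrix.one_apply_eq, _root_.Finset.mem_sdiff, _root_.Finset.mem_univ, _root_.Finset.mem_insert, _root_.Finset.mem_singleton, _root_.not_or, _root_.true_and, _root_.Pi.mul_apply, _root_.mul_ite, _root_.mul_neg, _root_.mul_one, _root_.Matrix.diagonal_apply_eq, _root_.not_true_eq_false, _root_.not_false_eq_true, _root_.and_true, ↓ _root_.reduceIte, _root_.Pi.mulSingle_eq_same, _root_.ne_eq, _root_.Pi.mulSingle_eq_of_ne]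
      · by_cases hpk : p = k
        · subst hpk
          simp only [hpi, _root_.Units.val_neg, _root_.Units.val_one, _root_.Matrix.neg_apply, _root_.Matrix.one_apply_eq, _root_.Finset.mem_sdiff, _root_.Finset.mem_univ, _root_.Finset.mem_insert, _root_.Finset.mem_singleton, _root_.not_or, _root_.true_and, _root_.Pi.mul_apply, _root_.mul_ite, _root_.mul_neg, _root_.mul_one, _root_.Matrix.diagonal_apply_eq, _root_.not_false_eq_true, _root_.not_true_eq_false, _root_.and_false, ↓ _root_.reduceIte, _root_.ne_eq, _root_.Pi.mulSingle_eq_of_ne, _root_.Pi.mulSingle_eq_same]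
        · simp only [hpi, hpk, _root_.Units.val_neg, _root_.Units.val_one, _root_.Matrix.neg_apply, _root_.Matrix.one_apply_eq, _root_.Finset.mem_sdiff, _root_.Finset.mem_univ, _root_.Finset.mem_insert, _root_.Finset.mem_singleton, _root_.not_or, _root_.true_and, _root_.Pi.mul_apply, _root_.mul_ite, _root_.mul_neg, _root_.mul_one, _root_.Matrix.diagonal_apply_eq, _root_.not_false_eq_true, _root_.and_self, ↓ _root_.reduceIte, _root_.ne_eq, _root_.Pi.mulSingle_eq_of_ne]
    · simp only [hpq, _root_.Units.val_neg, _root_.Units.val_one, _root_.Matrix.neg_apply, _root_.ne_eq, _root_.not_false_eq_true, _root_.Matrix.one_apply_ne, _root_.neg_zero, _root_.Finset.mem_sdiff, _root_.Finset.mem_univ, _root_.Finset.mem_insert, _root_.Finset.mem_singleton, _root_.not_or, _root_.true_and, _root_.Pi.mul_apply, _root_.mul_ite, _root_.mul_neg, _root_.mul_one, _root_.Matrix.diagonal_apply_ne]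
  have h4 : ρ (zz n F) v = v := by rw [hz]; rfl
  rw [zz, h3, map_mul, rho_mul, map_mul, rho_mul, h1] at h4
  exact h4

end Cfsg.Agent.H66.TI
end

-- part: H66/TI/Iso
section
/-!
# The isotropic coefficient (helper66)
-/

set_option autoImplicit false
open Matrix Module Representation

namespace Cfsg.Agent.H66.TI

open Cfsg.Agent.H162.Weil

variable {F : Type*} [Field F] {n : ℕ}

theorem tv_comm_row {k l i : Fin n} (hki : k ≠ i) (hli : l ≠ i) (hkl : k ≠ l) (c r : F) :
    tv k l hkl c * tv l i hli r = tv l i hli r * tv k i hki (c * r) * tv k l hkl c := by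
  apply Units.ext
  rw [Units.val_mul, Units.val_mul, Units.val_mul, tv_coe, tv_coe, tv_coe]
  simp only [Matrix.mul_add, Matrix.add_mul, Matrix.mul_one, Matrix.one_mul,
    single_mul_single_same, single_mul_single_of_ne _ _ _ _ hki.symm,
    single_mul_single_of_ne _ _ _ _ hkl.symm, single_mul_single_of_ne _ _ _ _ hli.symm,
    add_zero, zero_add, Matrix.zero_mul]
  abel

theorem tv_comm_col {k l i : Fin n} (hki : k ≠ i) (hkl : k ≠ l) (hli : l ≠ i) (c r : F) :
    tv k i hki r * tv k l hkl c = tv k l hkl c * tv k i hki r := by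
  apply Units.ext
  rw [Units.val_mul, Units.val_mul, tv_coe, tv_coe]
  simp only [Matrix.mul_add, Matrix.add_mul, Matrix.mul_one, Matrix.one_mul,
    single_mul_single_of_ne _ _ _ _ hki.symm,
    single_mul_single_of_ne _ _ _ _ hkl.symm, add_zero]
  abel

theorem tv_comm_i {k l i : Fin n} (hki : k ≠ i) (hli : l ≠ i) (c r : F) :
    tv k i hki r * tv l i hli c = tv l i hli c * tv k i hki r := by
  apply Units.ext
  rw [Units.val_mul, Units.val_mul, tv_coe, tv_coe]
  simp only [Matrix.mul_add, Matrix.add_mul, Matrix.mul_one, Matrix.one_mul,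
    single_mul_single_of_ne _ _ _ _ hki.symm,
    single_mul_single_of_ne _ _ _ _ hli.symm, add_zero]
  abel

variable [Fintype F] {V : Type*} [AddCommGroup V] [Module ℂ V]
  {ρ : Representation ℂ (Sp n F) V} {ψ : AddChar F ℂ}

/-- Fourier projection for a one parameter group. -/
theorem exists_eigen (hF : Fintype.card F = 3) (hψ : ψ.IsPrimitive) {k i : Fin n} (hki : k ≠ i)
    (v : V) (hv : v ≠ 0) : ∃ p : F,
      (∑ r : F, ψ (-(p * r)) • ρ (mm (tv k i hki r)) v) ≠ 0 := by
  classical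
  by_contra hc
  push Not at hc
  have h1 : ∑ p : F, ∑ r : F, ψ (-(p * r)) • ρ (mm (tv k i hki r)) v = 0 :=
    Finset.sum_eq_zero fun p _ => hc p
  rw [Finset.sum_comm] at h1
  have h3 : ∀ r : F, ∑ p : F, ψ (-(p * r)) • ρ (mm (tv k i hki r)) v =
      if r = 0 then (3 : ℂ) • v else 0 := by
    intro r
    rw [← Finset.sum_smul]
    split_ifs with hr
    · subst hr
      have e1 : tv k i hki (0 : F) = 1 := by
        apply Units.ext
        rw [tv_coe]; simp
      rw [e1, map_one, map_one, Module.End.one_apply]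
      congr 1
      simp [hF]
    · have : ∑ p : F, ψ (-(p * r)) = 0 := by
        have h5 := AddChar.sum_eq_zero_of_ne_one (hψ (neg_ne_zero.mpr hr))
        rw [← h5]
        refine Finset.sum_congr rfl fun p _ => ?_
        rw [AddChar.mulShift_apply]
        congr 1; ring
      rw [this, zero_smul]
  rw [Finset.sum_congr rfl fun r _ => h3 r, Finset.sum_ite_eq' Finset.univ (0 : F),
    if_pos (Finset.mem_univ _)] at h1
  exact hv ((smul_eq_zero.mp h1).resolve_left (by norm_num))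

theorem eigen_apply {k i : Fin n} (hki : k ≠ i) (v : V) (p s : F) :
    ρ (mm (tv k i hki s)) (∑ r : F, ψ (-(p * r)) • ρ (mm (tv k i hki r)) v) =
      ψ (p * s) • ∑ r : F, ψ (-(p * r)) • ρ (mm (tv k i hki r)) v := by
  rw [map_sum, Finset.smul_sum]
  refine Fintype.sum_equiv (Equiv.addLeft s) _ _ fun r => ?_
  rw [map_smul, ← rho_mul, ← map_mul, ← tv_add, smul_smul, Equiv.coe_addLeft,
    ← AddChar.map_add_eq_mul]
  congr 2
  ring

theorem tv_TT {k l i : Fin n} (hkl : k ≠ l) (hki : k ≠ i) (s c : F) {z : V}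
    (hz : z ∈ Wt ρ ψ (TT s (Pi.single i 1))) :
    ρ (mm (tv k l hkl c)) z ∈ Wt ρ ψ (TT s (Pi.single i 1)) := by
  have h := mm_mem_TT (tv k l hkl c) hz
  rwa [tv_inv_coe, vecMul_add, vecMul_one, vecMul_sgl, Pi.single_eq_of_ne hki, zero_mul,
    Pi.single_zero, add_zero] at h

/-- Small multiplicity of a rank one weight makes the transvections trivial. -/
theorem tv_triv [FiniteDimensional ℂ V] (hF : Fintype.card F = 3) (hψ : ψ.IsPrimitive)
    {k l i : Fin n} (hki : k ≠ i) (hli : l ≠ i) (hkl : k ≠ l) {s : F}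
    (hm : finrank ℂ (Wt ρ ψ (TT s (Pi.single i 1))) ≤ 2) {z : V}
    (hz : z ∈ Wt ρ ψ (TT s (Pi.single i 1))) (r : F) :
    ρ (mm (tv k i hki r)) z = z := by
  classical
  set U := Wt ρ ψ (TT s (Pi.single i 1)) with hU
  -- the projections
  let P : F → V := fun p => ∑ r : F, ψ (-(p * r)) • ρ (mm (tv k i hki r)) z
  have hPmem : ∀ p, P p ∈ U := by
    intro p
    exact Submodule.sum_mem _ fun r _ => Submodule.smul_mem _ _ (tv_TT hki hki s r hz)
  -- no nontrivial character
  have hP0 : ∀ p, p ≠ 0 → P p = 0 := by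
    intro p hp
    by_contra hne
    obtain ⟨q, hq⟩ := exists_eigen (ρ := ρ) hF hψ hli (P p) hne
    set z2 := ∑ r : F, ψ (-(q * r)) • ρ (mm (tv l i hli r)) (P p) with hz2
    have hz2U : z2 ∈ U :=
      Submodule.sum_mem _ fun r _ => Submodule.smul_mem _ _ (tv_TT hli hli s r (hPmem p))
    have hR : ∀ c, ρ (mm (tv k i hki c)) z2 = ψ (p * c) • z2 := by
      intro c
      rw [hz2, map_sum, Finset.smul_sum]
      refine Finset.sum_congr rfl fun r _ => ?_
      rw [map_smul, ← rho_mul, ← map_mul, tv_comm_i, map_mul, rho_mul]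
      show _ • ρ (mm (tv l i hli r)) (ρ (mm (tv k i hki c)) (P p)) = _
      have : ρ (mm (tv k i hki c)) (P p) = ψ (p * c) • P p := eigen_apply hki z p c
      rw [this, map_smul, smul_comm]
    have hR' : ∀ c, ρ (mm (tv l i hli c)) z2 = ψ (q * c) • z2 :=
      fun c => eigen_apply hli (P p) q c
    -- the three eigenvectors
    let y : F → V := fun c => ρ (mm (tv k l hkl c)) z2
    have hy : ∀ c, ρ (mm (tv l i hli 1)) (y c) = ψ (q - p * c) • y c := by
      intro c
      have h1 := congrArg (fun g => ρ (mm g) z2) (tv_comm_row hki hli hkl c (1 : F))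
      simp only [map_mul, Module.End.mul_apply] at h1
      rw [hR', map_smul, ← rho_mul (mm (tv k i hki (c * 1))), ← map_mul mm,
        tv_comm_col hki hkl hli, map_mul mm, rho_mul, hR, map_smul, map_smul, mul_one,
        mul_one] at h1
      have h3 := congrArg (fun w => ψ (-(p * c)) • w) h1
      simp only [smul_smul, ← AddChar.map_add_eq_mul] at h3
      rw [neg_add_cancel, AddChar.map_zero_eq_one, one_smul] at h3
      show ρ (mm (tv l i hli 1)) (ρ (mm (tv k l hkl c)) z2) = _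
      rw [← h3]
      congr 2
      ring
    have hyne : ∀ c, y c ≠ 0 := by
      intro c h
      apply hq
      apply rho_inj (ρ := ρ) (mm (tv k l hkl c))
      rw [map_zero]; exact h
    have hinj : Function.Injective (fun c : F => ψ (q - p * c)) := by
      intro c d h
      by_contra hcd
      have h1 : ψ (p * (d - c)) = 1 := by
        have e : p * (d - c) = (q - p * c) + -(q - p * d) := by ring
        rw [e, AddChar.map_add_eq_mul]
        simp only at h
        rw [h, psi_mul_neg]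
      exact psi_ne_one hF hψ (mul_ne_zero hp (sub_ne_zero.mpr (Ne.symm hcd))) h1
    have hli3 : LinearIndependent ℂ y := by
      apply Module.End.eigenvectors_linearIndependent' (ρ (mm (tv l i hli 1)))
        (fun c : F => ψ (q - p * c)) hinj y
      intro c
      exact ⟨Module.End.mem_eigenspace_iff.mpr (hy c), hyne c⟩
    have hyU : ∀ c, y c ∈ U := fun c => tv_TT hkl hki s c hz2U
    have h5 : LinearIndependent ℂ (fun c : F => (⟨y c, hyU c⟩ : U)) := by
      apply LinearIndependent.of_comp U.subtype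
      exact hli3
    have h6 := h5.fintype_card_le_finrank
    rw [hF] at h6
    omega
  -- conclusion
  have h1 : ∑ p : F, P p = (3 : ℂ) • z := by
    show ∑ p : F, ∑ r : F, ψ (-(p * r)) • ρ (mm (tv k i hki r)) z = _
    rw [Finset.sum_comm]
    have h3 : ∀ r : F, ∑ p : F, ψ (-(p * r)) • ρ (mm (tv k i hki r)) z =
        if r = 0 then (3 : ℂ) • z else 0 := by
      intro r
      rw [← Finset.sum_smul]
      split_ifs with hr
      · subst hr
        have e1 : tv k i hki (0 : F) = 1 := by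
          apply Units.ext
          rw [tv_coe]; simp
        rw [e1, map_one, map_one, Module.End.one_apply]
        congr 1
        simp [hF]
      · have : ∑ p : F, ψ (-(p * r)) = 0 := by
          have h5 := AddChar.sum_eq_zero_of_ne_one (hψ (neg_ne_zero.mpr hr))
          rw [← h5]
          refine Finset.sum_congr rfl fun p _ => ?_
          rw [AddChar.mulShift_apply]
          congr 1; ring
        rw [this, zero_smul]
    rw [Finset.sum_congr rfl fun r _ => h3 r, Finset.sum_ite_eq' Finset.univ (0 : F),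
      if_pos (Finset.mem_univ _)]
  rw [Finset.sum_eq_single 0 (fun p _ hp => hP0 p hp) (by simp)] at h1
  have h3 : ρ (mm (tv k i hki r)) (P 0) = P 0 := by
    have := eigen_apply (ρ := ρ) (ψ := ψ) hki z 0 r
    rw [zero_mul, AddChar.map_zero_eq_one, one_smul] at this
    exact this
  rw [h1, map_smul] at h3
  exact smul_right_injective V (by norm_num : (3 : ℂ) ≠ 0) h3

end Cfsg.Agent.H66.TI
end

-- part: H66/TI/Iso2
section
/-!
# The isotropic coefficient: main computation (helper66)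
-/

set_option autoImplicit false
open Matrix Module Representation

namespace Cfsg.Agent.H66.TI

open Cfsg.Agent.H162.Weil

variable {F : Type*} [Field F] {n : ℕ}

theorem sE_coe (i k : Fin n) (c : F) : (sE i k c).1 = single i k c + single k i c := rfl

theorem actT_H {i k : Fin n} (hki : k ≠ i) (c w : F) :
    actT (tv k i hki (-w)) (sE i k c).1 = (sE i k c).1 + (sD i (2 * c * w)).1 := by
  rw [actT, tv_inv_coe, neg_neg, sE_coe]
  show _ = single i k c + single k i c + single i i (2 * c * w)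
  simp only [transpose_add, transpose_one, transpose_single, Matrix.mul_add, Matrix.add_mul,
    Matrix.mul_one, Matrix.one_mul, single_mul_single_same,
    single_mul_single_of_ne _ _ _ _ hki.symm, single_mul_single_of_ne _ _ _ _ hki,
    add_zero, zero_add]
  have e : single i i (2 * c * w) = single i i (w * c) + single i i (c * w) := by
    rw [← single_add]; congr 1; ring
  rw [e]
  abel

theorem actT_H_out {i k l : Fin n} (hik : i ≠ k) (hli : l ≠ i) (hlk : l ≠ k) (c r : F) :
    actT (tv l i hli r) (sE i k c).1 = (sE i k c).1 := by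
  rw [actT, tv_inv_coe, sE_coe]
  simp only [transpose_add, transpose_one, transpose_single, Matrix.mul_add, Matrix.add_mul,
    Matrix.mul_one, Matrix.one_mul, 
    single_mul_single_of_ne _ _ _ _ hlk.symm, single_mul_single_of_ne _ _ _ _ hli.symm,
    single_mul_single_of_ne _ _ _ _ hlk, single_mul_single_of_ne _ _ _ _ hli,
    add_zero, zero_add]

theorem actT_H_ht {i k l : Fin n} (hik : i ≠ k) (hli : l ≠ i) (hlk : l ≠ k) (c : F) (t : Fˣ) :
    actT (ht l t) (sE i k c).1 = (sE i k c).1 := by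
  rw [actT, ht_inv, ht_coe, sE_coe]
  simp only [transpose_add, transpose_one, transpose_single, Matrix.mul_add, Matrix.add_mul,
    Matrix.mul_one, Matrix.one_mul, 
    single_mul_single_of_ne _ _ _ _ hlk.symm, single_mul_single_of_ne _ _ _ _ hli.symm,
    single_mul_single_of_ne _ _ _ _ hlk, single_mul_single_of_ne _ _ _ _ hli,
    add_zero, zero_add]

theorem ht_tv {i l : Fin n} (hli : l ≠ i) (r : F) :
    ht l (-1) * tv l i hli r = tv l i hli (-r) * ht l (-1) := by
  apply Units.ext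
  rw [Units.val_mul, Units.val_mul, tv_coe, tv_coe, ht_coe]
  simp only [Matrix.mul_add, Matrix.add_mul, Matrix.mul_one, Matrix.one_mul,
    single_mul_single_same, single_mul_single_of_ne _ _ _ _ hli.symm, add_zero]
  have e2 : single l i ((((-1 : Fˣ) : F) - 1) * r) = single l i (-r) + single l i (-r) := by
    rw [← single_add]; congr 1; rw [Units.val_neg, Units.val_one]; ring
  have e3 : single l i r + single l i (-r) = (0 : Matrix (Fin n) (Fin n) F) := by
    rw [← single_add, add_neg_cancel, single_zero]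
  rw [e2]
  have : (1 + single l l (((-1 : Fˣ) : F) - 1) + (single l i r + (single l i (-r) + single l i (-r))) :
      Matrix (Fin n) (Fin n) F) =
      1 + single l l (((-1 : Fˣ) : F) - 1) + ((single l i r + single l i (-r)) +
        single l i (-r)) := by abel
  rw [this, e3]
  abel

theorem pr_zero_of_row {i : Fin n} {T S : Matrix (Fin n) (Fin n) F}
    (hT : ∀ a b, a ≠ i → b ≠ i → T a b = 0) (hS : ∀ l, S i l = 0) (hSs : ∀ l, S l i = 0) :
    pr T S = 0 := by
  simp only [pr]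
  refine Finset.sum_eq_zero fun k _ => Finset.sum_eq_zero fun l _ => ?_
  by_cases hk : k = i
  · rw [hk, hS, mul_zero]
  · by_cases hl : l = i
    · rw [hl, hSs, mul_zero]
    · rw [hT k l hk hl, zero_mul]

variable [Fintype F] {V : Type*} [AddCommGroup V] [Module ℂ V]
  {ρ : Representation ℂ (Sp n F) V} {ψ : AddChar F ℂ}

theorem tv_out_triv (hF : Fintype.card F = 3) {i k l : Fin n} (hik : i ≠ k) (hli : l ≠ i)
    (hlk : l ≠ k) {c : F} {v : V} (hv : v ∈ Wt ρ ψ (sE i k c).1) (hne : v ≠ 0)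
    (h1d : ∀ u ∈ Wt ρ ψ (sE i k c).1, ∃ c : ℂ, u = c • v) (r : F) :
    ρ (mm (tv l i hli r)) v = v := by
  have hst : ∀ h : GL (Fin n) F, actT h (sE i k c).1 = (sE i k c).1 →
      ∃ μ : ℂ, ρ (mm h) v = μ • v := by
    intro h hh
    apply h1d
    have := mm_mem_Wt h hv
    rwa [hh] at this
  obtain ⟨μ, hμ⟩ := hst _ (actT_H_out hik hli hlk c r)
  obtain ⟨μ', hμ'⟩ := hst _ (actT_H_out hik hli hlk c (-r))
  obtain ⟨ν, hν⟩ := hst _ (actT_H_ht hik hli hlk c (-1))
  have hinj : ∀ c d : ℂ, c • v = d • v → c = d := fun c d h => smul_left_injective ℂ hne h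
  have hν0 : ν ≠ 0 := by
    intro h
    rw [h, zero_smul] at hν
    apply hne
    apply rho_inj (ρ := ρ) (mm (ht l (-1)))
    rw [hν, map_zero]
  have h1 : ν * μ = μ' * ν := by
    have := congrArg (fun g => ρ (mm g) v) (ht_tv (i := i) hli r)
    simp only [map_mul, Module.End.mul_apply] at this
    rw [hμ, map_smul, hν, map_smul, hμ', smul_smul, smul_smul] at this
    have := hinj _ _ this
    linear_combination this
  have h3 : μ = μ' := mul_left_cancel₀ hν0 (by rw [h1]; ring)
  have h4 : μ * μ' = 1 := by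
    have : ρ (mm (tv l i hli r)) (ρ (mm (tv l i hli (-r))) v) = v := by
      rw [← rho_mul, ← map_mul, ← tv_add, add_neg_cancel]
      have e1 : tv l i hli (0 : F) = 1 := by
        apply Units.ext
        rw [tv_coe]; simp
      rw [e1, map_one, map_one, Module.End.one_apply]
    rw [hμ', map_smul, hμ, smul_smul] at this
    apply hinj
    rw [one_smul, mul_comm]
    exact this
  have h5 : μ * μ = μ' := by
    have : ρ (mm (tv l i hli r)) (ρ (mm (tv l i hli r)) v) = ρ (mm (tv l i hli (-r))) v := by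
      rw [← rho_mul, ← map_mul, ← tv_add]
      have e : r + r = -r := by linear_combination r * three_zero hF
      rw [e]
    rw [hμ, map_smul, hμ, smul_smul, hμ'] at this
    exact hinj _ _ this
  have h6 : μ = 1 := by
    rw [← h3] at h4 h5
    rw [h4] at h5
    exact h5.symm
  rw [hμ, h6, one_smul]

/-- **The isotropic coefficient.** -/
theorem coef_iso [FiniteDimensional ℂ V] (hF : Fintype.card F = 3) (hψ : ψ.IsPrimitive)
    {i k l₀ : Fin n} (hik : i ≠ k) (hki : k ≠ i) (hli : l₀ ≠ i) (hlk : k ≠ l₀) {c : F} (hc : c ≠ 0)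
    (hm : ∀ s : F, s ≠ 0 → finrank ℂ (Wt ρ ψ (TT s (Pi.single i 1))) ≤ 2)
    {v : V} (hv : v ∈ Wt ρ ψ (sE i k c).1) (hne : v ≠ 0)
    (h1d : ∀ u ∈ Wt ρ ψ (sE i k c).1, ∃ c : ℂ, u = c • v) :
    Pj ρ ψ (sE i k c).1 (ρ (Tv 1 (Sum.elim 0 (Pi.single i 1))) v) = (1 / 3 : ℂ) • v := by
  classical
  have h2 := two_ne hF
  have hHii : (sE i k c).1 i i = 0 := sE_zero_of_ne _ _ _ _ _ (fun h => hik h.2) (fun h => hik h.1)
  have hHki : (sE i k c).1 k i = c := by rw [sE_coe]; simp [hik]
  have hHik : (sE i k c).1 i k = c := by rw [sE_coe]; simp [hik]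
  have hH0 : ∀ a b, a ≠ i → b ≠ i → (sE i k c).1 a b = 0 := fun a b ha hb =>
    sE_zero_of_ne _ _ _ _ _ (fun h => ha h.1) (fun h => hb h.2)
  have hDii : ∀ x : F, (sD i x).1 i i = x := fun x => by simp [sD]
  have hDne : ∀ (x : F) (a b : Fin n), a ≠ i ∨ b ≠ i → (sD i x).1 a b = 0 := fun x a b h =>
    sD_zero_of_ne _ _ _ _ (fun h' => by rcases h with h | h; exact h h'.1; exact h h'.2)
  -- the translates
  let N : F → V := fun w => ρ (mm (tv k i hki (-w))) v
  have hN : ∀ w, N w ∈ Wt ρ ψ ((sE i k c).1 + (sD i (2 * c * w)).1) := by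
    intro w
    have := mm_mem_Wt (tv k i hki (-w)) hv
    rwa [actT_H] at this
  set σs : V := ∑ w : F, N w with hσ
  set u : V := ρ (ww i) σs with hu
  have hNN : ∀ r w : F, ρ (mm (tv k i hki (-r))) (N w) = N (r + w) := by
    intro r w
    show ρ (mm (tv k i hki (-r))) (ρ (mm (tv k i hki (-w))) v) = ρ (mm (tv k i hki (-(r + w)))) v
    rw [← rho_mul, ← map_mul, ← tv_add]
    have e : -r + -w = -(r + w) := by ring
    rw [e]
  have hNσ : ∀ r : F, ρ (mm (tv k i hki r)) σs = σs := by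
    intro r
    rw [hσ, map_sum]
    refine Fintype.sum_equiv (Equiv.addLeft (-r)) _ _ fun w => ?_
    rw [Equiv.coe_addLeft, ← hNN, neg_neg]
  -- step 1
  have s1 : ∀ S : Sym n F, (∀ l, S.1 i l = 0) → ρ (uu S) u = u := by
    intro S hS
    rw [hu, ← rho_mul, ← ww_comm_uu i S hS, rho_mul]
    congr 1
    rw [hσ, map_sum]
    refine Finset.sum_congr rfl fun w _ => ?_
    rw [hN w S, pr_zero_of_row (i := i) _ hS (fun l => by rw [Sym.apply]; exact hS l),
      AddChar.map_zero_eq_one, one_smul]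
    intro a b ha hb
    rw [Matrix.add_apply, hH0 a b ha hb, hDne _ _ _ (Or.inl ha), add_zero]
  -- step 2
  have s2 : ∀ r : F, ρ (uu (sE k i r)) u = u := by
    intro r
    have h := ww_mul_mm k i hki (-r)
    rw [neg_neg] at h
    rw [hu, ← rho_mul, ← h, rho_mul, hNσ]
  -- step 3
  have s3 : ∀ l, ∀ hl : l ≠ i, l ≠ k → ∀ r : F, ρ (uu (sE l i r)) u = u := by
    intro l hl hlk r
    have h := ww_mul_mm l i hl (-r)
    rw [neg_neg] at h
    rw [hu, ← rho_mul, ← h, rho_mul]
    congr 1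
    rw [hσ, map_sum]
    refine Finset.sum_congr rfl fun w _ => ?_
    show ρ (mm (tv l i hl (-r))) (ρ (mm (tv k i hki (-w))) v) = ρ (mm (tv k i hki (-w))) v
    rw [← rho_mul, ← map_mul, tv_comm_i, map_mul, rho_mul, tv_out_triv hF hik hl hlk hv hne h1d]
  -- step 4
  have s4 : ∀ r : F, ρ (mm (tv k i hki r)) u = ψ (r * (2 * c)) • u := by
    intro r
    have h := ww_mul_uu k i hki r
    rw [hu, ← rho_mul, ← h, rho_mul, ← map_smul]
    congr 1
    rw [hσ, map_sum, Finset.smul_sum]
    refine Finset.sum_congr rfl fun w _ => ?_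
    rw [hN w (sE k i r), pr_sE, Matrix.add_apply, Matrix.add_apply, hHki, hHik,
      hDne _ _ _ (Or.inl hki), hDne _ _ _ (Or.inr hki), add_zero, ← two_mul]
  -- step 5
  have s5 : ∀ (S : Sym n F) (s : F), ρ (uu (sD i s)) (Pj ρ ψ S.1 u) = Pj ρ ψ S.1 u := by
    intro S s
    by_cases h0 : Pj ρ ψ S.1 u = 0
    · rw [h0, map_zero]
    have hSm := Pj_mem (ρ := ρ) (ψ := ψ) S.1 u
    have key : ∀ S' : Sym n F, ρ (uu S') u = u → ψ (pr S.1 S'.1) = 1 := by
      intro S' h
      have h3 := hSm S'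
      rw [rho_uu_Pj, h] at h3
      have h4 : (ψ (pr S.1 S'.1) - 1) • Pj ρ ψ S.1 u = 0 := by
        rw [sub_smul, one_smul, ← h3, sub_self]
      exact sub_eq_zero.mp ((smul_eq_zero.mp h4).resolve_right h0)
    have hab : ∀ a b, a ≠ i → b ≠ i → S.1 a b = 0 := by
      intro a b ha hb
      by_contra hne'
      by_cases hab : a = b
      · subst hab
        obtain ⟨t, ht⟩ := exists_ne_one hψ hne'
        apply ht
        rw [← pr_sD]
        exact key _ (s1 _ (fun l => sD_zero_of_ne _ _ _ _ (fun h => ha h.1.symm)))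
      · obtain ⟨t, ht⟩ := exists_ne_one hψ (mul_ne_zero h2 hne')
        apply ht
        have := key _ (s1 (sE a b t) (fun l => sE_zero_of_ne _ _ _ _ _ (fun h => ha h.1.symm)
          (fun h => hb h.1.symm)))
        rw [pr_sE, Sym.apply S b a, ← two_mul] at this
        exact this
    have hil : ∀ l, l ≠ i → S.1 i l = 0 := by
      intro l hl
      by_contra hne'
      obtain ⟨t, ht⟩ := exists_ne_one hψ (mul_ne_zero h2 hne')
      apply ht
      have : ψ (pr S.1 (sE l i t).1) = 1 := by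
        apply key
        by_cases hlk' : l = k
        · subst hlk'; exact s2 t
        · exact s3 l hl hlk' t
      rw [pr_sE, Sym.apply S l i, ← two_mul] at this
      exact this
    have hSTT : S.1 = TT (S.1 i i) (Pi.single i 1) := by
      ext a b
      rw [TT_apply]
      by_cases ha : a = i
      · subst ha
        by_cases hb : b = a
        · subst hb; simp
        · rw [hil b hb, Pi.single_eq_of_ne hb]; ring
      · rw [Pi.single_eq_of_ne ha]
        by_cases hb : b = i
        · subst hb; rw [Sym.apply, hil a ha]; ring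
        · rw [hab a b ha hb]; ring
    by_cases hSii : S.1 i i = 0
    · rw [hSm, pr_sD, hSii, mul_zero, AddChar.map_zero_eq_one, one_smul]
    · exfalso
      obtain ⟨t, ht⟩ := exists_ne_one hψ (mul_ne_zero h2 hc)
      apply ht
      have hz : Pj ρ ψ S.1 u ∈ Wt ρ ψ (TT (S.1 i i) (Pi.single i 1)) := by
        rw [← hSTT]; exact hSm
      have h7 := tv_triv hF hψ hki hli hlk (hm _ hSii) hz t
      have h8 : actT (tv k i hki t) S.1 = S.1 := by
        rw [hSTT, actT_TT, single_vecMul_tv]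
      rw [mm_Pj, h8, s4, map_smul] at h7
      have h9 : (ψ (t * (2 * c)) - 1) • Pj ρ ψ S.1 u = 0 := by
        rw [sub_smul, one_smul, h7, sub_self]
      exact sub_eq_zero.mp ((smul_eq_zero.mp h9).resolve_right h0)
  have s6 : ∀ s : F, ρ (uu (sD i s)) u = u := by
    intro s
    conv_lhs => rw [← sum_Pj (ρ := ρ) hψ h2 u, map_sum]
    conv_rhs => rw [← sum_Pj (ρ := ρ) hψ h2 u]
    exact Finset.sum_congr rfl fun S _ => s5 S s
  -- the transvection fixes σs
  have s7 : ρ (Tv 1 (Sum.elim 0 (Pi.single i 1))) σs = σs := by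
    apply rho_inj (ρ := ρ) (ww i)
    rw [← rho_mul, ww_mul_Tv, rho_mul, ← hu, s6]
  -- projections
  have s8 : Pj ρ ψ (sE i k c).1 σs = v := by
    rw [hσ, map_sum, Finset.sum_eq_single 0]
    · have e : N 0 = v := by
        show ρ (mm (tv k i hki (-0))) v = v
        have e1 : tv k i hki (-0 : F) = 1 := by
          apply Units.ext
          rw [tv_coe]; simp
        rw [e1, map_one, map_one, Module.End.one_apply]
      rw [e, Pj_of_mem hv]
    · intro w _ hw
      apply Pj_of_mem_ne hψ h2 (sE i k c).2 (add_mem (sE i k c).2 (sD i (2 * c * w)).2) _ (hN w)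
      intro h
      have := congrFun (congrFun h i) i
      rw [Matrix.add_apply, hDii] at this
      have h3 : 2 * c * w = 0 := by linear_combination -this
      exact mul_ne_zero (mul_ne_zero h2 hc) hw h3
    · simp only [_root_.Finset.mem_univ, _root_.not_true_eq_false, _root_.IsEmpty.forall_iff]
  have s9 : ∀ w : F, Pj ρ ψ (sE i k c).1 (ρ (Tv 1 (Sum.elim 0 (Pi.single i 1))) (N w)) =
      Pj ρ ψ (sE i k c).1 (ρ (ww i) v) := by
    intro w
    have h := ww_mul_mm k i hki (-w)
    rw [neg_neg] at h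
    rw [Tv_right, rho_mul, rho_mul, hN w, pr_sD, Matrix.add_apply, hHii, hDii, zero_add,
      map_smul, map_smul, map_smul, ← rho_uu_Pj, Pj_mem, pr_sD, hHii, mul_zero,
      AddChar.map_zero_eq_one, one_smul]
    show _ • Pj ρ ψ (sE i k c).1 (ρ (ww i) (ρ (mm (tv k i hki (-w))) v)) = _
    rw [← rho_mul, h, rho_mul, ← rho_uu_Pj, Pj_mem, pr_sE, hHki, hHik, smul_smul,
      ← AddChar.map_add_eq_mul]
    have e : -1 * (2 * c * w) + w * (c + c) = 0 := by ring
    rw [e, AddChar.map_zero_eq_one, one_smul]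
  have s10 : Pj ρ ψ (sE i k c).1 (ρ (Tv 1 (Sum.elim 0 (Pi.single i 1))) v) =
      Pj ρ ψ (sE i k c).1 (ρ (ww i) v) := by
    have h := s9 0
    have e : N 0 = v := by
      show ρ (mm (tv k i hki (-0))) v = v
      have e1 : tv k i hki (-0 : F) = 1 := by
        apply Units.ext
        rw [tv_coe]; simp
      rw [e1, map_one, map_one, Module.End.one_apply]
    rwa [e] at h
  have s11 : (3 : ℂ) • Pj ρ ψ (sE i k c).1 (ρ (ww i) v) = v := by
    have h : Pj ρ ψ (sE i k c).1 (ρ (Tv 1 (Sum.elim 0 (Pi.single i 1))) σs) = v := by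
      rw [s7, s8]
    rw [hσ, map_sum, map_sum, Finset.sum_congr rfl fun w _ => s9 w, Finset.sum_const,
      Finset.card_univ, hF, ← Nat.cast_smul_eq_nsmul ℂ] at h
    exact_mod_cast h
  rw [s10]
  conv_rhs => rw [← s11]
  rw [smul_smul]
  norm_num

end Cfsg.Agent.H66.TI
end

-- part: H66/TI/Mult
section
/-!
# Multiplicities of weights (helper66)
-/

set_option autoImplicit false
open Matrix Module Representation

namespace Cfsg.Agent.H66.TI

open Cfsg.Agent.H162.Weil

variable {F : Type*} [Field F] {n : ℕ} [Fintype F] {V : Type*} [AddCommGroup V] [Module ℂ V]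
  {ρ : Representation ℂ (Sp n F) V} {ψ : AddChar F ℂ}

theorem trace_Pj [FiniteDimensional ℂ V] (T : Matrix (Fin n) (Fin n) F) :
    LinearMap.trace ℂ V (Pj ρ ψ T) = (finrank ℂ (Wt ρ ψ T) : ℂ) := by
  have h : LinearMap.IsProj (Wt ρ ψ T) (Pj ρ ψ T) := ⟨Pj_mem T, fun v hv => Pj_of_mem hv⟩
  exact h.trace

theorem char_uu [FiniteDimensional ℂ V] (hψ : ψ.IsPrimitive) (h2 : (2 : F) ≠ 0) (S : Sym n F) :
    ρ.character (uu S) = ∑ T : Sym n F, ψ (pr T.1 S.1) * (finrank ℂ (Wt ρ ψ T.1) : ℂ) := by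
  have h1 : ρ (uu S) = ∑ T : Sym n F, ψ (pr T.1 S.1) • Pj ρ ψ T.1 := by
    apply LinearMap.ext
    intro v
    conv_lhs => rw [← sum_Pj (ρ := ρ) hψ h2 v, map_sum]
    rw [LinearMap.sum_apply]
    refine Finset.sum_congr rfl fun T _ => ?_
    rw [LinearMap.smul_apply]
    exact Pj_mem T.1 v S
  show LinearMap.trace ℂ V (ρ (uu S)) = _
  rw [h1, map_sum]
  refine Finset.sum_congr rfl fun T _ => ?_
  rw [map_smul, trace_Pj, smul_eq_mul]

theorem finrank_eq_sum [FiniteDimensional ℂ V] (hψ : ψ.IsPrimitive) (h2 : (2 : F) ≠ 0) :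
    finrank ℂ V = ∑ T : Sym n F, finrank ℂ (Wt ρ ψ T.1) := by
  have h := char_uu (ρ := ρ) hψ h2 (0 : Sym n F)
  rw [uu_zero, Representation.char_one] at h
  simp only [ZeroMemClass.coe_zero, pr_zero_right, AddChar.map_zero_eq_one, one_mul] at h
  exact_mod_cast h

theorem finrank_Wt_actT [FiniteDimensional ℂ V] (h : GL (Fin n) F)
    (T : Matrix (Fin n) (Fin n) F) :
    finrank ℂ (Wt ρ ψ (actT h T)) = finrank ℂ (Wt ρ ψ T) := by
  have h1 : Pj ρ ψ (actT h T) = ρ (mm h) * Pj ρ ψ T * ρ (mm h⁻¹) := by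
    apply LinearMap.ext
    intro v
    rw [Module.End.mul_apply, Module.End.mul_apply, mm_Pj, ← rho_mul, ← map_mul, mul_inv_cancel,
      map_one, map_one, Module.End.one_apply]
  have h3 := congrArg (LinearMap.trace ℂ V) h1
  rw [LinearMap.trace_mul_comm, ← mul_assoc, ← map_mul, ← map_mul, inv_mul_cancel, map_one,
    map_one, one_mul, trace_Pj, trace_Pj] at h3
  exact_mod_cast h3

/-- extension by zero -/
def ez (i : Fin n) (r : {j : Fin n // j ≠ i} → F) : Fin n → F :=
  fun j => if h : j = i then 0 else r ⟨j, h⟩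

omit [Fintype F] in
theorem ez_self (i : Fin n) (r : {j : Fin n // j ≠ i} → F) : ez i r i = 0 := by simp [ez]

omit [Fintype F] in
theorem ez_ne {i j : Fin n} (r : {j : Fin n // j ≠ i} → F) (h : j ≠ i) :
    ez i r j = r ⟨j, h⟩ := by simp [ez, h]

/-- the shift -/
def sh (i : Fin n) (r : {j : Fin n // j ≠ i} → F) : GL (Fin n) F :=
  (Cfsg.Agent.H162.Weil.rk (Pi.single i 1) (ez i r) (by rw [dotProduct_single_one, ez_self]; simp))⁻¹

omit [Fintype F] in
theorem actT_sh (i : Fin n) (r : {j : Fin n // j ≠ i} → F) {T : Matrix (Fin n) (Fin n) F}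
    (hT : T ∈ _root_.Cfsg.Agent.H162.Weil.Sym n F) (p q : Fin n) :
    actT (sh i r) T p q = T p q + ez i r p * T i q + T i p * ez i r q +
      ez i r p * ez i r q * T i i := by
  have hs : ∀ x y, T x y = T y x := fun x y => Sym.apply ⟨T, hT⟩ x y
  rw [actT, sh, inv_inv, rk_coe, transpose_add, transpose_one, transpose_vecMulVec,
    Matrix.add_mul, Matrix.one_mul, Matrix.mul_add, Matrix.mul_one, Matrix.add_apply,
    Matrix.add_apply]
  have h1 : (vecMulVec (ez i r) (Pi.single i 1) * T) = vecMulVec (ez i r) (T i) := by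
    rw [vecMulVec_mul]
    congr 1
    ext k
    simp only [vecMul, single_dotProduct, _root_.one_mul]
  rw [h1, Matrix.add_mul, Matrix.add_apply, mul_vecMulVec, mul_vecMulVec]
  simp only [vecMulVec_apply]
  have h3 : (T *ᵥ Pi.single i 1) p = T i p := by
    rw [mulVec_single_one]; exact hs p i
  have h4 : (vecMulVec (ez i r) (T i) *ᵥ Pi.single i 1) p = ez i r p * T i i := by
    rw [mulVec_single_one]; rfl
  rw [h3, h4]
  ring

/-- divisibility -/
theorem dvd_sum [FiniteDimensional ℂ V] (i : Fin n) {c : F} (hc : c ≠ 0) :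
    Fintype.card F ^ (n - 1) ∣
      ∑ T : Sym n F, (by classical exact if T.1 i i = c then finrank ℂ (Wt ρ ψ T.1) else 0) := by
  classical
  let R := {j : Fin n // j ≠ i} → F
  let P : Sym n F → Prop := fun T => T.1 i i = c ∧ ∀ j, j ≠ i → T.1 i j = 0
  let A : R → Sym n F → Sym n F := fun r T => ⟨actT (sh i r) T.1, actT_mem _ T.2⟩
  have hA1 : ∀ r T j, j ≠ i → (A r T).1 i j = T.1 i j + T.1 i i * ez i r j := by
    intro r T j hj
    show actT (sh i r) T.1 i j = _
    rw [actT_sh i r T.2, ez_self]; ring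
  have hA2 : ∀ r T, (A r T).1 i i = T.1 i i := by
    intro r T
    show actT (sh i r) T.1 i i = _
    rw [actT_sh i r T.2, ez_self]; ring
  have hbij : ∀ r, Function.Bijective (A r) := by
    intro r
    apply (Finite.injective_iff_bijective).mp
    intro T T' h
    have h1 : actT (sh i r) T.1 = actT (sh i r) T'.1 := congrArg Subtype.val h
    have h3 := congrArg (actT (sh i r)⁻¹) h1
    rw [← actT_mul, ← actT_mul, inv_mul_cancel, actT_one, actT_one] at h3
    exact Subtype.ext h3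
  have hm : ∀ r T, finrank ℂ (Wt ρ ψ (A r T).1) = finrank ℂ (Wt ρ ψ T.1) := fun r T =>
    finrank_Wt_actT _ _
  have key : ∑ T : Sym n F, (if T.1 i i = c then finrank ℂ (Wt ρ ψ T.1) else 0) =
      Fintype.card R * ∑ T : Sym n F, if P T then finrank ℂ (Wt ρ ψ T.1) else 0 := by
    calc ∑ T : Sym n F, (if T.1 i i = c then finrank ℂ (Wt ρ ψ T.1) else 0)
        = ∑ T : Sym n F, ∑ r : R, if P (A r T) then finrank ℂ (Wt ρ ψ T.1) else 0 := by
          refine Finset.sum_congr rfl fun T _ => ?_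
          by_cases hT : T.1 i i = c
          · rw [if_pos hT]
            rw [Finset.sum_eq_single (fun j : {j : Fin n // j ≠ i} => - (c⁻¹ * T.1 i j.1))]
            · rw [if_pos]
              refine ⟨by rw [hA2, hT], fun j hj => ?_⟩
              rw [hA1 _ _ _ hj, ez_ne _ hj, hT]
              field_simp
              ring
            · intro r _ hr
              rw [if_neg]
              rintro ⟨-, h⟩
              apply hr
              ext j
              have := h j.1 j.2
              rw [hA1 _ _ _ j.2, ez_ne _ j.2, hT] at this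
              field_simp
              linear_combination this
            · simp only [_root_.ne_eq, _root_.Finset.mem_univ, _root_.not_true_eq_false, _root_.ite_eq_right_iff, _root_.Submodule.finrank_eq_zero, _root_.IsEmpty.forall_iff]
          · rw [if_neg hT]
            symm
            apply Finset.sum_eq_zero
            intro r _
            rw [if_neg]
            rintro ⟨h, -⟩
            rw [hA2] at h
            exact hT h
      _ = ∑ r : R, ∑ T : Sym n F, if P (A r T) then finrank ℂ (Wt ρ ψ (A r T).1) else 0 := by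
          rw [Finset.sum_comm]
          simp only [hm]
      _ = ∑ r : R, ∑ T : Sym n F, if P T then finrank ℂ (Wt ρ ψ T.1) else 0 := by
          refine Finset.sum_congr rfl fun r _ => ?_
          exact Fintype.sum_bijective (A r) (hbij r) _ _ (fun T => rfl)
      _ = _ := by rw [Finset.sum_const, Finset.card_univ, smul_eq_mul]
  have hcard : Fintype.card R = Fintype.card F ^ (n - 1) := by
    have : Fintype.card {j : Fin n // j ≠ i} = n - 1 := by
      simp only [_root_.ne_eq, _root_.Fintype.card_subtype_compl, _root_.Fintype.card_fin, _root_.Fintype.card_unique]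
    rw [Fintype.card_fun, this]
  refine ⟨∑ T : Sym n F, if P T then finrank ℂ (Wt ρ ψ T.1) else 0, ?_⟩
  rw [← hcard, ← key]

end Cfsg.Agent.H66.TI
end

-- part: H66/TI/Hyp
section
/-!
# There is no hyperbolic representation of the forbidden degree (helper66)
-/

set_option autoImplicit false
open Matrix Module Representation

namespace Cfsg.Agent.H66.TI

open Cfsg.Agent.H162.Weil

variable {F : Type*} [Field F] {n : ℕ}

theorem exists_sym_mulVec' (a b : Fin n → F) (hb : b ≠ 0) : ∃ S : Sym n F, S.1 *ᵥ b = a := by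
  obtain ⟨j, hj⟩ : ∃ j, b j ≠ 0 := by
    by_contra hc
    push Not at hc
    exact hb (funext hc)
  let e : Fin n → F := Pi.single j (b j)⁻¹
  have he : e ⬝ᵥ b = 1 := by
    simp only [e]
    rw [single_dotProduct, inv_mul_cancel₀ hj]
  refine ⟨⟨vecMulVec a e + vecMulVec e a - (a ⬝ᵥ b) • vecMulVec e e, ?_⟩, ?_⟩
  · rw [mem_Sym, transpose_sub, transpose_add, transpose_smul, transpose_vecMulVec,
      transpose_vecMulVec, transpose_vecMulVec, add_comm]
  · show (vecMulVec a e + vecMulVec e a - (a ⬝ᵥ b) • vecMulVec e e) *ᵥ b = a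
    rw [sub_mulVec, add_mulVec, smul_mulVec, vecMulVec_mulVec, vecMulVec_mulVec,
      vecMulVec_mulVec, he]
    ext p
    simp only [_root_.MulOpposite.op_one, _root_.one_smul, _root_.IsCentralScalar.op_smul_eq_smul, _root_.Pi.sub_apply, _root_.Pi.add_apply, _root_.Pi.smul_apply, _root_.smul_eq_mul, _root_.add_sub_cancel_right]

theorem actT_sE (h : GL (Fin n) F) (i k : Fin n) (c : F) :
    actT h (sE i k c).1 = c •
      (vecMulVec ((Pi.single i 1 : Fin n → F) ᵥ* ((h⁻¹ : GL (Fin n) F) : Matrix (Fin n) (Fin n) F))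
        ((Pi.single k 1 : Fin n → F) ᵥ* ((h⁻¹ : GL (Fin n) F) : Matrix (Fin n) (Fin n) F)) +
      vecMulVec ((Pi.single k 1 : Fin n → F) ᵥ* ((h⁻¹ : GL (Fin n) F) : Matrix (Fin n) (Fin n) F))
        ((Pi.single i 1 : Fin n → F) ᵥ* ((h⁻¹ : GL (Fin n) F) : Matrix (Fin n) (Fin n) F))) := by
  have h1 : (sE i k c).1 = c • (vecMulVec (Pi.single i 1) (Pi.single k 1) +
      vecMulVec (Pi.single k 1) (Pi.single i 1)) := by
    have e : ∀ i k : Fin n, single i k c = c • vecMulVec (Pi.single i 1) (Pi.single k 1) := by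
      intro i k
      ext p q
      rw [Matrix.smul_apply, vecMulVec_apply, single_apply, smul_eq_mul]
      by_cases h1 : i = p
      · subst h1
        by_cases h2 : k = q
        · subst h2; simp
        · simp [h2, Ne.symm h2]
      · simp [h1, Ne.symm h1]
    rw [sE_coe, e, e, smul_add]
  rw [actT, h1, Matrix.mul_smul, Matrix.smul_mul, Matrix.mul_add, Matrix.add_mul]
  congr 2
  · rw [mul_vecMulVec, vecMulVec_mul, mulVec_transpose]
  · rw [mul_vecMulVec, vecMulVec_mul, mulVec_transpose]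

variable [Fintype F] {V : Type*} [AddCommGroup V] [Module ℂ V]
  {ρ : Representation ℂ (Sp n F) V} {ψ : AddChar F ℂ}

theorem Pj_Tv_shift {T : Matrix (Fin n) (Fin n) F} {v : V} (hv : v ∈ Wt ρ ψ T)
    (a b : Fin n → F) (hb : b ≠ 0) :
    Pj ρ ψ T (ρ (Tv 1 (Sum.elim a b)) v) = Pj ρ ψ T (ρ (Tv 1 (Sum.elim 0 b)) v) := by
  obtain ⟨S, hS⟩ := exists_sym_mulVec' a b hb
  have h1 : uu S * Tv 1 (Sum.elim 0 b) = Tv 1 (Sum.elim a b) * uu S := by
    rw [mul_Tv, uu_mulVec, hS, zero_add]
  have h3 : Pj ρ ψ T (ρ (Tv 1 (Sum.elim a b)) (ρ (uu S) v)) =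
      ρ (uu S) (Pj ρ ψ T (ρ (Tv 1 (Sum.elim 0 b)) v)) := by
    rw [← rho_mul, ← h1, rho_mul, rho_uu_Pj]
  rw [hv S, Pj_mem T _ S, map_smul, map_smul] at h3
  exact smul_right_injective V (psi_ne_zero _) h3

open Classical in
theorem Aop_proj {T : Matrix (Fin n) (Fin n) F} {v : V} (hv : v ∈ Wt ρ ψ T) :
    Pj ρ ψ T (Aop ρ 1 v) =
      (∑ a : Fin n → F, ψ (pr T (sV 1 a).1)) • v +
      ((Fintype.card F : ℂ) ^ n) • ∑ b ∈ Finset.univ.erase (0 : Fin n → F),
        Pj ρ ψ T (ρ (Tv 1 (Sum.elim 0 b)) v) := by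
  rw [Aop, LinearMap.sum_apply, map_sum]
  rw [Fintype.sum_equiv (Equiv.sumArrowEquivProdArrow (Fin n) (Fin n) F) _
    (fun p => Pj ρ ψ T (ρ (Tv 1 (Sum.elim p.1 p.2)) v)) (by
      intro w
      have hw : Sum.elim ((Equiv.sumArrowEquivProdArrow (Fin n) (Fin n) F) w).1
          ((Equiv.sumArrowEquivProdArrow (Fin n) (Fin n) F) w).2 = w := by
        funext x
        rcases x with x | x <;> rfl
      rw [hw])]
  rw [Fintype.sum_prod_type, Finset.sum_comm, ← Finset.add_sum_erase _ _ (Finset.mem_univ 0)]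
  congr 1
  · rw [Finset.sum_smul]
    refine Finset.sum_congr rfl fun a _ => ?_
    rw [Tv_left, hv, map_smul, Pj_of_mem hv]
  · rw [Finset.smul_sum]
    refine Finset.sum_congr rfl fun b hb => ?_
    rw [Finset.sum_congr rfl fun a _ => Pj_Tv_shift hv a b (Finset.ne_of_mem_erase hb),
      Finset.sum_const, Finset.card_univ, Fintype.card_fun, Fintype.card_fin,
      ← Nat.cast_smul_eq_nsmul ℂ]
    push_cast
    rfl

theorem gauss_sum (hF : Fintype.card F = 3) (hψ : ψ.IsPrimitive) (hn : 2 ≤ n) {i k : Fin n}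
    (hik : i ≠ k) : ∑ a : Fin n → F, ψ (a i * a i - a k * a k) = (3 : ℂ) ^ (n - 1) := by
  classical
  let g : Fin n → F → ℂ := fun l x => if l = i then ψ (1 * x ^ 2) else
    if l = k then ψ (-1 * x ^ 2) else 1
  have h1 : ∀ a : Fin n → F, ψ (a i * a i - a k * a k) = ∏ l, g l (a l) := by
    intro a
    rw [← Finset.mul_prod_erase _ _ (Finset.mem_univ i),
      ← Finset.mul_prod_erase _ _ (Finset.mem_erase.mpr ⟨hik.symm, Finset.mem_univ k⟩)]
    rw [Finset.prod_eq_one]
    · simp only [g, if_pos, if_neg hik.symm, mul_one]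
      rw [← AddChar.map_add_eq_mul]
      congr 1; ring
    · intro l hl
      rw [Finset.mem_erase, Finset.mem_erase] at hl
      simp only [g]
      rw [if_neg hl.2.1, if_neg hl.1]
  rw [Finset.sum_congr rfl fun a _ => h1 a]
  have h3 := Finset.prod_univ_sum (fun _ : Fin n => (Finset.univ : Finset F)) g
  rw [Fintype.piFinset_univ] at h3
  rw [← h3, ← Finset.mul_prod_erase _ _ (Finset.mem_univ i),
      ← Finset.mul_prod_erase _ _ (Finset.mem_erase.mpr ⟨hik.symm, Finset.mem_univ k⟩)]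
  have h4 : ∏ l ∈ (Finset.univ.erase i).erase k, ∑ x : F, g l x = 3 ^ (n - 2) := by
    rw [Finset.prod_congr rfl (g := fun _ => (3 : ℂ))]
    · rw [Finset.prod_const, Finset.card_erase_of_mem
        (Finset.mem_erase.mpr ⟨hik.symm, Finset.mem_univ k⟩),
        Finset.card_erase_of_mem (Finset.mem_univ i), Finset.card_univ, Fintype.card_fin]
      congr 1
    · intro l hl
      rw [Finset.mem_erase, Finset.mem_erase] at hl
      simp only [g, if_neg hl.2.1, if_neg hl.1]
      rw [Finset.sum_const, Finset.card_univ, hF]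
      norm_num
  have h5 : ∑ x : F, g i x = gs ψ 1 := by simp only [g, if_pos]; rfl
  have h6 : ∑ x : F, g k x = gs ψ (-1) := by simp only [g, if_neg hik.symm, if_pos]; rfl
  have h7 := (g2_three (ψ := ψ) hF hψ one_ne_zero).2
  rw [g2] at h7
  rw [h4, h5, h6, ← mul_assoc, h7, ← pow_succ']
  congr 1
  omega

end Cfsg.Agent.H66.TI
end

-- part: H66/TI/Hyp2
section
/-!
# There is no hyperbolic representation of the forbidden degree: inputs (helper66)
-/

set_option autoImplicit false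
open Matrix Module Representation

namespace Cfsg.Agent.H66.TI

open Cfsg.Agent.H162.Weil

variable {F : Type*} [Field F] {n : ℕ} [Fintype F]

/-- rank one orbit -/
theorem card_rk1 (hF : Fintype.card F = 3) {s : F} (hs : s ≠ 0) (i : Fin n) :
    3 ^ n - 1 ≤ 2 * Nat.card (Ob (TT s (Pi.single i 1) : Matrix (Fin n) (Fin n) F)) := by
  classical
  let A : Finset (Fin n → F) := Finset.univ.erase 0
  let f : (Fin n → F) → Sym n F := fun x => ⟨TT s x, TT_mem s x⟩
  have h1 := Finset.card_le_mul_card_image (f := f) A 2 (fun a ha => by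
    obtain ⟨x, hx, rfl⟩ := Finset.mem_image.mp ha
    refine le_trans (Finset.card_le_card ?_) (Finset.card_le_two (a := x) (b := -x))
    intro y hy
    rw [Finset.mem_filter] at hy
    have := TT_eq hs (Finset.ne_of_mem_erase hx) (congrArg Subtype.val hy.2)
    rw [Finset.mem_insert, Finset.mem_singleton]
    exact this)
  have h2 : A.card = 3 ^ n - 1 := by
    rw [Finset.card_erase_of_mem (Finset.mem_univ _), Finset.card_univ, Fintype.card_fun,
      Fintype.card_fin, hF]
  rw [← h2]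
  refine h1.trans (Nat.mul_le_mul le_rfl ?_)
  rw [Nat.card_eq_fintype_card, ← Set.toFinset_card]
  apply Finset.card_le_card
  intro T hT
  obtain ⟨x, hx, rfl⟩ := Finset.mem_image.mp hT
  rw [Set.mem_toFinset]
  obtain ⟨h, hh⟩ := exists_vecMul_eq_single x (Finset.ne_of_mem_erase hx) i
  refine ⟨h, ?_⟩
  rw [actT_TT, vecMul_inv hh]

variable {V : Type*} [AddCommGroup V] [Module ℂ V]
  {ρ : Representation ℂ (Sp n F) V} {ψ : AddChar F ℂ}

theorem mult_rk1 [FiniteDimensional ℂ V] (hF : Fintype.card F = 3) (hψ : ψ.IsPrimitive)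
    (hn : 3 ≤ n) (hE : 4 * finrank ℂ V + 1 = 9 ^ n) {i k : Fin n} (hik : i ≠ k)
    (h1 : finrank ℂ (Wt ρ ψ (TU 1 (-1) (Pi.single i 1) (Pi.single k 1))) = 1)
    {s : F} (hs : s ≠ 0) (i' : Fin n) :
    finrank ℂ (Wt ρ ψ (TT s (Pi.single i' 1))) ≤ 2 := by
  have hdis : Disjoint (Ob (TU 1 (-1) (Pi.single i 1) (Pi.single k 1) : Matrix (Fin n) (Fin n) F))
      (Ob (TT s (Pi.single i' 1))) := by
    rw [Set.disjoint_left]
    rintro S ⟨h, hh⟩ ⟨g, hg⟩
    have h1 : TU 1 (-1) (Pi.single i 1) (Pi.single k 1) =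
        actT (h⁻¹ * g) (TT s (Pi.single i' 1) : Matrix (Fin n) (Fin n) F) := by
      rw [actT_mul, ← hg, hh, ← actT_mul, inv_mul_cancel, actT_one]
    rw [actT_TT] at h1
    have e : ∀ p q, (TU 1 (-1) (Pi.single i 1) (Pi.single k 1) : Matrix (Fin n) (Fin n) F) p q =
        _ := fun p q => congrFun (congrFun h1 p) q
    have e1 := e i i
    have e2 := e i k
    have e3 := e k k
    simp only [TU_apply, TT_apply, Pi.single_eq_same, Pi.single_eq_of_ne hik,
      Pi.single_eq_of_ne hik.symm] at e1 e2 e3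
    set x := (Pi.single i' 1 : Fin n → F) ᵥ*
      (((h⁻¹ * g)⁻¹ : GL (Fin n) F) : Matrix (Fin n) (Fin n) F)
    have : (1 : F) = 0 := by
      have l1 : (1 : F) = s * (x i * x i) := by linear_combination e1
      have l2 : (0 : F) = s * (x i * x k) := by linear_combination e2
      have l3 : (-1 : F) = s * (x k * x k) := by linear_combination e3
      linear_combination (-s * (x k * x k)) * l1 + (s * (x i * x k)) * l2 - l3
    exact one_ne_zero this
  have h3 := H495.TI.two_orbits (ρ := ρ) hψ (two_ne hF) hdis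
  have c1 := card_rk1 hF hs i'
  have c2 := H495.TI.card_hyp (n := n) hF (by omega) hik
  rw [h1, mul_one] at h3
  have hX : 27 ≤ 3 ^ n := by
    calc 27 = 3 ^ 3 := by norm_num
      _ ≤ 3 ^ n := Nat.pow_le_pow_right (by norm_num) hn
  have h9 : 9 ^ n = 3 ^ n * 3 ^ n := by
    rw [← mul_pow]; norm_num
  set A := Nat.card (Ob (TT s (Pi.single i' 1) : Matrix (Fin n) (Fin n) F))
  set B := Nat.card (Ob (TU 1 (-1) (Pi.single i 1) (Pi.single k 1) : Matrix (Fin n) (Fin n) F))
  set m := finrank ℂ (Wt ρ ψ (TT s (Pi.single i' 1)))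
  obtain ⟨Y, hY⟩ : ∃ Y, 3 ^ n = Y + 3 := ⟨3 ^ n - 3, by omega⟩
  rw [hY] at c1 c2 h9 hX
  have e1 : Y + 3 - 1 = Y + 2 := by omega
  have e2 : Y + 3 - 3 = Y := by omega
  rw [e1] at c1
  rw [e1, e2] at c2
  rw [h9] at hE
  by_contra hc
  have hc' : 3 ≤ m := by omega
  have k1 : 3 * (Y + 2) ≤ 2 * (A * m) := by
    calc 3 * (Y + 2) ≤ m * (2 * A) := Nat.mul_le_mul hc' c1
      _ = 2 * (A * m) := by ring
  linarith only [h3, hE, c2, k1]

/-- negative definite weights are the same as positive definite ones -/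
theorem neg_aniso [FiniteDimensional ℂ V] (hF : Fintype.card F = 3) {i k : Fin n} (hik : i ≠ k)
    (h0 : ∀ w ∈ Wt ρ ψ (TU 1 1 (Pi.single i 1) (Pi.single k 1)), w = 0) :
    ∀ w ∈ Wt ρ ψ (TU (-1) (-1) (Pi.single i 1) (Pi.single k 1)), w = 0 := by
  have h2 := two_ne hF
  have h22 := two_eq hF
  have hli : LinearIndependent F ![(Pi.single i 1 + Pi.single k 1 : Fin n → F),
      Pi.single i 1 - Pi.single k 1] := by
    rw [LinearIndependent.pair_iff]
    intro s t hst
    have h1 := congrFun hst i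
    have h3 := congrFun hst k
    simp only [hik, hik.symm, _root_.smul_add, _root_.Pi.add_apply, _root_.Pi.smul_apply, _root_.Pi.single_eq_same, _root_.smul_eq_mul, _root_.mul_one, _root_.ne_eq, _root_.not_false_eq_true, _root_.Pi.single_eq_of_ne, _root_.MulZeroClass.mul_zero, _root_.add_zero, _root_.Pi.sub_apply, _root_.sub_zero, _root_.Pi.zero_apply, _root_.zero_add, _root_.zero_sub, _root_.mul_neg] at h1 h3
    have h5 : 2 * t = 0 := by linear_combination h1 - h3
    have h6 : t = 0 := (mul_eq_zero.mp h5).resolve_left h2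
    refine ⟨?_, h6⟩
    rw [h6] at h1
    linear_combination h1
  obtain ⟨P, hP0, hP1⟩ := exists_gl_pair hik hli
  have h4 : actT P⁻¹ (TU 1 1 (Pi.single i 1) (Pi.single k 1)) =
      TU (-1) (-1) (Pi.single i 1) (Pi.single k 1) := by
    rw [actT_TU, inv_inv, hP0, hP1]
    ext p q
    rw [TU_apply, TU_apply]
    simp only [Pi.add_apply, Pi.sub_apply]
    linear_combination ((Pi.single i 1 : Fin n → F) p * (Pi.single i 1 : Fin n → F) q +
      (Pi.single k 1 : Fin n → F) p * (Pi.single k 1 : Fin n → F) q) * h22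
  intro w hw
  have h5 := mm_mem_Wt P hw
  rw [← h4, ← actT_mul, mul_inv_cancel, actT_one] at h5
  apply rho_inj (ρ := ρ) (mm P)
  rw [h0 _ h5, map_zero]

theorem TU_comm (a b : F) (x y : Fin n → F) : TU a b x y = TU b a y x := by
  rw [TU, TU, add_comm]

/-- the isotropic coefficients for the diagonal weight -/
theorem coef_pm [FiniteDimensional ℂ V] (hF : Fintype.card F = 3) (hψ : ψ.IsPrimitive)
    (hn : 3 ≤ n) (hE : 4 * finrank ℂ V + 1 = 9 ^ n) {i k l : Fin n} (hik : i ≠ k)
    (hli : l ≠ i) (hlk : l ≠ k)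
    (h1 : finrank ℂ (Wt ρ ψ (TU 1 (-1) (Pi.single i 1) (Pi.single k 1))) = 1)
    {ε : F} (hε : ε * ε = 1) {v : V}
    (hv : v ∈ Wt ρ ψ (TU 1 (-1) (Pi.single i 1) (Pi.single k 1))) :
    Pj ρ ψ (TU 1 (-1) (Pi.single i 1) (Pi.single k 1))
      (ρ (Tv 1 (Sum.elim 0 (Pi.single i 1 + ε • Pi.single k 1))) v) = (1 / 3 : ℂ) • v := by
  have h2 := two_ne hF
  have h22 := two_eq hF
  have hε0 : ε ≠ 0 := by rintro rfl; simp at hε
  set f1 : Fin n → F := Pi.single i 1 + ε • Pi.single k 1 with hf1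
  set f2 : Fin n → F := Pi.single i 1 - ε • Pi.single k 1 with hf2
  have hlin : LinearIndependent F ![f1, f2] := by
    rw [LinearIndependent.pair_iff]
    intro s t hst
    have h1 := congrFun hst i
    have h3 := congrFun hst k
    simp only [hf1, hf2, hik, hik.symm, _root_.smul_add, _root_.Pi.add_apply, _root_.Pi.smul_apply, _root_.Pi.single_eq_same, _root_.smul_eq_mul, _root_.mul_one, _root_.ne_eq, _root_.not_false_eq_true, _root_.Pi.single_eq_of_ne, _root_.MulZeroClass.mul_zero, _root_.add_zero, _root_.Pi.sub_apply, _root_.sub_zero, _root_.Pi.zero_apply, _root_.zero_add, _root_.zero_sub, _root_.mul_neg] at h1 h3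
    have h5 : 2 * (ε * t) = 0 := by linear_combination ε * h1 - h3
    have h6 : t = 0 := (mul_eq_zero.mp ((mul_eq_zero.mp h5).resolve_left h2)).resolve_left hε0
    refine ⟨?_, h6⟩
    rw [h6] at h1
    linear_combination h1
  obtain ⟨P, hP0, hP1⟩ := exists_gl_pair hik hlin
  have h4 : actT P⁻¹ (sE i k (-1)).1 =
      TU 1 (-1) (Pi.single i 1) (Pi.single k 1) := by
    rw [actT_sE, inv_inv, hP0, hP1]
    ext p q
    rw [TU_apply]
    simp only [Matrix.smul_apply, Matrix.add_apply, vecMulVec_apply, hf1, hf2, Pi.add_apply,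
      Pi.sub_apply, Pi.smul_apply, smul_eq_mul]
    linear_combination (-(Pi.single i 1 : Fin n → F) p * (Pi.single i 1 : Fin n → F) q +
      (Pi.single k 1 : Fin n → F) p * (Pi.single k 1 : Fin n → F) q * (ε * ε)) * h22 -
      (Pi.single k 1 : Fin n → F) p * (Pi.single k 1 : Fin n → F) q * hε
  have h5 : finrank ℂ (Wt ρ ψ (sE i k (-1)).1) = 1 := by
    rw [← finrank_Wt_actT P⁻¹, h4, h1]
  have h6 : ∀ v ∈ Wt ρ ψ (sE i k (-1)).1, Pj ρ ψ (sE i k (-1)).1
      (ρ (Tv 1 (Sum.elim 0 (Pi.single i 1))) v) = (1 / 3 : ℂ) • v := by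
    intro v hv
    by_cases hne : v = 0
    · rw [hne, map_zero, map_zero, smul_zero]
    · refine coef_iso hF hψ hik hik.symm hli hlk.symm (neg_ne_zero.mpr one_ne_zero)
        (fun s hs => mult_rk1 hF hψ hn hE hik h1 hs i) hv hne ?_
      intro u hu
      have h7 := (finrank_eq_one_iff_of_nonzero'
        (⟨v, hv⟩ : Wt ρ ψ (sE i k (-1)).1) (by
          intro h; exact hne (congrArg Subtype.val h))).mp h5 ⟨u, hu⟩
      obtain ⟨c, hc⟩ := h7
      exact ⟨c, (congrArg Subtype.val hc).symm⟩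
  have h7 := transport (ρ := ρ) (ψ := ψ) P⁻¹ h6
  rw [h4, inv_inv, hP0] at h7
  exact h7 v hv

end Cfsg.Agent.H66.TI
end

-- part: H66/TI/Hyp3
section
/-!
# There is no hyperbolic representation of the forbidden degree (helper66)
-/

set_option autoImplicit false
open Matrix Module Representation

namespace Cfsg.Agent.H66.TI

open Cfsg.Agent.H162.Weil

variable {F : Type*} [Field F] {n : ℕ}

theorem Tv_neg (c : F) (b : Fin n → F) :
    (Tv c (Sum.elim (0 : Fin n → F) (-b)) : Sp n F) = Tv c (Sum.elim 0 b) := by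
  have h : (Sum.elim (0 : Fin n → F) (-b)) = -(Sum.elim (0 : Fin n → F) b) := by
    funext x
    rcases x with x | x <;> simp
  apply Subtype.ext
  rw [h]
  show 1 + c • vecMulVec (-(Sum.elim (0 : Fin n → F) b))
    (Matrix.J (Fin n) F *ᵥ (-(Sum.elim (0 : Fin n → F) b))) =
    1 + c • vecMulVec (Sum.elim (0 : Fin n → F) b)
    (Matrix.J (Fin n) F *ᵥ (Sum.elim (0 : Fin n → F) b))
  rw [mulVec_neg, neg_vecMulVec, vecMulVec_neg, neg_neg]

/-- final arithmetic -/
theorem arith {X k1 k2 : ℕ} {p ε : ℂ} (hp : p * p = -1 - p) (hε : ε = 1 ∨ ε = -1)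
    (h : 3 * (X : ℂ) - 2 * k1 - 4 * k2 + 2 * p * (k1 - k2) = -ε) : False := by
  obtain ⟨e, he, hee⟩ : ∃ e : ℤ, (e = 1 ∨ e = -1) ∧ ε = (e : ℂ) := by
    rcases hε with h | h
    · exact ⟨1, Or.inl rfl, by rw [h]; norm_num⟩
    · exact ⟨-1, Or.inr rfl, by rw [h]; norm_num⟩
  rw [hee] at h
  set z : ℤ := (k1 : ℤ) - k2 with hz
  set y : ℤ := -e - 3 * X + 2 * k1 + 4 * k2 with hy
  have h1 : 2 * p * (z : ℂ) = (y : ℂ) := by
    rw [hz, hy]
    push_cast
    linear_combination h
  have h2 : ((y ^ 2 + 2 * y * z + 4 * z ^ 2 : ℤ) : ℂ) = 0 := by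
    push_cast
    rw [← h1]
    linear_combination 4 * (z : ℂ) ^ 2 * hp
  have h3 : y ^ 2 + 2 * y * z + 4 * z ^ 2 = 0 := by exact_mod_cast h2
  have h4 : z = 0 := by
    by_contra hz0
    have : 0 < z ^ 2 := by (clear * - hz0; positivity)
    linarith only [h3, this, sq_nonneg (y + z)]
  have h5 : y = 0 := by
    rw [h4] at h3
    have : y ^ 2 = 0 := by linarith only [h3]
    exact pow_eq_zero_iff (two_ne_zero) |>.mp this
  rw [h4] at hz
  rw [h5] at hy
  omega

variable [Fintype F] {V : Type*} [AddCommGroup V] [Module ℂ V]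
  {ρ : Representation ℂ (Sp n F) V} {ψ : AddChar F ℂ}

theorem sum_split (hF : Fintype.card F = 3) (i : Fin n) (m : Sym n F → ℕ) (g : F → ℂ) :
    ∑ T : Sym n F, g (T.1 i i) * (m T : ℂ) =
      g 0 * ((∑ T : Sym n F, (by classical exact if T.1 i i = 0 then m T else 0) : ℕ) : ℂ) +
      (g 1 * ((∑ T : Sym n F, (by classical exact if T.1 i i = 1 then m T else 0) : ℕ) : ℂ) +
      g (-1) * ((∑ T : Sym n F, (by classical exact if T.1 i i = -1 then m T else 0) : ℕ) : ℂ)) := by
  classical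
  have h := sum_F (F := F) hF (fun c => g c * ((∑ T : Sym n F,
    if T.1 i i = c then m T else 0 : ℕ) : ℂ))
  rw [← h]
  have h1 : ∀ T : Sym n F, g (T.1 i i) * (m T : ℂ) =
      ∑ c : F, g c * ((if T.1 i i = c then m T else 0 : ℕ) : ℂ) := by
    intro T
    rw [Finset.sum_eq_single (T.1 i i)]
    · rw [if_pos rfl]
    · intro c _ hc
      rw [if_neg hc.symm]; simp
    · simp
  rw [Finset.sum_congr rfl fun T _ => h1 T, Finset.sum_comm]
  refine Finset.sum_congr rfl fun c _ => ?_
  rw [Nat.cast_sum, Finset.mul_sum]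

/-- **The hyperbolic case is impossible.** -/
theorem hyp_no [FiniteDimensional ℂ V] (hF : Fintype.card F = 3) (hψ : ψ.IsPrimitive)
    (hn : 3 ≤ n) (hρ : ρ.IsIrreducible) (hz : ∀ v, ρ (zz n F) v = v)
    (hE : 4 * finrank ℂ V + 1 = 9 ^ n) {i k : Fin n} (hik : i ≠ k)
    (h1 : finrank ℂ (Wt ρ ψ (TU 1 (-1) (Pi.single i 1) (Pi.single k 1))) = 1)
    (h0 : ∀ w ∈ Wt ρ ψ (TU 1 1 (Pi.single i 1) (Pi.single k 1)), w = 0) : False := by
  classical
  have h2 := two_ne hF
  have hR : RkTwo ρ ψ := H495.TI.rkTwo hψ hF hn hE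
  have hz' : ρ (zz n F) = 1 := LinearMap.ext hz
  obtain ⟨l, hli, hlk⟩ : ∃ l : Fin n, l ≠ i ∧ l ≠ k := by
    by_contra hc
    push Not at hc
    have h3 : (Finset.univ : Finset (Fin n)) ⊆ {i, k} := by
      intro l _
      rw [Finset.mem_insert, Finset.mem_singleton]
      by_cases h : l = i
      · exact Or.inl h
      · exact Or.inr (hc l h)
    have h4 := (Finset.card_le_card h3).trans Finset.card_le_two
    rw [Finset.card_univ, Fintype.card_fin] at h4
    omega
  obtain ⟨v', hv'0, hv'⟩ := finrank_eq_one_iff'.mp h1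
  obtain ⟨v, hv⟩ := v'
  have hne : v ≠ 0 := fun h => hv'0 (Subtype.ext h)
  have h1d : ∀ u ∈ Wt ρ ψ (TU 1 (-1) (Pi.single i 1) (Pi.single k 1)), ∃ c : ℂ, u = c • v := by
    intro u hu
    obtain ⟨c, hc⟩ := hv' ⟨u, hu⟩
    exact ⟨c, (congrArg Subtype.val hc).symm⟩
  have hinj : ∀ c d : ℂ, c • v = d • v → c = d := fun c d h => smul_left_injective ℂ hne h
  set β : Matrix (Fin n) (Fin n) F := TU 1 (-1) (Pi.single i 1) (Pi.single k 1) with hβ
  have hβ' : β = TU (-1) 1 (Pi.single k 1) (Pi.single i 1) := TU_comm _ _ _ _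
  -- the signs
  obtain ⟨ε, hε⟩ := h1d (ρ (mm (ht i (-1))) v) (by
    have := mm_mem_Wt (ht i (-1)) hv
    rwa [hβ, actT_ht i k hik.symm 1 (-1) (-1) (by simp)] at this)
  obtain ⟨ε', hε'⟩ := h1d (ρ (mm (ht k (-1))) v) (by
    have := mm_mem_Wt (ht k (-1)) hv
    rwa [hβ', actT_ht k i hik (-1) 1 (-1) (by simp), ← hβ'] at this)
  have hht : ht i (-1 : Fˣ) * ht i (-1) = (1 : GL (Fin n) F) := by
    rw [ht, ← dg_mul, ← Pi.mulSingle_mul]
    simp only [mul_neg, mul_one, neg_neg, Pi.mulSingle_one]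
    apply Units.ext
    rw [dg_coe]
    simp
  have hεε : ε * ε = 1 := by
    have h3 : ρ (mm (ht i (-1))) (ρ (mm (ht i (-1))) v) = v := by
      rw [← rho_mul, ← map_mul, hht, map_one, map_one, Module.End.one_apply]
    rw [hε, map_smul, hε, smul_smul] at h3
    apply hinj
    rw [h3, one_smul]
  have hε1 : ε = 1 ∨ ε = -1 := by
    have : (ε - 1) * (ε + 1) = 0 := by linear_combination hεε
    rcases mul_eq_zero.mp this with h | h
    · exact Or.inl (sub_eq_zero.mp h)
    · exact Or.inr (eq_neg_of_add_eq_zero_left h)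
  have hεeq : ε' = ε := by
    have h3 := sign_eq hF hψ hR hz' hik (one_ne_zero (α := F)) rfl hv
    rw [hε', map_smul, hε, smul_smul] at h3
    have h4 : ε' * ε = 1 := by
      apply hinj
      rw [h3, one_smul]
    linear_combination ε * h4 - ε' * hεε
  -- the coefficients
  have hex : ∀ b : Fin n → F, ∃ c : ℂ, Pj ρ ψ β (ρ (Tv 1 (Sum.elim 0 b)) v) = c • v :=
    fun b => h1d _ (Pj_mem _ _)
  choose cb hcb using hex
  have hneg : ∀ b, cb (-b) = cb b := by
    intro b
    apply hinj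
    rw [← hcb, ← hcb, Tv_neg]
  have ci : cb (Pi.single i 1) = ψ 1 * ((ψ (-1) + ε * ψ 1) / 3) := by
    apply hinj
    rw [← hcb]
    exact coef_ei hF hψ hR hik.symm (one_ne_zero (α := F)) rfl (neg_aniso hF hik h0) hv hne h1d
      hεε hε
  have ck : cb (Pi.single k 1) = ψ (-1) * ((ψ 1 + ε * ψ (-1)) / 3) := by
    apply hinj
    rw [← hcb, hβ']
    have h3 := coef_ei (ρ := ρ) (ψ := ψ) hF hψ hR (i := k) (k := i) hik (a := (-1 : F)) (b := 1)
      (neg_ne_zero.mpr one_ne_zero) (neg_neg 1).symm (by rw [TU_comm]; exact h0)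
      (v := v) (by rw [← hβ']; exact hv) hne (by rw [← hβ']; exact h1d) hεε (by rw [← hεeq]; exact hε')
    rw [neg_neg] at h3
    exact h3
  have hsq : ∀ x : F, x ≠ 0 → x * x = 1 := by
    intro x hx
    rcases three_cases hF x with h | h | h
    · exact absurd h hx
    · rw [h]; ring
    · rw [h]; ring
  have hei0 : (Pi.single i 1 : Fin n → F) i = 1 := Pi.single_eq_same _ _
  have hek0 : (Pi.single k 1 : Fin n → F) k = 1 := Pi.single_eq_same _ _
  have heik : (Pi.single i 1 : Fin n → F) k = 0 := Pi.single_eq_of_ne hik.symm _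
  have heki : (Pi.single k 1 : Fin n → F) i = 0 := Pi.single_eq_of_ne hik _
  have cother : ∀ b : Fin n → F, b ≠ 0 → b ≠ Pi.single i 1 → b ≠ -Pi.single i 1 →
      b ≠ Pi.single k 1 → b ≠ -Pi.single k 1 → cb b = 1 / 3 := by
    intro b hb b1 b2 b3 b4
    by_cases hout : ∃ j, j ≠ i ∧ j ≠ k ∧ b j ≠ 0
    · obtain ⟨j, hji, hjk, hbj⟩ := hout
      apply hinj
      rw [← hcb]
      exact coef_out hF hψ hR hik hji.symm hjk.symm (one_ne_zero (α := F)) rfl hv hbj
    · push Not at hout
      have hbs : b = b i • (Pi.single i 1 : Fin n → F) + b k • (Pi.single k 1 : Fin n → F) := by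
        funext j
        by_cases hji : j = i
        · subst hji; simp [hik]
        · by_cases hjk : j = k
          · subst hjk; simp [hji]
          · rw [hout j hji hjk]; simp [hji, hjk]
      have hbi : b i ≠ 0 := by
        intro h
        rw [h, zero_smul, zero_add] at hbs
        rcases three_cases hF (b k) with h3 | h3 | h3
        · apply hb; rw [hbs, h3, zero_smul]
        · apply b3; rw [h3, one_smul] at hbs; exact hbs
        · apply b4; rw [h3, neg_one_smul] at hbs; exact hbs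
      have hbk : b k ≠ 0 := by
        intro h
        rw [h, zero_smul, add_zero] at hbs
        rcases three_cases hF (b i) with h3 | h3 | h3
        · exact hbi h3
        · apply b1; rw [h3, one_smul] at hbs; exact hbs
        · apply b2; rw [h3, neg_one_smul] at hbs; exact hbs
      have hkey : ∀ e : F, e * e = 1 →
          cb (Pi.single i 1 + e • Pi.single k 1) = 1 / 3 := by
        intro e he
        apply hinj
        rw [← hcb]
        exact coef_pm hF hψ hn hE hik hli hlk h1 he hv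
      rcases three_cases hF (b i) with h3 | h3 | h3
      · exact absurd h3 hbi
      · rw [hbs, h3, one_smul]
        exact hkey _ (hsq _ hbk)
      · have : b = -(Pi.single i 1 + (-b k) • (Pi.single k 1 : Fin n → F)) := by
          conv_lhs => rw [hbs, h3]
          rw [neg_one_smul, neg_smul, neg_add, neg_neg]
        rw [this, hneg]
        exact hkey _ (by rw [neg_mul_neg]; exact hsq _ hbk)
  -- the sum of the coefficients
  have hp := sum_psi hF hψ (one_ne_zero (α := F))
  have hpp := psi_mul_neg (ψ := ψ) (1 : F)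
  have hp2 : ψ 1 * ψ 1 = -1 - ψ 1 := by rw [psi_sq hF, hp]
  have hsum : ∑ b ∈ Finset.univ.erase (0 : Fin n → F), cb b =
      ((3 : ℂ) ^ n - 1) / 3 + (2 * ((2 - ε) / 3) - 4 / 3) := by
    have e1 : ∑ b ∈ Finset.univ.erase (0 : Fin n → F), cb b =
        ∑ b ∈ Finset.univ.erase (0 : Fin n → F), (1 / 3 : ℂ) +
        ∑ b ∈ Finset.univ.erase (0 : Fin n → F), (cb b - 1 / 3) := by
      rw [← Finset.sum_add_distrib]
      refine Finset.sum_congr rfl fun b _ => ?_
      ring
    have e2 : ∑ b ∈ Finset.univ.erase (0 : Fin n → F), (1 / 3 : ℂ) = ((3 : ℂ) ^ n - 1) / 3 := by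
      rw [Finset.sum_const, Finset.card_erase_of_mem (Finset.mem_univ _), Finset.card_univ,
        Fintype.card_fun, Fintype.card_fin, hF, nsmul_eq_mul,
        Nat.cast_sub (Nat.one_le_pow _ _ (by norm_num))]
      push_cast
      ring
    have d1 : (Pi.single i 1 : Fin n → F) ≠ -Pi.single i 1 := by
      intro h
      have := congrFun h i
      rw [Pi.neg_apply, hei0] at this
      exact one_ne_neg hF this
    have d2 : (Pi.single k 1 : Fin n → F) ≠ -Pi.single k 1 := by
      intro h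
      have := congrFun h k
      rw [Pi.neg_apply, hek0] at this
      exact one_ne_neg hF this
    have d3 : (Pi.single i 1 : Fin n → F) ≠ Pi.single k 1 := by
      intro h
      have := congrFun h i
      rw [hei0, heki] at this
      exact one_ne_zero this
    have d4 : (Pi.single i 1 : Fin n → F) ≠ -Pi.single k 1 := by
      intro h
      have := congrFun h i
      rw [Pi.neg_apply, hei0, heki, neg_zero] at this
      exact one_ne_zero this
    have d5 : (-Pi.single i 1 : Fin n → F) ≠ Pi.single k 1 := by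
      intro h
      have := congrFun h i
      rw [Pi.neg_apply, hei0, heki] at this
      exact neg_ne_zero.mpr one_ne_zero this
    have d6 : (-Pi.single i 1 : Fin n → F) ≠ -Pi.single k 1 := fun h => d3 (neg_injective h)
    have z1 : (Pi.single i 1 : Fin n → F) ≠ 0 := by
      intro h
      have := congrFun h i
      rw [hei0] at this
      exact one_ne_zero this
    have z2 : (Pi.single k 1 : Fin n → F) ≠ 0 := by
      intro h
      have := congrFun h k
      rw [hek0] at this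
      exact one_ne_zero this
    have e3 : ∑ b ∈ Finset.univ.erase (0 : Fin n → F), (cb b - 1 / 3) =
        ∑ b ∈ ({Pi.single i 1, -Pi.single i 1, Pi.single k 1, -Pi.single k 1} :
          Finset (Fin n → F)), (cb b - 1 / 3) := by
      symm
      apply Finset.sum_subset
      · intro b hb
        rw [Finset.mem_erase]
        refine ⟨?_, Finset.mem_univ _⟩
        simp only [Finset.mem_insert, Finset.mem_singleton] at hb
        rcases hb with rfl | rfl | rfl | rfl
        · exact z1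
        · exact neg_ne_zero.mpr z1
        · exact z2
        · exact neg_ne_zero.mpr z2
      · intro b hb hb'
        simp only [Finset.mem_insert, Finset.mem_singleton, not_or] at hb'
        rw [cother b (Finset.ne_of_mem_erase hb) hb'.1 hb'.2.1 hb'.2.2.1 hb'.2.2.2, sub_self]
    rw [e1, e2, e3, Finset.sum_insert, Finset.sum_insert, Finset.sum_insert,
      Finset.sum_singleton, hneg, hneg, ci, ck, hp]
    · linear_combination (4 / 3 * ε - 4 / 3) * hp2 
    · simpa using d2
    · simpa using ⟨d5, d3⟩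
    · simpa using ⟨d1, d3, d4⟩
  -- the central character
  obtain ⟨μ, hμ, htr⟩ := Aop_scalar hρ i (1 : F)
  have hμval : μ = 3 ^ (n - 1) + 3 ^ n *
      (((3 : ℂ) ^ n - 1) / 3 + (2 * ((2 - ε) / 3) - 4 / 3)) := by
    have h3 := Aop_proj hv
    rw [hμ, map_smul, Pj_of_mem hv, Finset.sum_congr rfl fun b _ => hcb b, ← Finset.sum_smul,
      hsum, smul_smul, ← add_smul, hF] at h3
    have h4 := hinj _ _ h3
    rw [h4]
    have h5 : ∑ a : Fin n → F, ψ (pr β (sV 1 a).1) = (3 : ℂ) ^ (n - 1) := by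
      rw [← gauss_sum hF hψ (by omega) hik]
      refine Finset.sum_congr rfl fun a _ => ?_
      congr 1
      rw [hβ, pr_TU]
      simp only [sV, vecMulVec_apply, _root_.one_smul, _root_.Matrix.mulVec_single, _root_.MulOpposite.op_one, _root_.single_dotProduct, _root_.Matrix.col_apply, _root_.one_mul, _root_.neg_mul]
      ring
    rw [h5]
    norm_num
  -- multiplicities
  have hτ := char_uu (ρ := ρ) hψ h2 (sD i (1 : F))
  simp only [pr_sD, one_mul] at hτ
  rw [sum_split hF i (fun T : Sym n F => finrank ℂ (Wt ρ ψ T.1)) (fun x => ψ x)] at hτ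
  have hdim := finrank_eq_sum (ρ := ρ) hψ h2
  have hdim' : (finrank ℂ V : ℂ) = ∑ T : Sym n F, (1 : ℂ) * (finrank ℂ (Wt ρ ψ T.1) : ℂ) := by
    rw [hdim]; push_cast; simp only [_root_.one_mul]
  rw [sum_split hF i (fun T : Sym n F => finrank ℂ (Wt ρ ψ T.1)) (fun _ => (1 : ℂ))] at hdim'
  obtain ⟨k1, hk1⟩ := dvd_sum (ρ := ρ) (ψ := ψ) i (one_ne_zero (α := F))
  obtain ⟨k2, hk2⟩ := dvd_sum (ρ := ρ) (ψ := ψ) i (neg_ne_zero.mpr (one_ne_zero (α := F)))
  rw [hF] at hk1 hk2
  rw [hk1, hk2] at hτ hdim'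
  rw [hp, AddChar.map_zero_eq_one] at hτ
  generalize (∑ T : Sym n F, (if T.1 i i = 0 then finrank ℂ (Wt ρ ψ T.1) else 0) : ℕ) = M0
    at hτ hdim'
  obtain ⟨X, hX⟩ : ∃ X : ℕ, X = 3 ^ (n - 1) := ⟨_, rfl⟩
  have hXc : (3 : ℂ) ^ (n - 1) = (X : ℂ) := by rw [hX]; push_cast; rfl
  have h3n : (3 : ℂ) ^ n = 3 * (X : ℂ) := by
    rw [← hXc, ← pow_succ']
    congr 1
    omega
  have hX0 : (X : ℂ) ≠ 0 := by
    rw [← hXc]; exact pow_ne_zero _ (by norm_num)
  have hEc : 4 * (finrank ℂ V : ℂ) + 1 = 9 * (X : ℂ) * X := by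
    have h3 : ((4 * finrank ℂ V + 1 : ℕ) : ℂ) = ((9 ^ n : ℕ) : ℂ) := by rw [hE]
    push_cast at h3
    rw [h3]
    have : (9 : ℂ) ^ n = 3 ^ n * 3 ^ n := by rw [← mul_pow]; norm_num
    rw [this, h3n]; ring
  rw [hXc, h3n] at hμval
  rw [← hX] at hτ hdim'
  push_cast at hτ hdim'
  have hpow : (Fintype.card F : ℂ) ^ (2 * n) = 9 * (X : ℂ) * X := by
    rw [hF, mul_comm, pow_mul]
    push_cast
    rw [h3n]; ring
  rw [hpow, hτ] at htr
  have hE0 : (finrank ℂ V : ℂ) ≠ 0 := by
    intro h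
    rw [h] at hEc
    have h3 : ((1 : ℕ) : ℂ) = ((9 * X * X : ℕ) : ℂ) := by push_cast; linear_combination hEc
    have h4 : 1 = 9 * X * X := by exact_mod_cast h3
    have : 9 ∣ 1 := ⟨X * X, by rw [h4]; ring⟩
    omega
  have hμτ : μ = 1 + 4 * (1 * (M0 : ℂ) + (ψ 1 * (X * k1) + (-1 - ψ 1) * (X * k2))) := by
    apply mul_right_cancel₀ hE0
    linear_combination htr - (1 * (M0 : ℂ) + (ψ 1 * (X * k1) + (-1 - ψ 1) * (X * k2))) * hEc
  refine arith (X := X) (k1 := k1) (k2 := k2) hp2 hε1 ?_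
  apply mul_left_cancel₀ (mul_ne_zero (two_ne_zero (α := ℂ)) hX0)
  linear_combination hμval - hμτ + 4 * hdim' - hEc

end Cfsg.Agent.H66.TI
end

-- part: H66/TI/HypNo
section
/-!
# The hyperbolic case, in the form used by `H495/TI/Asm.lean` (helper66)
-/

set_option autoImplicit false

namespace Cfsg.Agent.H66.TI

theorem hypNo (F : Type) [Field F] [Fintype F] (hF : Fintype.card F = 3) :
    H495.TI.HypNo F := by
  intro n V _ _ _ ρ ψ hψ hn hρ hz hE i k hik h1 h0
  exact hyp_no hF hψ hn hρ hz hE hik h1 h0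

end Cfsg.Agent.H66.TI
end

private theorem dce_2bd1a203326e : _root_.True := by
  try have : _root_.True := by simp only [_root_.Cfsg.Agent.H66.TI.sh.eq_1]
  try have : _root_.True := by simp only [_root_.Cfsg.Agent.H66.TI.Aop.eq_1]
  try have : _root_.True := by simp only [_root_.Cfsg.Agent.H66.TI.ez.eq_1]
  try have : _root_.True := by simp only [_root_.Cfsg.Agent.H66.TI.sV.eq_1]
  try have : _root_.True := by simp only [_root_.Cfsg.Agent.H162.Weil.tv.congr_simp]
  exact _root_.True.intro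
end

-- part: H495/TI/AsmB
section
set_option linter.all false
open scoped Cfsg.Agent.FastGrp

/-!
# The anisotropic case from the dimension bound (helper495)
-/

set_option autoImplicit false
open Matrix Module

namespace Cfsg.Agent.H495.TI

open Cfsg Cfsg.Agent.H162.Weil Cfsg.Agent.H66.Cod

/-- the dimension bound of the anisotropic case -/
def AnisoLe (F : Type) [Field F] [Fintype F] : Prop :=
  ∀ (m : ℕ) (V : Type) [AddCommGroup V] [Module ℂ V] [FiniteDimensional ℂ V]
    (ρ : Representation ℂ (Sp (m + 1) F) V) (ψ : AddChar F ℂ), ψ.IsPrimitive → 2 ≤ m →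
    ρ.IsIrreducible → (∀ v, ρ (zz (m + 1) F) v = v) → RkTwo ρ ψ →
    (∀ w ∈ Wt ρ ψ (TU 1 (-1) (Pi.single 0 1) (Pi.single 1 1)), w = 0) →
    (∃ v ∈ Wt ρ ψ (TU 1 1 (Pi.single 0 1) (Pi.single 1 1)), v ≠ 0) →
    finrank ℂ V ≤ 2 * 3 ^ m * (3 ^ m + 1)

theorem anisoNo_of_le (F : Type) [Field F] [Fintype F] (hF : Fintype.card F = 3)
    (H : AnisoLe F) : AnisoNo F := by
  intro n V _ _ _ ρ ψ hψ hn hρ hz hE i k hik hv hw
  obtain ⟨m, rfl⟩ : ∃ m, n = m + 1 := ⟨n - 1, by omega⟩
  have h01 : (0 : Fin (m + 1)) ≠ 1 := by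
    obtain ⟨l, rfl⟩ : ∃ l, m = l + 1 := ⟨m - 1, by omega⟩
    exact Fin.zero_ne_one
  obtain ⟨v, hv, hne⟩ := hv
  obtain ⟨h, hh⟩ := TU_move hik h01 (1 : F) 1
  obtain ⟨g, hg⟩ := TU_move h01 hik (1 : F) (-1)
  have hv' := mm_mem_Wt h hv
  rw [hh] at hv'
  have hle := H m V ρ ψ hψ (by omega) hρ hz (rkTwo hψ hF hn hE)
    (by
      intro w hw'
      have h1 := mm_mem_Wt g hw'
      rw [hg] at h1
      exact rho_inj (ρ := ρ) (mm g) (by rw [hw _ h1, map_zero]))
    ⟨_, hv', by
      intro h0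
      exact hne (rho_inj (ρ := ρ) (mm h) (by rw [h0, map_zero]))⟩
  have hX : 9 ≤ 3 ^ m := by
    calc 9 = 3 ^ 2 := by norm_num
      _ ≤ 3 ^ m := Nat.pow_le_pow_right (by norm_num) (by omega)
  have h9 : 9 ^ (m + 1) = 9 * (3 ^ m * 3 ^ m) := by
    rw [pow_succ, ← mul_pow]; norm_num; ring
  rw [h9] at hE
  nlinarith

/-- **T-I, `q = 3`.** -/
theorem psp_three_of (H1 : ∀ (F : Type) [Field F] [Fintype F], Fintype.card F = 3 → HypNo F)
    (H2 : ∀ (F : Type) [Field F] [Fintype F], Fintype.card F = 3 → AnisoLe F) :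
    ∀ {F : Type} [Field F] [Fintype F] {n d : ℕ}, Fintype.card F = 3 → 3 ≤ n →
      NDeg (PSp n F) d → 4 * d ≠ 9 ^ n - 1 := by
  intro F _ _ n d hF hn hd
  exact psp_no_of F hF (H1 F hF) (anisoNo_of_le F hF (H2 F hF)) hn hd

end Cfsg.Agent.H495.TI
end
end
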